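import Mathlib

/-!
# Groups with the numerical profile of `PSL(2, 13)`: normalizers of non-normal subgroups are
maximal, part 1 (helper9)
-/

set_option autoImplicit false

namespace Cfsg.Agent.Helper9

/-- Cauchy's theorem inside a subgroup. -/
theorem cauchy_sub_h9 {G : Type*} [Group G] [Finite G] (X : Subgroup G) (r : ℕ) [Fact r.Prime]
    (h : r ∣ Nat.card X) : ∃ c ∈ X, orderOf c = r := by
  obtain ⟨x, hx⟩ := exists_prime_orderOf_dvd_card' (G := X) r h
  exact ⟨x.1, x.2, by rw [← hx, Subgroup.orderOf_coe]⟩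

/-- Sylow's congruence for the normalizer of a Sylow subgroup given as a plain subgroup. -/
theorem sylow_norm_count_h9 {G : Type*} [Group G] [Finite G] (p : ℕ) [Fact p.Prime]
    (A : Subgroup G) (hA : IsPGroup p A) (hi : ¬ p ∣ A.index) :
    (Subgroup.normalizer (A : Set G)).index % p = 1 % p := by
  have h1 := card_sylow_modEq_one p G
  have h2 := Sylow.card_eq_index_normalizer (hA.toSylow hi)
  rw [h2] at h1
  exact h1

/-- Burnside's transfer theorem in a simple group: a nontrivial proper Sylow subgroup is not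
central in its normalizer. -/
theorem burnside_simple_h9 {G : Type*} [Group G] [Finite G] [IsSimpleGroup G] (p : ℕ)
    [Fact p.Prime] (A : Subgroup G) (hA : IsPGroup p A) (hi : ¬ p ∣ A.index) (hb : A ≠ ⊥)
    (ht : A ≠ ⊤)
    (hN : Subgroup.normalizer (A : Set G) ≤ Subgroup.centralizer (A : Set G)) : False := by
  have hN' : Subgroup.normalizer ((hA.toSylow hi : Sylow p G) : Set G) ≤
      Subgroup.centralizer ((hA.toSylow hi : Sylow p G) : Set G) := hN
  have hc := MonoidHom.ker_transferSylow_isComplement' (hA.toSylow hi) hN'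
  have hcard := hc.card_mul
  have hPA : Nat.card ((hA.toSylow hi : Sylow p G) : Subgroup G) = Nat.card A := rfl
  rw [hPA] at hcard
  rcases (MonoidHom.normal_ker (MonoidHom.transferSylow (hA.toSylow hi) hN')).eq_bot_or_eq_top
    with hk | hk
  · rw [hk, Subgroup.card_bot, one_mul] at hcard
    exact ht ((Subgroup.card_eq_iff_eq_top _).mp hcard)
  · rw [hk, Subgroup.card_top] at hcard
    have hpos : 0 < Nat.card G := Nat.card_pos
    have h' : Nat.card G * Nat.card A = Nat.card G * 1 := by rw [mul_one]; exact hcard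
    have : Nat.card A = 1 := Nat.eq_of_mul_eq_mul_left hpos h'
    exact hb (Subgroup.card_eq_one.mp this)

/-- the elements of a cyclic group of order three. -/
theorem order3_elems_h9 {G : Type*} [Group G] (a y : G) (ha : orderOf a = 3)
    (hy : y ∈ Subgroup.zpowers a) : y = 1 ∨ y = a ∨ y = a⁻¹ := by
  obtain ⟨k, rfl⟩ := Subgroup.mem_zpowers_iff.mp hy
  have h3 : a ^ (3 : ℤ) = 1 := by
    have := pow_orderOf_eq_one a
    rw [ha] at this
    exact_mod_cast this
  have hk : a ^ k = a ^ (k % 3) := by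
    conv_lhs => rw [← Int.emod_add_mul_ediv k 3]
    rw [zpow_add, zpow_mul, h3, one_zpow, mul_one]
  have h0 : 0 ≤ k % 3 := Int.emod_nonneg _ (by norm_num)
  have h2 : k % 3 < 3 := Int.emod_lt_of_pos _ (by norm_num)
  rw [hk]
  obtain h | h | h : k % 3 = 0 ∨ k % 3 = 1 ∨ k % 3 = 2 := by omega
  · left; rw [h, zpow_zero]
  · right; left; rw [h, zpow_one]
  · right; right; rw [h]
    have h21 : a ^ (2 : ℤ) * a = 1 := by
      have : a ^ (2 : ℤ) * a = a ^ (3 : ℤ) := by
        rw [show (3 : ℤ) = 2 + 1 by norm_num, zpow_add, zpow_one]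
      rw [this, h3]
    exact eq_inv_of_mul_eq_one_left h21

/-- the numerical profile of `PSL(2, 13)`. -/
def Prof1092_h9 (G : Type*) [Group G] : Prop :=
  Nat.card G = 1092 ∧ IsSimpleGroup G ∧
  (∀ H : Subgroup G, Nat.card H ∈ ({1, 2, 3, 4, 6, 7, 12, 13, 14, 26, 39, 78, 1092} : Finset ℕ)) ∧
  (∀ g : G, orderOf g ∈ ({1, 2, 3, 6, 7, 13} : Finset ℕ))

section

variable {G : Type*} [Group G] [Finite G]

theorem prof_idx_h9 (h0 : Nat.card G = 1092) (A : Subgroup G) :
    Nat.card A * A.index = 1092 := by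
  rw [Subgroup.card_mul_index, h0]

theorem prof_ord_h9 (hP : Prof1092_h9 G) (H : Subgroup G) :
    Nat.card H = 1 ∨ Nat.card H = 2 ∨ Nat.card H = 3 ∨ Nat.card H = 4 ∨ Nat.card H = 6 ∨
    Nat.card H = 7 ∨ Nat.card H = 12 ∨ Nat.card H = 13 ∨ Nat.card H = 14 ∨ Nat.card H = 26 ∨
    Nat.card H = 39 ∨ Nat.card H = 78 ∨ Nat.card H = 1092 := by
  have := hP.2.2.1 H
  simpa only [Finset.mem_insert, Finset.mem_singleton] using this

theorem prof_elt_h9 (hP : Prof1092_h9 G) (g : G) :
    orderOf g = 1 ∨ orderOf g = 2 ∨ orderOf g = 3 ∨ orderOf g = 6 ∨ orderOf g = 7 ∨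
    orderOf g = 13 := by
  have := hP.2.2.2 g
  simpa only [Finset.mem_insert, Finset.mem_singleton] using this

/-- no element has order `a * b` for commuting elements of coprime orders `a`, `b` outside the
list. -/
theorem prof_comm_h9 (hP : Prof1092_h9 G) (x y : G) (hxy : x * y = y * x)
    (hco : (orderOf x).Coprime (orderOf y)) :
    orderOf x * orderOf y = 1 ∨ orderOf x * orderOf y = 2 ∨ orderOf x * orderOf y = 3 ∨
    orderOf x * orderOf y = 6 ∨ orderOf x * orderOf y = 7 ∨ orderOf x * orderOf y = 13 := by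
  have h : Commute x y := hxy
  rw [← h.orderOf_mul_eq_mul_orderOf_of_coprime hco]
  exact prof_elt_h9 hP (x * y)

/-- subgroups of order `12`, `14` or `78` are maximal. -/
theorem prof_coatom_h9 (hP : Prof1092_h9 G) (M : Subgroup G)
    (hM : Nat.card M = 12 ∨ Nat.card M = 14 ∨ Nat.card M = 78) : IsCoatom M := by
  have h0 := hP.1
  constructor
  · intro htop
    rw [htop, Subgroup.card_top] at hM
    omega
  · intro M' hlt
    have hd := Subgroup.card_dvd_of_le hlt.le
    have hne : Nat.card M ≠ Nat.card M' := by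
      intro heq
      exact hlt.ne (Subgroup.eq_of_le_of_card_ge hlt.le (by rw [heq]))
    have hM' := prof_ord_h9 hP M'
    have : Nat.card M' = 1092 := by
      rcases hM with h | h | h <;> rw [h] at hd hne <;>
      rcases hM' with h' | h' | h' | h' | h' | h' | h' | h' | h' | h' | h' | h' | h' <;>
      first | exact h' | (rw [h'] at hd hne; omega)
    exact (Subgroup.card_eq_iff_eq_top _).mp (by rw [this, h0])

/-- the normalizer of a proper nontrivial subgroup is proper. -/
theorem prof_norm_ne_h9 (hP : Prof1092_h9 G) (A : Subgroup G) (h1 : Nat.card A ≠ 1)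
    (h2 : Nat.card A ≠ 1092) : Nat.card (Subgroup.normalizer (A : Set G)) ≠ 1092 := by
  obtain ⟨h0, hs, -, -⟩ := hP
  intro h
  have htop : Subgroup.normalizer (A : Set G) = ⊤ :=
    (Subgroup.card_eq_iff_eq_top _).mp (by rw [h, h0])
  have hn : A.Normal := Subgroup.normalizer_eq_top_iff.mp htop
  haveI := hs
  rcases hn.eq_bot_or_eq_top with hb | ht
  · apply h1; rw [hb]; exact Subgroup.card_bot
  · apply h2; rw [ht, Subgroup.card_top, h0]

theorem prof_norm13_h9 (hP : Prof1092_h9 G) (A : Subgroup G) (hA : Nat.card A = 13) :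
    Nat.card (Subgroup.normalizer (A : Set G)) = 78 := by
  have h0 := hP.1
  haveI : Fact (Nat.Prime 13) := ⟨by norm_num⟩
  have hAp : IsPGroup 13 A := IsPGroup.of_card (n := 1) (by rw [hA, pow_one])
  have hidx := prof_idx_h9 h0 A
  have hi : ¬ 13 ∣ A.index := by rw [hA] at hidx; omega
  have hmod := sylow_norm_count_h9 13 A hAp hi
  have hN := prof_idx_h9 h0 (Subgroup.normalizer (A : Set G))
  have hd := Subgroup.card_dvd_of_le (Subgroup.le_normalizer (H := A))
  have hne := prof_norm_ne_h9 hP A (by omega) (by omega)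
  rw [hA] at hd
  rcases prof_ord_h9 hP (Subgroup.normalizer (A : Set G)) with
    h | h | h | h | h | h | h | h | h | h | h | h | h <;> rw [h] at hN hd <;> omega

theorem prof_norm7_h9 (hP : Prof1092_h9 G) (A : Subgroup G) (hA : Nat.card A = 7) :
    Nat.card (Subgroup.normalizer (A : Set G)) = 14 := by
  have h0 := hP.1
  haveI : Fact (Nat.Prime 7) := ⟨by norm_num⟩
  have hAp : IsPGroup 7 A := IsPGroup.of_card (n := 1) (by rw [hA, pow_one])
  have hidx := prof_idx_h9 h0 A
  have hi : ¬ 7 ∣ A.index := by rw [hA] at hidx; omega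
  have hmod := sylow_norm_count_h9 7 A hAp hi
  have hN := prof_idx_h9 h0 (Subgroup.normalizer (A : Set G))
  have hd := Subgroup.card_dvd_of_le (Subgroup.le_normalizer (H := A))
  have hne := prof_norm_ne_h9 hP A (by omega) (by omega)
  rw [hA] at hd
  rcases prof_ord_h9 hP (Subgroup.normalizer (A : Set G)) with
    h | h | h | h | h | h | h | h | h | h | h | h | h <;> rw [h] at hN hd <;> omega

end

end Cfsg.Agent.Helper9
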