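import Mathlib
import Cfsg.Agent.Helper9.Mn1

/-!
# Groups with the numerical profile of `PSL(2, 13)`, part 2: all normalizers (helper9)
-/

set_option autoImplicit false

namespace Cfsg.Agent.Helper9

/-- a subgroup of index two is normalized by the big group. -/
theorem norm_le_of_index_two_h9 {G : Type*} [Group G] [Finite G] (X Y : Subgroup G) (h : X ≤ Y)
    (hc : Nat.card Y = 2 * Nat.card X) : Y ≤ Subgroup.normalizer (X : Set G) := by
  have h1 := Subgroup.card_mul_index (X.subgroupOf Y)
  have h2 : Nat.card (X.subgroupOf Y) = Nat.card X :=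
    Nat.card_congr (Subgroup.subgroupOfEquivOfLe h).toEquiv
  have hpos : 0 < Nat.card X := Nat.card_pos
  have hidx : (X.subgroupOf Y).index = 2 := by
    rw [h2, hc] at h1
    have : Nat.card X * (X.subgroupOf Y).index = Nat.card X * 2 := by rw [h1]; ring
    exact Nat.eq_of_mul_eq_mul_left hpos this
  have hn := Subgroup.normal_of_index_eq_two hidx
  exact (Subgroup.normal_subgroupOf_iff_le_normalizer h).mp hn

section

variable {G : Type*} [Group G] [Finite G]

theorem prof_norm3_h9 (hP : Prof1092_h9 G) (A : Subgroup G) (hA : Nat.card A = 3) :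
    Nat.card (Subgroup.normalizer (A : Set G)) = 12 := by
  have h0 := hP.1
  haveI := hP.2.1
  haveI : Fact (Nat.Prime 3) := ⟨by norm_num⟩
  haveI : Fact (Nat.Prime 13) := ⟨by norm_num⟩
  have hAp : IsPGroup 3 A := IsPGroup.of_card (n := 1) (by rw [hA, pow_one])
  have hidx := prof_idx_h9 h0 A
  have hi : ¬ 3 ∣ A.index := by rw [hA] at hidx; omega
  have hmod := sylow_norm_count_h9 3 A hAp hi
  have hN := prof_idx_h9 h0 (Subgroup.normalizer (A : Set G))
  have hd := Subgroup.card_dvd_of_le (Subgroup.le_normalizer (H := A))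
  have hne := prof_norm_ne_h9 hP A (by omega) (by omega)
  rw [hA] at hd
  obtain ⟨a, haA, ha⟩ := cauchy_sub_h9 A 3 (by rw [hA])
  have hAz : A = Subgroup.zpowers a := by
    symm
    apply Subgroup.eq_of_le_of_card_ge (Subgroup.zpowers_le.mpr haA)
    rw [Nat.card_zpowers, ha, hA]
  have hne3 : Nat.card (Subgroup.normalizer (A : Set G)) ≠ 3 := by
    intro h3
    have heq : A = Subgroup.normalizer (A : Set G) :=
      Subgroup.eq_of_le_of_card_ge Subgroup.le_normalizer (by rw [h3, hA])
    apply burnside_simple_h9 3 A hAp hi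
    · intro hb; rw [hb, Subgroup.card_bot] at hA; omega
    · intro ht; rw [ht, Subgroup.card_top, h0] at hA; omega
    · intro g hg
      rw [← heq] at hg
      rw [Subgroup.mem_centralizer_iff]
      intro h hh
      have hg' : g ∈ Subgroup.zpowers a := by rw [← hAz]; exact hg
      have hh' : h ∈ Subgroup.zpowers a := by rw [← hAz]; exact hh
      obtain ⟨i, rfl⟩ := Subgroup.mem_zpowers_iff.mp hg'
      obtain ⟨j, rfl⟩ := Subgroup.mem_zpowers_iff.mp hh'
      rw [← zpow_add, ← zpow_add, add_comm]
  have hne39 : Nat.card (Subgroup.normalizer (A : Set G)) ≠ 39 := by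
    intro h39
    obtain ⟨x, hxN, hx⟩ := cauchy_sub_h9 (Subgroup.normalizer (A : Set G)) 13
      (by rw [h39]; norm_num)
    have hxa : x * a * x⁻¹ ∈ Subgroup.zpowers a := by
      rw [← hAz]; exact (Subgroup.mem_normalizer_iff.mp hxN a).mp haA
    have hcomm : x * a = a * x := by
      rcases order3_elems_h9 a _ ha hxa with h | h | h
      · exfalso
        have h1 : a = 1 := by
          have e : a = x⁻¹ * (x * a * x⁻¹) * x := by group
          rw [e, h]; group
        rw [h1, orderOf_one] at ha; omega
      · calc x * a = x * a * x⁻¹ * x := by group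
          _ = a * x := by rw [h]
      · have e1 : x * a = a⁻¹ * x := by
          calc x * a = x * a * x⁻¹ * x := by group
            _ = a⁻¹ * x := by rw [h]
        have e2 : x * a⁻¹ = a * x := by
          have e3 : x * a⁻¹ * x⁻¹ = a := by
            have : x * a⁻¹ * x⁻¹ = (x * a * x⁻¹)⁻¹ := by group
            rw [this, h, inv_inv]
          calc x * a⁻¹ = x * a⁻¹ * x⁻¹ * x := by group
            _ = a * x := by rw [e3]
        have h2 : x ^ 2 * a = a * x ^ 2 := by
          calc x ^ 2 * a = x * (x * a) := by rw [pow_two, mul_assoc]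
            _ = x * (a⁻¹ * x) := by rw [e1]
            _ = (x * a⁻¹) * x := by rw [mul_assoc]
            _ = a * x * x := by rw [e2]
            _ = a * x ^ 2 := by rw [pow_two, mul_assoc]
        have hx14 : x = (x ^ 2) ^ 7 := by
          have h13 : x ^ 13 = 1 := by rw [← hx]; exact pow_orderOf_eq_one x
          calc x = x ^ 13 * x := by rw [h13, one_mul]
            _ = (x ^ 2) ^ 7 := by rw [← pow_mul, ← pow_succ]
        have hc : Commute (x ^ 2) a := h2
        rw [hx14]
        exact (hc.pow_left 7).eq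
    have hco : (orderOf x).Coprime (orderOf a) := by rw [hx, ha]; norm_num
    have := prof_comm_h9 hP x a hcomm hco
    rw [hx, ha] at this
    omega
  rcases prof_ord_h9 hP (Subgroup.normalizer (A : Set G)) with
    h | h | h | h | h | h | h | h | h | h | h | h | h <;> rw [h] at hN hd <;> omega

theorem prof_norm4_h9 (hP : Prof1092_h9 G) (A : Subgroup G) (hA : Nat.card A = 4) :
    Nat.card (Subgroup.normalizer (A : Set G)) = 12 := by
  have h0 := hP.1
  haveI := hP.2.1
  haveI : Fact (Nat.Prime 2) := ⟨by norm_num⟩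
  have hAp : IsPGroup 2 A := IsPGroup.of_card (n := 2) (by rw [hA]; norm_num)
  have hidx := prof_idx_h9 h0 A
  have hi : ¬ 2 ∣ A.index := by rw [hA] at hidx; omega
  have hN := prof_idx_h9 h0 (Subgroup.normalizer (A : Set G))
  have hd := Subgroup.card_dvd_of_le (Subgroup.le_normalizer (H := A))
  have hne := prof_norm_ne_h9 hP A (by omega) (by omega)
  rw [hA] at hd
  have hne4 : Nat.card (Subgroup.normalizer (A : Set G)) ≠ 4 := by
    intro h4
    have heq : A = Subgroup.normalizer (A : Set G) :=
      Subgroup.eq_of_le_of_card_ge Subgroup.le_normalizer (by rw [h4, hA])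
    apply burnside_simple_h9 2 A hAp hi
    · intro hb; rw [hb, Subgroup.card_bot] at hA; omega
    · intro ht; rw [ht, Subgroup.card_top, h0] at hA; omega
    · intro g hg
      rw [← heq] at hg
      rw [Subgroup.mem_centralizer_iff]
      intro h hh
      have := IsPGroup.commutative_of_card_eq_prime_sq (p := 2) (G := A)
        (by rw [hA]; norm_num) ⟨h, hh⟩ ⟨g, hg⟩
      exact congrArg Subtype.val this
  rcases prof_ord_h9 hP (Subgroup.normalizer (A : Set G)) with
    h | h | h | h | h | h | h | h | h | h | h | h | h <;> rw [h] at hN hd <;> omega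

/-- there is an element of order six. -/
theorem prof_elt6_h9 (hP : Prof1092_h9 G) : ∃ g : G, orderOf g = 6 := by
  have h0 := hP.1
  haveI : Fact (Nat.Prime 3) := ⟨by norm_num⟩
  haveI : Fact (Nat.Prime 2) := ⟨by norm_num⟩
  obtain ⟨a, -, ha⟩ := cauchy_sub_h9 (⊤ : Subgroup G) 3
    (by rw [Subgroup.card_top, h0]; norm_num)
  have hA : Nat.card (Subgroup.zpowers a) = 3 := by rw [Nat.card_zpowers, ha]
  have hN := prof_norm3_h9 hP (Subgroup.zpowers a) hA
  obtain ⟨K, hK⟩ := Sylow.exists_subgroup_card_pow_prime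
    (G := Subgroup.normalizer ((Subgroup.zpowers a : Subgroup G) : Set G)) 2 (n := 2)
    (by rw [hN]; norm_num)
  have hci : ∀ n ∈ Subgroup.normalizer ((Subgroup.zpowers a : Subgroup G) : Set G),
      n * a = a * n ∨ n * a * n⁻¹ = a⁻¹ := by
    intro n hn
    have hna : n * a * n⁻¹ ∈ Subgroup.zpowers a :=
      (Subgroup.mem_normalizer_iff.mp hn a).mp (Subgroup.mem_zpowers a)
    rcases order3_elems_h9 a _ ha hna with h | h | h
    · exfalso
      have h1 : a = 1 := by
        have e : a = n⁻¹ * (n * a * n⁻¹) * n := by group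
        rw [e, h]; group
      rw [h1, orderOf_one] at ha; omega
    · left
      calc n * a = n * a * n⁻¹ * n := by group
        _ = a * n := by rw [h]
    · right; exact h
  have hprod : ∀ n m : G, n * a * n⁻¹ = a⁻¹ → m * a * m⁻¹ = a⁻¹ →
      (n⁻¹ * m) * a = a * (n⁻¹ * m) := by
    intro n m hn hm
    have h1 : m * a = a⁻¹ * m := by
      calc m * a = m * a * m⁻¹ * m := by group
        _ = a⁻¹ * m := by rw [hm]
    have h2 : n⁻¹ * a⁻¹ = a * n⁻¹ := by
      calc n⁻¹ * a⁻¹ = n⁻¹ * (n * a * n⁻¹) := by rw [hn]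
        _ = a * n⁻¹ := by group
    calc n⁻¹ * m * a = n⁻¹ * (m * a) := by rw [mul_assoc]
      _ = n⁻¹ * (a⁻¹ * m) := by rw [h1]
      _ = (n⁻¹ * a⁻¹) * m := by rw [mul_assoc]
      _ = a * n⁻¹ * m := by rw [h2]
      _ = a * (n⁻¹ * m) := by rw [mul_assoc]
  have hex : ∃ w : Subgroup.normalizer ((Subgroup.zpowers a : Subgroup G) : Set G),
      w ∈ K ∧ w ≠ 1 ∧ (w : G) * a = a * (w : G) := by
    by_contra hcon
    push_neg at hcon
    have hinv : ∀ w : Subgroup.normalizer ((Subgroup.zpowers a : Subgroup G) : Set G),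
        w ∈ K → w ≠ 1 → (w : G) * a * (w : G)⁻¹ = a⁻¹ := by
      intro w hw hw1
      rcases hci w w.2 with h | h
      · exact absurd h (hcon w hw hw1)
      · exact h
    obtain ⟨w₁, hw₁K, hw₁⟩ : ∃ w : Subgroup.normalizer
        ((Subgroup.zpowers a : Subgroup G) : Set G), w ∈ K ∧ w ≠ 1 := by
      by_contra hno
      push_neg at hno
      have : K = ⊥ := by
        rw [Subgroup.eq_bot_iff_forall]; exact hno
      rw [this, Subgroup.card_bot] at hK
      omega
    have hall : ∀ w : Subgroup.normalizer ((Subgroup.zpowers a : Subgroup G) : Set G),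
        w ∈ K → w = 1 ∨ w = w₁ := by
      intro w hw
      by_cases hw1 : w = 1
      · left; exact hw1
      · right
        have hc := hprod _ _ (hinv w₁ hw₁K hw₁) (hinv w hw hw1)
        have hmem : w₁⁻¹ * w ∈ K := K.mul_mem (K.inv_mem hw₁K) hw
        by_contra hne
        have hne1 : w₁⁻¹ * w ≠ 1 := by
          intro h
          apply hne
          exact (inv_mul_eq_one.mp h).symm
        exact hcon _ hmem hne1 (by simpa using hc)
    have hsq : w₁ * w₁ = 1 := by
      rcases hall (w₁ * w₁) (K.mul_mem hw₁K hw₁K) with h | h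
      · exact h
      · exfalso; apply hw₁
        have : w₁ * w₁ = w₁ * 1 := by rw [mul_one]; exact h
        exact mul_left_cancel this
    have hle : K ≤ Subgroup.zpowers w₁ := by
      intro w hw
      rcases hall w hw with h | h
      · rw [h]; exact Subgroup.one_mem _
      · rw [h]; exact Subgroup.mem_zpowers _
    have hdvd := Subgroup.card_dvd_of_le hle
    rw [hK, Nat.card_zpowers] at hdvd
    have h2 : orderOf w₁ ∣ 2 := orderOf_dvd_of_pow_eq_one (by rw [pow_two]; exact hsq)
    have := Nat.le_of_dvd (by norm_num) (hdvd.trans h2)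
    omega
  obtain ⟨w, hwK, hw1, hwa⟩ := hex
  have hwo : orderOf (w : G) ∣ 4 := by
    have h1 := orderOf_dvd_natCard (⟨w, hwK⟩ : K)
    rw [hK] at h1
    have h2 : orderOf (⟨w, hwK⟩ : K) = orderOf w := Subgroup.orderOf_mk w hwK
    rw [h2, ← Subgroup.orderOf_coe] at h1
    exact h1
  have hw1' : orderOf (w : G) ≠ 1 := by
    intro h
    rw [orderOf_eq_one_iff] at h
    exact hw1 (Subtype.ext h)
  have hw2 : orderOf (w : G) = 2 := by
    rcases prof_elt_h9 hP (w : G) with h | h | h | h | h | h <;> rw [h] at hwo hw1' <;> omega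
  have hco : (orderOf (w : G)).Coprime (orderOf a) := by rw [hw2, ha]; norm_num
  have hc : Commute (w : G) a := hwa
  refine ⟨(w : G) * a, ?_⟩
  rw [hc.orderOf_mul_eq_mul_orderOf_of_coprime hco, hw2, ha]

/-- the centralizer of an involution contains a four-group and has order `4` or `12`. -/
theorem prof_cent_cases_h9 (hP : Prof1092_h9 G) (t : G) (ht : orderOf t = 2) :
    ∃ V : Subgroup G, Nat.card V = 4 ∧ t ∈ V ∧ V ≤ Subgroup.centralizer ({t} : Set G) ∧
      (Nat.card (Subgroup.centralizer ({t} : Set G)) = 4 ∨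
        Nat.card (Subgroup.centralizer ({t} : Set G)) = 12) := by
  have h0 := hP.1
  haveI := hP.2.1
  haveI : Fact (Nat.Prime 2) := ⟨by norm_num⟩
  have hz : Nat.card (Subgroup.zpowers t) = 2 ^ 1 := by rw [Nat.card_zpowers, ht, pow_one]
  obtain ⟨V, hV, htV⟩ := Sylow.exists_subgroup_card_pow_prime_le 2 (m := 2) (n := 1)
    (by rw [h0]; norm_num) (Subgroup.zpowers t) hz (by norm_num)
  have hV4 : Nat.card V = 4 := by rw [hV]; norm_num
  have htV' : t ∈ V := htV (Subgroup.mem_zpowers t)
  have hVC : V ≤ Subgroup.centralizer ({t} : Set G) := by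
    intro v hv
    rw [Subgroup.mem_centralizer_iff]
    intro x hx
    rw [Set.mem_singleton_iff] at hx
    rw [hx]
    have := IsPGroup.commutative_of_card_eq_prime_sq (p := 2) (G := V)
      (by rw [hV4]; norm_num) ⟨t, htV'⟩ ⟨v, hv⟩
    exact congrArg Subtype.val this
  refine ⟨V, hV4, htV', hVC, ?_⟩
  have hd := Subgroup.card_dvd_of_le hVC
  rw [hV4] at hd
  have hne : Nat.card (Subgroup.centralizer ({t} : Set G)) ≠ 1092 := by
    intro h
    have htop : Subgroup.centralizer ({t} : Set G) = ⊤ :=
      (Subgroup.card_eq_iff_eq_top _).mp (by rw [h, h0])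
    have hcen : ∀ g : G, g * t = t * g := by
      intro g
      have hg : g ∈ Subgroup.centralizer ({t} : Set G) := by rw [htop]; exact Subgroup.mem_top g
      rw [Subgroup.mem_centralizer_iff] at hg
      exact (hg t rfl).symm
    have hn : (Subgroup.zpowers t).Normal := by
      constructor
      intro n hn g
      obtain ⟨k, rfl⟩ := Subgroup.mem_zpowers_iff.mp hn
      have hc : Commute g t := hcen g
      have e : g * t ^ k * g⁻¹ = t ^ k := by
        rw [(hc.zpow_right k).eq]; group
      rw [e]; exact Subgroup.zpow_mem _ (Subgroup.mem_zpowers t) k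
    have hz2 : Nat.card (Subgroup.zpowers t) = 2 := by rw [Nat.card_zpowers, ht]
    rcases hn.eq_bot_or_eq_top with hb | htp
    · rw [hb, Subgroup.card_bot] at hz2; omega
    · rw [htp, Subgroup.card_top, h0] at hz2; omega
  rcases prof_ord_h9 hP (Subgroup.centralizer ({t} : Set G)) with
    h | h | h | h | h | h | h | h | h | h | h | h | h <;> rw [h] at hd <;> omega

end

end Cfsg.Agent.Helper9
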