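import Mathlib
import Cfsg.Agent.Helper9.Mn2

/-!
# Groups with the numerical profile of `PSL(2, 13)`, part 3: the main theorem (helper9)
-/

set_option autoImplicit false

namespace Cfsg.Agent.Helper9

section

variable {G : Type*} [Group G] [Finite G]

/-- if an involution has a centralizer of order four, all involutions are conjugate to it. -/
theorem prof_inv_conj_h9 (hP : Prof1092_h9 G) (t : G) (ht : orderOf t = 2)
    (h4 : Nat.card (Subgroup.centralizer ({t} : Set G)) = 4) (s : G) (hs : orderOf s = 2) :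
    ∃ h : G, h * t * h⁻¹ = s := by
  classical
  have h0 := hP.1
  haveI : Fact (Nat.Prime 2) := ⟨by norm_num⟩
  haveI : Fact (Nat.Prime 3) := ⟨by norm_num⟩
  obtain ⟨V, hV4, htV, hVC, -⟩ := prof_cent_cases_h9 hP t ht
  have hVeq : V = Subgroup.centralizer ({t} : Set G) :=
    Subgroup.eq_of_le_of_card_ge hVC (by rw [h4, hV4])
  have hmemV : ∀ g : G, g ∈ V ↔ g * t = t * g := by
    intro g
    rw [hVeq, Subgroup.mem_centralizer_iff]
    constructor
    · intro h; exact (h t rfl).symm
    · intro h x hx; rw [Set.mem_singleton_iff] at hx; rw [hx]; exact h.symm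
  have hNV := prof_norm4_h9 hP V hV4
  obtain ⟨y, hyN, hy⟩ := cauchy_sub_h9 (Subgroup.normalizer (V : Set G)) 3
    (by rw [hNV]; norm_num)
  have ht1 : t ≠ 1 := by
    intro h; rw [h, orderOf_one] at ht; omega
  -- elements of order three do not centralize t
  have hno3 : ∀ c : G, orderOf c = 3 → ¬ (c * t = t * c) := by
    intro c hc hct
    have hcV : c ∈ V := (hmemV c).mpr hct
    have := Subgroup.orderOf_dvd_natCard V hcV
    rw [hc, hV4] at this
    omega
  have hy3 : y ^ 3 = 1 := by rw [← hy]; exact pow_orderOf_eq_one y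
  have hnorm : ∀ v : G, v ∈ V → y * v * y⁻¹ ∈ V := fun v hv =>
    (Subgroup.mem_normalizer_iff.mp hyN v).mp hv
  have hV1 : y * t * y⁻¹ ∈ V := hnorm t htV
  have hV2 : y * (y * t * y⁻¹) * y⁻¹ ∈ V := hnorm _ hV1
  have d1 : y * t * y⁻¹ ≠ t := by
    intro h
    apply hno3 y hy
    calc y * t = y * t * y⁻¹ * y := by group
      _ = t * y := by rw [h]
  have d2 : y * (y * t * y⁻¹) * y⁻¹ ≠ y * t * y⁻¹ := by
    intro h
    apply d1
    have e : y * t * y⁻¹ = y⁻¹ * (y * (y * t * y⁻¹) * y⁻¹) * y := by group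
    rw [e, h]; group
  have d3 : y * (y * t * y⁻¹) * y⁻¹ ≠ t := by
    intro h
    have h2 : (y * y) * t = t * (y * y) := by
      calc (y * y) * t = y * (y * t * y⁻¹) * y⁻¹ * (y * y) := by group
        _ = t * (y * y) := by rw [h]
    have hc : Commute (y * y) t := h2
    have hy4 : y = (y * y) ^ 2 := by
      calc y = y ^ 3 * y := by rw [hy3, one_mul]
        _ = (y * y) ^ 2 := by rw [← pow_two, ← pow_mul, ← pow_succ]
    apply hno3 y hy
    rw [hy4]
    exact (hc.pow_left 2).eq
  have n1 : y * t * y⁻¹ ≠ 1 := by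
    intro h
    apply ht1
    have e : t = y⁻¹ * (y * t * y⁻¹) * y := by group
    rw [e, h]; group
  have n2 : y * (y * t * y⁻¹) * y⁻¹ ≠ 1 := by
    intro h
    apply n1
    have e : y * t * y⁻¹ = y⁻¹ * (y * (y * t * y⁻¹) * y⁻¹) * y := by group
    rw [e, h]; group
  -- the four elements of V
  have hF : ({1, t, y * t * y⁻¹, y * (y * t * y⁻¹) * y⁻¹} : Finset G).card = 4 := by
    rw [Finset.card_insert_of_notMem, Finset.card_insert_of_notMem,
      Finset.card_insert_of_notMem, Finset.card_singleton]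
    · simp only [Finset.mem_singleton]; exact fun h => d2 h.symm
    · simp only [Finset.mem_insert, Finset.mem_singleton]
      rintro (h | h)
      · exact d1 h.symm
      · exact d3 h.symm
    · simp only [Finset.mem_insert, Finset.mem_singleton]
      rintro (h | h | h)
      · exact ht1 h.symm
      · exact n1 h.symm
      · exact n2 h.symm
  have hsub : ((({1, t, y * t * y⁻¹, y * (y * t * y⁻¹) * y⁻¹} : Finset G) : Set G)) ⊆
      (V : Set G) := by
    intro x hx
    simp only [Finset.coe_insert, Finset.coe_singleton, Set.mem_insert_iff,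
      Set.mem_singleton_iff] at hx
    rcases hx with rfl | rfl | rfl | rfl
    · exact V.one_mem
    · exact htV
    · exact hV1
    · exact hV2
  have hVn : (V : Set G).ncard = 4 := by
    rw [← hV4]; exact (Nat.card_coe_set_eq (V : Set G)).symm
  have hSeq := Set.eq_of_subset_of_ncard_le hsub
    (by rw [hVn, Set.ncard_coe_finset, hF]) (Set.toFinite _)
  have hVelems : ∀ v : G, v ∈ V → v = 1 ∨ v = t ∨ v = y * t * y⁻¹ ∨
      v = y * (y * t * y⁻¹) * y⁻¹ := by
    intro v hv
    have : v ∈ ((({1, t, y * t * y⁻¹, y * (y * t * y⁻¹) * y⁻¹} : Finset G) : Set G)) := by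
      rw [hSeq]; exact hv
    simpa only [Finset.coe_insert, Finset.coe_singleton, Set.mem_insert_iff,
      Set.mem_singleton_iff] using this
  -- a four-group through s, conjugate to V
  obtain ⟨W, hW4, hsW, -, -⟩ := prof_cent_cases_h9 hP s hs
  have hVp : IsPGroup 2 V := IsPGroup.of_card (n := 2) (by rw [hV4]; norm_num)
  have hWp : IsPGroup 2 W := IsPGroup.of_card (n := 2) (by rw [hW4]; norm_num)
  have hVi : ¬ 2 ∣ V.index := by
    have := prof_idx_h9 h0 V
    rw [hV4] at this; omega
  have hWi : ¬ 2 ∣ W.index := by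
    have := prof_idx_h9 h0 W
    rw [hW4] at this; omega
  obtain ⟨g, hg⟩ := MulAction.exists_smul_eq G (hWp.toSylow hWi) (hVp.toSylow hVi)
  have hgs : g * s * g⁻¹ ∈ V := by
    have h1 : g * s * g⁻¹ ∈ ((g • (hWp.toSylow hWi) : Sylow 2 G) : Subgroup G) := by
      rw [Sylow.coe_subgroup_smul]
      have := Subgroup.smul_mem_pointwise_smul s (MulAut.conj g)
        ((hWp.toSylow hWi : Sylow 2 G) : Subgroup G) hsW
      simpa [MulAut.smul_def, MulAut.conj_apply] using this
    rw [hg] at h1
    exact h1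
  have hs1 : s ≠ 1 := by
    intro h; rw [h, orderOf_one] at hs; omega
  rcases hVelems _ hgs with h | h | h | h
  · exfalso
    apply hs1
    have e : s = g⁻¹ * (g * s * g⁻¹) * g := by group
    rw [e, h]; group
  · refine ⟨g⁻¹, ?_⟩
    rw [← h]; group
  · refine ⟨g⁻¹ * y, ?_⟩
    have e : g⁻¹ * y * t * (g⁻¹ * y)⁻¹ = g⁻¹ * (y * t * y⁻¹) * g := by group
    rw [e, ← h]; group
  · refine ⟨g⁻¹ * y * y, ?_⟩
    have e : g⁻¹ * y * y * t * (g⁻¹ * y * y)⁻¹ = g⁻¹ * (y * (y * t * y⁻¹) * y⁻¹) * g := by group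
    rw [e, ← h]; group

/-- the centralizer of an involution has order `12`. -/
theorem prof_cent_inv_h9 (hP : Prof1092_h9 G) (t : G) (ht : orderOf t = 2) :
    Nat.card (Subgroup.centralizer ({t} : Set G)) = 12 := by
  obtain ⟨V, hV4, htV, hVC, hcases⟩ := prof_cent_cases_h9 hP t ht
  rcases hcases with h4 | h12
  · exfalso
    obtain ⟨g, hg⟩ := prof_elt6_h9 hP
    have hz : orderOf (g ^ 3) = 2 := by
      rw [orderOf_pow' g (by norm_num), hg]; rfl
    have hw : orderOf (g ^ 2) = 3 := by
      rw [orderOf_pow' g (by norm_num), hg]; rfl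
    obtain ⟨h, hh⟩ := prof_inv_conj_h9 hP t ht h4 (g ^ 3) hz
    have hcomm : g ^ 3 * g ^ 2 = g ^ 2 * g ^ 3 := by rw [← pow_add, ← pow_add]
    have hc : (h⁻¹ * g ^ 2 * h) * t = t * (h⁻¹ * g ^ 2 * h) := by
      have e1 : (h⁻¹ * g ^ 2 * h) * t = h⁻¹ * (g ^ 2 * (h * t * h⁻¹)) * h := by group
      have e2 : t * (h⁻¹ * g ^ 2 * h) = h⁻¹ * ((h * t * h⁻¹) * g ^ 2) * h := by group
      rw [e1, e2, hh, hcomm]
    have ho : orderOf (h⁻¹ * g ^ 2 * h) = 3 := by
      have := (MulAut.conj h⁻¹).orderOf_eq (g ^ 2)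
      rw [MulAut.conj_apply, inv_inv] at this
      rw [this, hw]
    have hmem : h⁻¹ * g ^ 2 * h ∈ Subgroup.centralizer ({t} : Set G) := by
      rw [Subgroup.mem_centralizer_iff]
      intro x hx
      rw [Set.mem_singleton_iff] at hx
      rw [hx]; exact hc.symm
    have := Subgroup.orderOf_dvd_natCard _ hmem
    rw [ho, h4] at this
    omega
  · exact h12

theorem prof_norm2_h9 (hP : Prof1092_h9 G) (A : Subgroup G) (hA : Nat.card A = 2) :
    Nat.card (Subgroup.normalizer (A : Set G)) = 12 := by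
  haveI : Fact (Nat.Prime 2) := ⟨by norm_num⟩
  obtain ⟨t, htA, ht⟩ := cauchy_sub_h9 A 2 (by rw [hA])
  have hAz : A = Subgroup.zpowers t := by
    symm
    apply Subgroup.eq_of_le_of_card_ge (Subgroup.zpowers_le.mpr htA)
    rw [Nat.card_zpowers, ht, hA]
  have hC := prof_cent_inv_h9 hP t ht
  have hle : Subgroup.centralizer ({t} : Set G) ≤ Subgroup.normalizer (A : Set G) := by
    intro g hg
    rw [Subgroup.mem_centralizer_iff] at hg
    have hgt : t * g = g * t := hg t rfl
    have key : ∀ x ∈ A, g * x * g⁻¹ = x := by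
      intro x hx
      rw [hAz] at hx
      obtain ⟨k, rfl⟩ := Subgroup.mem_zpowers_iff.mp hx
      have hc : Commute g t := hgt.symm
      rw [(hc.zpow_right k).eq]; group
    rw [Subgroup.mem_normalizer_iff]
    intro h
    constructor
    · intro hh; rw [key h hh]; exact hh
    · intro hh
      have h1 : g * (g * h * g⁻¹) * g⁻¹ = g * h * g⁻¹ := key _ hh
      have e : g * h * g⁻¹ = h := by
        have l : g⁻¹ * (g * (g * h * g⁻¹) * g⁻¹) * g = g * h * g⁻¹ := by group
        have r : g⁻¹ * (g * h * g⁻¹) * g = h := by group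
        rw [← l, h1, r]
      rw [← e]; exact hh
  have hd := Subgroup.card_dvd_of_le hle
  rw [hC] at hd
  have hne := prof_norm_ne_h9 hP A (by omega) (by omega)
  rcases prof_ord_h9 hP (Subgroup.normalizer (A : Set G)) with
    h | h | h | h | h | h | h | h | h | h | h | h | h <;> rw [h] at hd <;> omega

theorem prof_norm6_h9 (hP : Prof1092_h9 G) (A : Subgroup G) (hA : Nat.card A = 6) :
    Nat.card (Subgroup.normalizer (A : Set G)) = 12 := by
  haveI : Fact (Nat.Prime 3) := ⟨by norm_num⟩
  obtain ⟨B', hB'⟩ := Sylow.exists_subgroup_card_pow_prime (G := A) 3 (n := 1)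
    (by rw [hA]; norm_num)
  have hBA : B'.map A.subtype ≤ A := Subgroup.map_subtype_le B'
  have hBc : Nat.card (B'.map A.subtype) = 3 := by
    rw [Subgroup.card_map_of_injective (Subgroup.subtype_injective _), hB']; norm_num
  have hAN : A ≤ Subgroup.normalizer ((B'.map A.subtype : Subgroup G) : Set G) :=
    norm_le_of_index_two_h9 _ _ hBA (by rw [hA, hBc])
  have hNB := prof_norm3_h9 hP _ hBc
  have hle : Subgroup.normalizer ((B'.map A.subtype : Subgroup G) : Set G) ≤
      Subgroup.normalizer (A : Set G) :=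
    norm_le_of_index_two_h9 _ _ hAN (by rw [hNB, hA])
  have hd := Subgroup.card_dvd_of_le hle
  rw [hNB] at hd
  have hne := prof_norm_ne_h9 hP A (by omega) (by omega)
  rcases prof_ord_h9 hP (Subgroup.normalizer (A : Set G)) with
    h | h | h | h | h | h | h | h | h | h | h | h | h <;> rw [h] at hd <;> omega

/-- elements of order `13` are self-centralizing. -/
theorem prof_cent13_h9 (hP : Prof1092_h9 G) (x : G) (hx : orderOf x = 13) (c : G)
    (hc : c * x = x * c) : c ∈ Subgroup.zpowers x := by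
  haveI : Fact (Nat.Prime 2) := ⟨by norm_num⟩
  haveI : Fact (Nat.Prime 3) := ⟨by norm_num⟩
  have hXC : Subgroup.zpowers x ≤ Subgroup.centralizer ({x} : Set G) := by
    rw [Subgroup.zpowers_le, Subgroup.mem_centralizer_iff]
    intro y hy
    rw [Set.mem_singleton_iff] at hy
    rw [hy]
  have hcard : Nat.card (Subgroup.centralizer ({x} : Set G)) = 13 := by
    have hd := Subgroup.card_dvd_of_le hXC
    rw [Nat.card_zpowers, hx] at hd
    have hno : ∀ r : ℕ, r = 2 ∨ r = 3 → r.Prime →
        ¬ r ∣ Nat.card (Subgroup.centralizer ({x} : Set G)) := by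
      intro r hr hrp hdvd
      haveI : Fact r.Prime := ⟨hrp⟩
      obtain ⟨d, hdC, hd'⟩ := cauchy_sub_h9 _ r hdvd
      rw [Subgroup.mem_centralizer_iff] at hdC
      have hdx : d * x = x * d := (hdC x rfl).symm
      have hco : (orderOf d).Coprime (orderOf x) := by
        rw [hd', hx]; rcases hr with rfl | rfl <;> norm_num
      have := prof_comm_h9 hP d x hdx hco
      rw [hd', hx] at this
      rcases hr with rfl | rfl <;> omega
    have h2 := hno 2 (Or.inl rfl) (by norm_num)
    have h3 := hno 3 (Or.inr rfl) (by norm_num)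
    rcases prof_ord_h9 hP (Subgroup.centralizer ({x} : Set G)) with
      h | h | h | h | h | h | h | h | h | h | h | h | h <;> rw [h] at hd h2 h3 <;> omega
  have heq : Subgroup.zpowers x = Subgroup.centralizer ({x} : Set G) :=
    Subgroup.eq_of_le_of_card_ge hXC (by rw [hcard, Nat.card_zpowers, hx])
  rw [heq, Subgroup.mem_centralizer_iff]
  intro y hy
  rw [Set.mem_singleton_iff] at hy
  rw [hy]; exact hc.symm

theorem prof_norm13k_h9 (hP : Prof1092_h9 G) (A : Subgroup G)
    (hA : Nat.card A = 26 ∨ Nat.card A = 39) :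
    Nat.card (Subgroup.normalizer (A : Set G)) = 78 := by
  haveI : Fact (Nat.Prime 13) := ⟨by norm_num⟩
  obtain ⟨x, hxA, hx⟩ := cauchy_sub_h9 A 13 (by rcases hA with h | h <;> rw [h] <;> norm_num)
  have hXc : Nat.card (Subgroup.zpowers x) = 13 := by rw [Nat.card_zpowers, hx]
  have hXA : Subgroup.zpowers x ≤ A := Subgroup.zpowers_le.mpr hxA
  have hAN : A ≤ Subgroup.normalizer ((Subgroup.zpowers x : Subgroup G) : Set G) := by
    have h1 := Subgroup.card_mul_index ((Subgroup.zpowers x).subgroupOf A)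
    have h2 : Nat.card ((Subgroup.zpowers x).subgroupOf A) = 13 := by
      rw [Nat.card_congr (Subgroup.subgroupOfEquivOfLe hXA).toEquiv, hXc]
    have hidx : ((Subgroup.zpowers x).subgroupOf A).index = (Nat.card A).minFac := by
      rcases hA with h | h
      · rw [h2, h] at h1
        rw [h]
        have : (26 : ℕ).minFac = 2 := by norm_num
        omega
      · rw [h2, h] at h1
        rw [h]
        have : (39 : ℕ).minFac = 3 := by norm_num
        omega
    have hn := Subgroup.normal_of_index_eq_minFac_card hidx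
    exact (Subgroup.normal_subgroupOf_iff_le_normalizer hXA).mp hn
  have hNX := prof_norm13_h9 hP _ hXc
  have key : ∀ n ∈ Subgroup.normalizer ((Subgroup.zpowers x : Subgroup G) : Set G),
      ∀ a ∈ A, n⁻¹ * a * n ∈ A := by
    intro n hn a ha
    have haN := hAN ha
    obtain ⟨i, hi⟩ := Subgroup.mem_zpowers_iff.mp
      ((Subgroup.mem_normalizer_iff.mp hn x).mp (Subgroup.mem_zpowers x))
    obtain ⟨j, hj⟩ := Subgroup.mem_zpowers_iff.mp
      ((Subgroup.mem_normalizer_iff.mp haN x).mp (Subgroup.mem_zpowers x))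
    have E1 : n * a * x * (n * a)⁻¹ = x ^ (i * j) := by
      calc n * a * x * (n * a)⁻¹ = n * (a * x * a⁻¹) * n⁻¹ := by group
        _ = n * x ^ j * n⁻¹ := by rw [← hj]
        _ = (n * x * n⁻¹) ^ j := conj_zpow.symm
        _ = x ^ (i * j) := by rw [← hi, ← zpow_mul]
    have E2 : a * n * x * (a * n)⁻¹ = x ^ (i * j) := by
      calc a * n * x * (a * n)⁻¹ = a * (n * x * n⁻¹) * a⁻¹ := by group
        _ = a * x ^ i * a⁻¹ := by rw [← hi]
        _ = (a * x * a⁻¹) ^ i := conj_zpow.symm
        _ = x ^ (i * j) := by rw [← hj, ← zpow_mul, mul_comm]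
    have hcomm : (a * n)⁻¹ * (n * a) * x = x * ((a * n)⁻¹ * (n * a)) := by
      calc (a * n)⁻¹ * (n * a) * x = (a * n)⁻¹ * (n * a * x * (n * a)⁻¹) * (n * a) := by group
        _ = (a * n)⁻¹ * (a * n * x * (a * n)⁻¹) * (n * a) := by rw [E1, E2]
        _ = x * ((a * n)⁻¹ * (n * a)) := by group
    have hd : (a * n)⁻¹ * (n * a) ∈ A := hXA (prof_cent13_h9 hP x hx _ hcomm)
    have e : n⁻¹ * a * n = ((a * n)⁻¹ * (n * a) * a⁻¹)⁻¹ := by group
    rw [e]
    exact A.inv_mem (A.mul_mem hd (A.inv_mem ha))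
  have hle : Subgroup.normalizer ((Subgroup.zpowers x : Subgroup G) : Set G) ≤
      Subgroup.normalizer (A : Set G) := by
    intro b hb
    rw [Subgroup.mem_normalizer_iff]
    intro a
    constructor
    · intro ha
      have := key b⁻¹ (Subgroup.inv_mem _ hb) a ha
      rwa [inv_inv] at this
    · intro ha
      have := key b hb _ ha
      have e : b⁻¹ * (b * a * b⁻¹) * b = a := by group
      rwa [e] at this
  have hd := Subgroup.card_dvd_of_le hle
  rw [hNX] at hd
  have hne := prof_norm_ne_h9 hP A (by omega) (by omega)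
  rcases prof_ord_h9 hP (Subgroup.normalizer (A : Set G)) with
    h | h | h | h | h | h | h | h | h | h | h | h | h <;> rw [h] at hd <;> omega

/-- **Main theorem for the profile**: normalizers of non-normal subgroups are maximal. -/
theorem prof_main_h9 (hP : Prof1092_h9 G) (A : Subgroup G) (hA : ¬ A.Normal) :
    IsCoatom (Subgroup.normalizer (A : Set G)) := by
  apply prof_coatom_h9 hP
  have h1 : Nat.card A ≠ 1 := by
    intro h; apply hA; rw [Subgroup.card_eq_one.mp h]; infer_instance
  have h2 : Nat.card A ≠ 1092 := by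
    intro h; apply hA
    have htop : A = ⊤ := (Subgroup.card_eq_iff_eq_top A).mp (by rw [h, hP.1])
    rw [htop]; infer_instance
  have hN := prof_norm_ne_h9 hP A h1 h2
  have hd := Subgroup.card_dvd_of_le (Subgroup.le_normalizer (H := A))
  rcases prof_ord_h9 hP A with h | h | h | h | h | h | h | h | h | h | h | h | h
  · exact absurd h h1
  · left; exact prof_norm2_h9 hP A h
  · left; exact prof_norm3_h9 hP A h
  · left; exact prof_norm4_h9 hP A h
  · left; exact prof_norm6_h9 hP A h
  · right; left; exact prof_norm7_h9 hP A h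
  · rw [h] at hd
    rcases prof_ord_h9 hP (Subgroup.normalizer (A : Set G)) with
      h' | h' | h' | h' | h' | h' | h' | h' | h' | h' | h' | h' | h' <;> rw [h'] at hd <;> omega
  · right; right; exact prof_norm13_h9 hP A h
  · rw [h] at hd
    rcases prof_ord_h9 hP (Subgroup.normalizer (A : Set G)) with
      h' | h' | h' | h' | h' | h' | h' | h' | h' | h' | h' | h' | h' <;> rw [h'] at hd <;> omega
  · right; right; exact prof_norm13k_h9 hP A (Or.inl h)
  · right; right; exact prof_norm13k_h9 hP A (Or.inr h)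
  · rw [h] at hd
    rcases prof_ord_h9 hP (Subgroup.normalizer (A : Set G)) with
      h' | h' | h' | h' | h' | h' | h' | h' | h' | h' | h' | h' | h' <;> rw [h'] at hd <;> omega
  · exact absurd h h2

end

end Cfsg.Agent.Helper9
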