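import Mathlib
import Cfsg.Agent.Helper9.Mn3
import Cfsg.Agent.Helper9.Dk24
import Cfsg.Agent.Helper9.Prime3
import Cfsg.Agent.Helper9.Ico8

/-!
# `PSL(2, 13)` has the numerical profile (helper9)
-/

set_option autoImplicit false
open scoped MatrixGroups

namespace Cfsg.Agent.Helper9

theorem dvd78_h9 (d : ℕ) (h : d ∣ 78) :
    d = 1 ∨ d = 2 ∨ d = 3 ∨ d = 6 ∨ d = 13 ∨ d = 26 ∨ d = 39 ∨ d = 78 := by
  have hle := Nat.le_of_dvd (by norm_num) h
  obtain ⟨k, hk⟩ := h
  interval_cases d <;> omega

theorem dvd7_h9 (d : ℕ) (h : d ∣ 7) : d = 1 ∨ d = 7 := by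
  have hle := Nat.le_of_dvd (by norm_num) h
  obtain ⟨k, hk⟩ := h
  interval_cases d <;> omega

theorem dvd6_h9 (d : ℕ) (h : d ∣ 6) : d = 1 ∨ d = 2 ∨ d = 3 ∨ d = 6 := by
  have hle := Nat.le_of_dvd (by norm_num) h
  obtain ⟨k, hk⟩ := h
  interval_cases d <;> omega

theorem dvd84_h9 (n : ℕ) (h : n ∣ 84) (hm : n % 13 = 1) : n = 1 ∨ n = 14 := by
  have hle := Nat.le_of_dvd (by norm_num) h
  obtain ⟨k, hk⟩ := h
  interval_cases n <;> omega

theorem psl2_13_card_h9 :
    Nat.card (Matrix.ProjectiveSpecialLinearGroup (Fin 2) (ZMod 13)) = 1092 := by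
  haveI : Fact (Nat.Prime 13) := ⟨by norm_num⟩
  have hF : Fintype.card (ZMod 13) = 13 := ZMod.card 13
  obtain ⟨r, hr, h⟩ := psl2_card_odd_h9 (F := ZMod 13) (by rw [hF])
  rw [hF] at hr
  have hr12 : r = 12 := by omega
  subst hr12
  omega

theorem psl2_13_prof_h9 :
    Prof1092_h9 (Matrix.ProjectiveSpecialLinearGroup (Fin 2) (ZMod 13)) := by
  haveI : Fact (Nat.Prime 13) := ⟨by norm_num⟩
  have hF : Fintype.card (ZMod 13) = 13 := ZMod.card 13
  have hcard := psl2_13_card_h9
  have hsimple : IsSimpleGroup (Matrix.ProjectiveSpecialLinearGroup (Fin 2) (ZMod 13)) :=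
    Matrix.ProjectiveSpecialLinearGroup.rank_two_simple
      (by rw [Nat.card_eq_fintype_card, hF]; norm_num)
  have hg : Nat.gcd 2 (13 - 1) = 2 := by norm_num
  refine ⟨hcard, hsimple, ?_, ?_⟩
  · intro H
    simp only [Finset.mem_insert, Finset.mem_singleton]
    have hdvd : Nat.card H ∣ 1092 := by rw [← hcard]; exact Subgroup.card_subgroup_dvd_card H
    rcases dickson_list_h9 (p := 13) (F := ZMod 13) H with
      ⟨k, hk, hH⟩ | ⟨P, K, hK, ⟨e⟩⟩ | ⟨⟨e⟩⟩ | ⟨⟨e⟩⟩ | ⟨⟨e⟩⟩ | ⟨K, iK, iK2, m, hm, hiso⟩
    · rw [hF, hg] at hk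
      have hk' : k = 1 ∨ k = 7 ∨ k = 2 ∨ k = 3 ∨ k = 6 := by
        rcases hk with h | h
        · have := dvd7_h9 k (by simpa using h); omega
        · have := dvd6_h9 k (by simpa using h); omega
      rcases hH with ⟨-, hc⟩ | ⟨⟨e⟩⟩
      · rw [hc]; omega
      · rw [Nat.card_congr e.toEquiv, DihedralGroup.nat_card]; omega
    · -- subgroups of the normalizer of a Sylow 13-subgroup
      have hKd := Subgroup.card_dvd_of_le hK
      obtain ⟨k, hk⟩ := P.2.exists_card_eq
      have hidx := Subgroup.card_mul_index (P : Subgroup (Matrix.ProjectiveSpecialLinearGroup (Fin 2) (ZMod 13)))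
      rw [hcard] at hidx
      have hnd : ¬ 13 ∣ (P : Subgroup (Matrix.ProjectiveSpecialLinearGroup (Fin 2) (ZMod 13))).index :=
        P.not_dvd_index
      have hP13 : Nat.card (P : Subgroup (Matrix.ProjectiveSpecialLinearGroup (Fin 2) (ZMod 13))) = 13 := by
        have hk1 : k = 1 := by
          rcases Nat.lt_or_ge k 1 with h | h
          · have hk0 : k = 0 := by omega
            rw [hk0, pow_zero] at hk
            rw [hk] at hidx
            omega
          · rcases Nat.lt_or_ge k 2 with h' | h'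
            · omega
            · exfalso
              have h169 : 13 ^ 2 ∣ 13 ^ k := pow_dvd_pow 13 h'
              rw [← hk] at h169
              have : 13 ^ 2 ∣ 1092 := by
                rw [← hidx]; exact Dvd.dvd.mul_right h169 _
              omega
        rw [hk, hk1, pow_one]
      rw [hP13] at hidx
      have hn1 := card_sylow_modEq_one 13 (Matrix.ProjectiveSpecialLinearGroup (Fin 2) (ZMod 13))
      have hn2 : Nat.card (Sylow 13 (Matrix.ProjectiveSpecialLinearGroup (Fin 2) (ZMod 13))) =
          (Subgroup.normalizer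
            ((P : Subgroup (Matrix.ProjectiveSpecialLinearGroup (Fin 2) (ZMod 13))) :
              Set (Matrix.ProjectiveSpecialLinearGroup (Fin 2) (ZMod 13)))).index :=
        Sylow.card_eq_index_normalizer P
      have hn3 := Sylow.card_dvd_index P
      have hi84 : (P : Subgroup (Matrix.ProjectiveSpecialLinearGroup (Fin 2) (ZMod 13))).index = 84 := by
        omega
      rw [hi84] at hn3
      have hmod : Nat.card (Sylow 13 (Matrix.ProjectiveSpecialLinearGroup (Fin 2) (ZMod 13))) % 13
          = 1 := hn1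
      have hNidx := Subgroup.card_mul_index (Subgroup.normalizer
        ((P : Subgroup (Matrix.ProjectiveSpecialLinearGroup (Fin 2) (ZMod 13))) :
          Set (Matrix.ProjectiveSpecialLinearGroup (Fin 2) (ZMod 13))))
      rw [← hn2, hcard] at hNidx
      have hN78 : Nat.card (Subgroup.normalizer
        ((P : Subgroup (Matrix.ProjectiveSpecialLinearGroup (Fin 2) (ZMod 13))) :
          Set (Matrix.ProjectiveSpecialLinearGroup (Fin 2) (ZMod 13)))) = 78 := by
        rcases dvd84_h9 _ hn3 hmod with h1 | h14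
        · exfalso
          rw [h1, mul_one] at hNidx
          have htop : Subgroup.normalizer
              ((P : Subgroup (Matrix.ProjectiveSpecialLinearGroup (Fin 2) (ZMod 13))) :
                Set (Matrix.ProjectiveSpecialLinearGroup (Fin 2) (ZMod 13))) = ⊤ :=
            (Subgroup.card_eq_iff_eq_top _).mp (by rw [hNidx, hcard])
          have hn : (P : Subgroup (Matrix.ProjectiveSpecialLinearGroup (Fin 2) (ZMod 13))).Normal :=
            Subgroup.normalizer_eq_top_iff.mp htop
          rcases hn.eq_bot_or_eq_top with hb | ht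
          · rw [hb, Subgroup.card_bot] at hP13; omega
          · rw [ht, Subgroup.card_top, hcard] at hP13; omega
        · rw [h14] at hNidx; omega
      rw [hN78] at hKd
      rw [Nat.card_congr e.toEquiv]
      have := dvd78_h9 _ hKd
      omega
    · rw [Nat.card_congr e.toEquiv, card_alt4_h9]; omega
    · rw [Nat.card_congr e.toEquiv, card_perm4_h9] at hdvd; omega
    · rw [Nat.card_congr e.toEquiv, card_A5_h9] at hdvd; omega
    · letI : Field K := iK
      letI : Fintype K := iK2
      rw [hF] at hm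
      have hK13 : Fintype.card K = 13 ∧ m = 1 := (Nat.Prime.pow_eq_iff (by norm_num)).mp hm
      rcases hiso with ⟨⟨e⟩⟩ | ⟨⟨e⟩⟩
      · obtain ⟨r, hr, h⟩ := psl2_card_odd_h9 (F := K) (by rw [hK13.1])
        rw [hK13.1] at hr
        have hr12 : r = 12 := by omega
        subst hr12
        rw [Nat.card_congr e.toEquiv]; omega
      · exfalso
        have hc := pgl2_card_h9 (K := K) 12 (by rw [hK13.1])
        have hle := Nat.le_of_dvd (by norm_num) hdvd
        rw [Nat.card_congr e.toEquiv, hc] at hle
        omega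
  · intro g
    simp only [Finset.mem_insert, Finset.mem_singleton]
    by_cases hg1 : g = 1
    · left; rw [hg1, orderOf_one]
    by_cases hg13 : orderOf g = 13
    · right; right; right; right; right; exact hg13
    have h := psl2_order_dvd_h9 (p := 13) g hg1 hg13
    rw [hF, hg] at h
    rcases h with h | h
    · have := dvd7_h9 _ (by simpa using h); omega
    · have := dvd6_h9 _ (by simpa using h); omega

end Cfsg.Agent.Helper9
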