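import Mathlib
import Cfsg.Agent.Helper9.Mn4
import Cfsg.Agent.Helper9.SL2e

/-!
# `PSL(2, 13)`, `SL(2, 13)` and products with coprime abelian groups: normalizers of non-normal
subgroups are maximal (helper9)
-/

set_option autoImplicit false
open scoped MatrixGroups

namespace Cfsg.Agent.Helper9

/-- preimages of maximal subgroups under surjections are maximal. -/
theorem coatom_comap_h9 {L Q : Type*} [Group L] [Group Q] (π : L →* Q)
    (hπ : Function.Surjective π) (M : Subgroup Q) (hM : IsCoatom M) : IsCoatom (M.comap π) := by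
  constructor
  · intro h
    apply hM.1
    rw [← Subgroup.map_comap_eq_self_of_surjective hπ M, h]
    exact Subgroup.map_top_of_surjective π hπ
  · intro X hX
    have hker : π.ker ≤ X := le_trans (MonoidHom.ker_le_comap π M) hX.le
    have hmap : M < X.map π := by
      refine lt_of_le_of_ne ?_ ?_
      · rw [← Subgroup.map_comap_eq_self_of_surjective hπ M]
        exact Subgroup.map_mono hX.le
      · intro heq
        apply hX.ne
        apply le_antisymm hX.le
        rw [heq]
        exact Subgroup.le_comap_map π X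
    have htop := hM.2 _ hmap
    rw [← Subgroup.comap_map_eq_self hker, htop, Subgroup.comap_top]

/-- lifting the property through a central extension by the unique involution. -/
theorem mn_lift_h9 {L Q : Type*} [Group L] [Group Q] [Finite L] (π : L →* Q)
    (hπ : Function.Surjective π) (z : L) (hker : ∀ x : L, π x = 1 ↔ x = 1 ∨ x = z)
    (hinv : ∀ x : L, x * x = 1 → x = 1 ∨ x = z) (hz2 : z * z = 1)
    (hzc : ∀ x : L, z * x = x * z)
    (hQ : ∀ A : Subgroup Q, ¬ A.Normal → IsCoatom (Subgroup.normalizer (A : Set Q)))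
    (A : Subgroup L) (hA : ¬ A.Normal) : IsCoatom (Subgroup.normalizer (A : Set L)) := by
  haveI : Fact (Nat.Prime 2) := ⟨by norm_num⟩
  have key : ∀ g : L, π g ∈ Subgroup.normalizer ((A.map π : Subgroup Q) : Set Q) →
      ∀ a ∈ A, g * a * g⁻¹ ∈ A := by
    intro g hg a ha
    have h1 : π (g * a * g⁻¹) ∈ A.map π := by
      rw [map_mul, map_mul, map_inv]
      exact (Subgroup.mem_normalizer_iff.mp hg (π a)).mp (Subgroup.mem_map_of_mem π ha)
    obtain ⟨a', ha', hπa'⟩ := Subgroup.mem_map.mp h1
    have h2 : π (a'⁻¹ * (g * a * g⁻¹)) = 1 := by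
      rw [map_mul, map_inv, hπa', inv_mul_cancel]
    rcases (hker _).mp h2 with h | h
    · have e : g * a * g⁻¹ = a' := by
        have e' : g * a * g⁻¹ = a' * (a'⁻¹ * (g * a * g⁻¹)) := by group
        rw [e', h, mul_one]
      rw [e]; exact ha'
    · have hgag : g * a * g⁻¹ = a' * z := by
        have e' : g * a * g⁻¹ = a' * (a'⁻¹ * (g * a * g⁻¹)) := by group
        rw [e', h]
      by_cases hzA : z ∈ A
      · rw [hgag]; exact A.mul_mem ha' hzA
      · exfalso
        have hodd : ¬ 2 ∣ Nat.card A := by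
          intro h2d
          obtain ⟨x, hxA, hx⟩ := cauchy_sub_h9 A 2 h2d
          have hxx : x * x = 1 := by
            have := pow_orderOf_eq_one x
            rw [hx, pow_two] at this; exact this
          rcases hinv x hxx with h1 | h1
          · rw [h1, orderOf_one] at hx; omega
          · exact hzA (h1 ▸ hxA)
        have hnodd : ¬ 2 ∣ orderOf a :=
          fun h2 => hodd (h2.trans (Subgroup.orderOf_dvd_natCard A ha))
        have hpow : (a' * z) ^ orderOf a = 1 := by
          rw [← hgag, conj_pow, pow_orderOf_eq_one, mul_one, mul_inv_cancel]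
        have hcomm : Commute a' z := (hzc a').symm
        rw [hcomm.mul_pow] at hpow
        have hzn : z ^ orderOf a = z := by
          obtain ⟨k, hk⟩ : ∃ k, orderOf a = 2 * k + 1 := ⟨orderOf a / 2, by omega⟩
          rw [hk, pow_succ, pow_mul, pow_two, hz2, one_pow, one_mul]
        rw [hzn] at hpow
        apply hzA
        have hz' : z = (a' ^ orderOf a)⁻¹ := eq_inv_of_mul_eq_one_right hpow
        rw [hz']
        exact A.inv_mem (A.pow_mem ha' _)
  have hNeq : Subgroup.normalizer (A : Set L) =
      (Subgroup.normalizer ((A.map π : Subgroup Q) : Set Q)).comap π := by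
    ext g
    rw [Subgroup.mem_comap]
    constructor
    · intro hg
      exact Subgroup.le_normalizer_map π (Subgroup.mem_map_of_mem π hg)
    · intro hg
      rw [Subgroup.mem_normalizer_iff]
      intro a
      constructor
      · exact key g hg a
      · intro ha
        have hg' : π g⁻¹ ∈ Subgroup.normalizer ((A.map π : Subgroup Q) : Set Q) := by
          rw [map_inv]; exact Subgroup.inv_mem _ hg
        have := key g⁻¹ hg' _ ha
        have e : g⁻¹ * (g * a * g⁻¹) * g⁻¹⁻¹ = a := by group
        rwa [e] at this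
  have hAn : ¬ (A.map π).Normal := by
    intro hn
    apply hA
    rw [← Subgroup.normalizer_eq_top_iff, hNeq, Subgroup.normalizer_eq_top_iff.mpr hn,
      Subgroup.comap_top]
  rw [hNeq]
  exact coatom_comap_h9 π hπ _ (hQ _ hAn)

/-- the property for `SL(2, 13)`. -/
theorem sl2_13_mn_h9 (A : Subgroup SL(2, ZMod 13)) (hA : ¬ A.Normal) :
    IsCoatom (Subgroup.normalizer (A : Set SL(2, ZMod 13))) := by
  have h2 : (2 : ZMod 13) ≠ 0 := by decide
  haveI : Fact (Nat.Prime 13) := ⟨by norm_num⟩
  apply mn_lift_h9 (QuotientGroup.mk' (Subgroup.center SL(2, ZMod 13)))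
    (QuotientGroup.mk'_surjective _) (-1)
  · intro x
    rw [QuotientGroup.mk'_apply, QuotientGroup.eq_one_iff, sl2_center_h9]
  · intro x hx; exact sl2_invol_h9 h2 x hx
  · exact sl2_neg_one_sq_h9
  · intro x
    have hmem : (-1 : SL(2, ZMod 13)) ∈ Subgroup.center SL(2, ZMod 13) :=
      (sl2_center_h9 _).mpr (Or.inr rfl)
    exact (Subgroup.mem_center_iff.mp hmem x).symm
  · intro B hB
    exact prof_main_h9 psl2_13_prof_h9 B hB
  · exact hA

/-- transport along an isomorphism. -/
theorem mn_equiv_h9 {K K' : Type*} [Group K] [Group K'] (e : K ≃* K')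
    (h : ∀ A : Subgroup K', ¬ A.Normal → IsCoatom (Subgroup.normalizer (A : Set K')))
    (A : Subgroup K) (hA : ¬ A.Normal) : IsCoatom (Subgroup.normalizer (A : Set K)) := by
  have hA' : ¬ (A.map e.toMonoidHom).Normal := by
    intro hn
    apply hA
    have e1 : A = (A.map e.toMonoidHom).comap e.toMonoidHom :=
      (Subgroup.comap_map_eq_self_of_injective e.injective A).symm
    rw [e1]
    exact hn.comap _
  have hc := h _ hA'
  rw [← Subgroup.map_equiv_normalizer_eq A e] at hc
  constructor
  · intro htop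
    apply hc.1
    rw [htop]
    exact Subgroup.map_top_of_surjective e.toMonoidHom e.surjective
  · intro X hX
    have hlt : (Subgroup.normalizer (A : Set K)).map e.toMonoidHom < X.map e.toMonoidHom :=
      (Subgroup.map_lt_map_iff_of_injective e.injective).mpr hX
    have htop := hc.2 _ hlt
    have e1 : X = (X.map e.toMonoidHom).comap e.toMonoidHom :=
      (Subgroup.comap_map_eq_self_of_injective e.injective X).symm
    rw [e1, htop, Subgroup.comap_top]

/-- products with abelian groups of coprime order. -/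
theorem mn_prod_h9 {K S : Type*} [Group K] [CommGroup S] [Finite K] [Finite S]
    (hco : (Nat.card K).Coprime (Nat.card S))
    (hK : ∀ A : Subgroup K, ¬ A.Normal → IsCoatom (Subgroup.normalizer (A : Set K)))
    (H : Subgroup (K × S)) (hH : ¬ H.Normal) :
    IsCoatom (Subgroup.normalizer (H : Set (K × S))) := by
  have h1 : ∀ k : K, ∀ s : S, (k, s) ∈ H → (k, (1 : S)) ∈ H := by
    intro k s hks
    have hcop : IsCoprime (orderOf k : ℤ) (Nat.card S : ℤ) := by
      rw [Nat.isCoprime_iff_coprime]
      exact Nat.Coprime.coprime_dvd_left (orderOf_dvd_natCard k) hco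
    obtain ⟨u, v, huv⟩ := hcop
    have hz : (k, s) ^ (v * (Nat.card S : ℤ)) = (k, (1 : S)) := by
      have e1 : ((k, s) ^ (v * (Nat.card S : ℤ))).1 = k ^ (v * (Nat.card S : ℤ)) :=
        map_zpow (MonoidHom.fst K S) (k, s) _
      have e2 : ((k, s) ^ (v * (Nat.card S : ℤ))).2 = s ^ (v * (Nat.card S : ℤ)) :=
        map_zpow (MonoidHom.snd K S) (k, s) _
      have hv : v * (Nat.card S : ℤ) = 1 - u * (orderOf k : ℤ) := by linarith
      apply Prod.ext
      · rw [e1, hv, zpow_sub, zpow_one, zpow_mul', zpow_natCast, pow_orderOf_eq_one, one_zpow,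
          inv_one, mul_one]
      · rw [e2, zpow_mul', zpow_natCast, pow_card_eq_one', one_zpow]
    rw [← hz]
    exact H.zpow_mem hks _
  have h2 : ∀ k : K, ∀ s : S, (k, s) ∈ H → ((1 : K), s) ∈ H := by
    intro k s hks
    have := H.mul_mem (H.inv_mem (h1 k s hks)) hks
    simpa using this
  have hmem : ∀ k : K, ∀ s : S, (k, s) ∈ H ↔ ((k, (1 : S)) ∈ H ∧ ((1 : K), s) ∈ H) := by
    intro k s
    constructor
    · intro h; exact ⟨h1 k s h, h2 k s h⟩
    · rintro ⟨ha, hb⟩
      have := H.mul_mem ha hb
      simpa using this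
  have hAmem : ∀ k : K, k ∈ H.comap (MonoidHom.inl K S) ↔ (k, (1 : S)) ∈ H := fun k => Iff.rfl
  have hN : Subgroup.normalizer (H : Set (K × S)) =
      (Subgroup.normalizer ((H.comap (MonoidHom.inl K S) : Subgroup K) : Set K)).comap
        (MonoidHom.fst K S) := by
    ext ⟨x, y⟩
    rw [Subgroup.mem_comap, MonoidHom.coe_fst, Subgroup.mem_normalizer_iff,
      Subgroup.mem_normalizer_iff]
    constructor
    · intro h k
      rw [hAmem, hAmem]
      have := h (k, 1)
      simpa using this
    · rintro h ⟨k, s⟩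
      have e : (x, y) * (k, s) * (x, y)⁻¹ = (x * k * x⁻¹, s) := by
        apply Prod.ext
        · simp
        · simp
      rw [e, hmem k s, hmem (x * k * x⁻¹) s, ← hAmem, ← hAmem, ← h k]
  have hAn : ¬ (H.comap (MonoidHom.inl K S)).Normal := by
    intro hn
    apply hH
    rw [← Subgroup.normalizer_eq_top_iff, hN, Subgroup.normalizer_eq_top_iff.mpr hn,
      Subgroup.comap_top]
  rw [hN]
  exact coatom_comap_h9 (MonoidHom.fst K S) Prod.fst_surjective _ (hK _ hAn)

/-- the statement S4234. -/
theorem mn_statement_h9 {K S : Type*} [Group K] [CommGroup S] [Finite K] [Finite S]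
    (hK : Nonempty (K ≃* Matrix.ProjectiveSpecialLinearGroup (Fin 2) (ZMod 13)) ∨
      Nonempty (K ≃* Matrix.SpecialLinearGroup (Fin 2) (ZMod 13)))
    (hKS : (Nat.card K).Coprime (Nat.card S)) (H : Subgroup (K × S)) (hH : ¬ H.Normal) :
    IsCoatom (Subgroup.normalizer (H : Set (K × S))) := by
  apply mn_prod_h9 hKS _ H hH
  rcases hK with ⟨⟨e⟩⟩ | ⟨⟨e⟩⟩
  · exact mn_equiv_h9 e (fun A hA => prof_main_h9 psl2_13_prof_h9 A hA)
  · exact mn_equiv_h9 e sl2_13_mn_h9

end Cfsg.Agent.Helper9
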