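import Mathlib
import Cfsg.Prelude.Def_Classical
import Cfsg.Prelude.Def_ClassicalGeometry
import Cfsg.Agent.Helper14.OInv
import Cfsg.Agent.Helper6.Symp

set_option autoImplicit false

namespace Cfsg.Agent.S2487P

open Matrix

variable {F : Type*} [Field F] [Fintype F]

theorem h9_charP_two (hF : Fintype.card F = 2) : CharP F 2 := by
  have h2 : (2 : F) = 0 := by
    have h := Nat.cast_card_eq_zero F
    rw [hF] at h
    exact_mod_cast h
  exact CharTwo.of_one_ne_zero_of_two_eq_zero one_ne_zero h2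

/-- the linear map `x ↦ (f (w i) x)_i`. -/
def h9_phi (m : ℕ) {ι : Type} (w : ι → (Fin m ⊕ Fin m → F)) :
    (Fin m ⊕ Fin m → F) →ₗ[F] (ι → F) where
  toFun x i := Cfsg.sympForm m F (w i) x
  map_add' x y := by
    funext i
    exact Cfsg.Agent.Helper6.sf_add_right (w i) x y
  map_smul' c x := by
    funext i
    simp [Cfsg.Agent.Helper6.sf_smul_right]

theorem h9_phi_apply (m : ℕ) {ι : Type} (w : ι → (Fin m ⊕ Fin m → F))
    (x : Fin m ⊕ Fin m → F) (i : ι) : h9_phi m w x i = Cfsg.sympForm m F (w i) x := rfl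

/-- dimension count: two distinct nonzero vectors in the common perp of a small family. -/
theorem h9_two_in_perp (m : ℕ) {ι : Type} [Fintype ι] (w : ι → (Fin m ⊕ Fin m → F))
    (hcard : Fintype.card ι + 2 ≤ 2 * m) :
    ∃ a b : Fin m ⊕ Fin m → F, a ≠ 0 ∧ b ≠ 0 ∧ a ≠ b ∧
      (∀ i, Cfsg.sympForm m F (w i) a = 0) ∧ (∀ i, Cfsg.sympForm m F (w i) b = 0) := by
  classical
  have hrk := LinearMap.finrank_range_add_finrank_ker (h9_phi m w)
  have hV : Module.finrank F (Fin m ⊕ Fin m → F) = 2 * m := by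
    rw [Module.finrank_fintype_fun_eq_card]
    simp
    ring
  have hrange : Module.finrank F (LinearMap.range (h9_phi m w)) ≤ Fintype.card ι := by
    calc Module.finrank F (LinearMap.range (h9_phi m w))
        ≤ Module.finrank F (ι → F) := Submodule.finrank_le _
      _ = Fintype.card ι := Module.finrank_fintype_fun_eq_card F
  have hker : 1 < Module.finrank F (LinearMap.ker (h9_phi m w)) := by omega
  haveI : Nontrivial (LinearMap.ker (h9_phi m w)) :=
    Module.nontrivial_of_finrank_pos (R := F) (by omega)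
  obtain ⟨a, ha0⟩ := exists_ne (0 : LinearMap.ker (h9_phi m w))
  obtain ⟨b, hab⟩ := exists_linearIndependent_pair_of_one_lt_finrank hker ha0
  have hb0 : b ≠ 0 := by
    have := hab.ne_zero 1
    simpa using this
  have hne : a ≠ b := by
    intro h
    have h01 := hab.injective (a₁ := 0) (a₂ := 1) (by simp [h])
    exact absurd h01 (by decide)
  have hmem : ∀ c : LinearMap.ker (h9_phi m w), ∀ i, Cfsg.sympForm m F (w i) (c : Fin m ⊕ Fin m → F) = 0 := by
    intro c i
    have hc : h9_phi m w (c : Fin m ⊕ Fin m → F) = 0 := LinearMap.mem_ker.1 c.2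
    have := congrFun hc i
    rw [h9_phi_apply] at this
    simpa using this
  refine ⟨a, b, ?_, ?_, ?_, hmem a, hmem b⟩
  · intro h; exact ha0 (Subtype.ext h)
  · intro h; exact hb0 (Subtype.ext h)
  · intro h; exact hne (Subtype.ext h)

/-- KEY combination for S2487: a nontrivial isometry fixing a small family of vectors,
given the reflection and Siegel-element existence statements. -/
theorem h9_fix_family (hF : Fintype.card F = 2) (m : ℕ) {ι : Type} [Fintype ι]
    (w : ι → (Fin m ⊕ Fin m → F)) (hcard : Fintype.card ι + 2 ≤ 2 * m)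
    (REFL : ∀ v : Fin m ⊕ Fin m → F, Cfsg.quadFormPlus m F v ≠ 0 →
      ∃ g : Matrix.GeneralLinearGroup (Fin m ⊕ Fin m) F,
        g ∈ Cfsg.isometryGroup F (Cfsg.quadFormPlus m F) ∧ g ≠ 1 ∧
        ∀ x : Fin m ⊕ Fin m → F, Cfsg.sympForm m F x v = 0 →
          (g : Matrix (Fin m ⊕ Fin m) (Fin m ⊕ Fin m) F) *ᵥ x = x)
    (SIEGEL : ∀ a b : Fin m ⊕ Fin m → F, Cfsg.quadFormPlus m F a = 0 →
      Cfsg.quadFormPlus m F b = 0 → Cfsg.sympForm m F a b = 0 → a ≠ 0 → b ≠ 0 → a ≠ b →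
      ∃ g : Matrix.GeneralLinearGroup (Fin m ⊕ Fin m) F,
        g ∈ Cfsg.isometryGroup F (Cfsg.quadFormPlus m F) ∧ g ≠ 1 ∧
        ∀ x : Fin m ⊕ Fin m → F, Cfsg.sympForm m F x a = 0 → Cfsg.sympForm m F x b = 0 →
          (g : Matrix (Fin m ⊕ Fin m) (Fin m ⊕ Fin m) F) *ᵥ x = x) :
    ∃ g : Matrix.GeneralLinearGroup (Fin m ⊕ Fin m) F,
      g ∈ Cfsg.isometryGroup F (Cfsg.quadFormPlus m F) ∧ g ≠ 1 ∧
      ∀ i : ι, (g : Matrix (Fin m ⊕ Fin m) (Fin m ⊕ Fin m) F) *ᵥ w i = w i := by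
  haveI := h9_charP_two hF
  obtain ⟨a, b, ha0, hb0, hne, hwa, hwb⟩ := h9_two_in_perp m w hcard
  by_cases hQa : Cfsg.quadFormPlus m F a = 0
  · by_cases hQb : Cfsg.quadFormPlus m F b = 0
    · by_cases hab : Cfsg.sympForm m F a b = 0
      · obtain ⟨g, hg, hg1, hfix⟩ := SIEGEL a b hQa hQb hab ha0 hb0 hne
        exact ⟨g, hg, hg1, fun i => hfix (w i) (hwa i) (hwb i)⟩
      · have hQ : Cfsg.quadFormPlus m F (a + b) ≠ 0 := by
          rw [Cfsg.Agent.Helper14.OInv.Q_add, hQa, hQb, zero_add, zero_add]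
          exact hab
        obtain ⟨g, hg, hg1, hfix⟩ := REFL (a + b) hQ
        refine ⟨g, hg, hg1, fun i => hfix (w i) ?_⟩
        rw [Cfsg.Agent.Helper6.sf_add_right, hwa i, hwb i, add_zero]
    · obtain ⟨g, hg, hg1, hfix⟩ := REFL b hQb
      exact ⟨g, hg, hg1, fun i => hfix (w i) (hwb i)⟩
  · obtain ⟨g, hg, hg1, hfix⟩ := REFL a hQa
    exact ⟨g, hg, hg1, fun i => hfix (w i) (hwa i)⟩

end Cfsg.Agent.S2487P
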