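import Mathlib

set_option autoImplicit false

namespace Cfsg.Agent.S2487P

open scoped Pointwise

theorem h9_mem_conj_smul {G : Type*} [Group G] (z : G) (S : Subgroup G) (a : G) :
    a ∈ MulAut.conj z • S ↔ z⁻¹ * a * z ∈ S := by
  rw [Subgroup.mem_pointwise_smul_iff_inv_smul_mem]
  simp [MulAut.smul_def, MulAut.conj_inv_apply]

/-- Abstract Sylow wiring: if a `p`-subgroup `C` meets each of its conjugates `y C y⁻¹`
nontrivially (witnessed elementwise), then any two Sylow `p`-subgroups meet nontrivially. -/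
theorem h9_sylow_meet {G : Type*} [Group G] [Finite G] (p : ℕ) [Fact p.Prime]
    (C : Subgroup G) (k : ℕ) (hC : ∀ c ∈ C, c ^ (p ^ k) = 1)
    (hkey : ∀ y : G, ∃ c : G, c ≠ 1 ∧ c ∈ C ∧ y⁻¹ * c * y ∈ C)
    (H : Sylow p G) (x : G) :
    (H : Subgroup G) ⊓ MulAut.conj x • (H : Subgroup G) ≠ ⊥ := by
  have hCp : IsPGroup p C := by
    intro c
    refine ⟨k, ?_⟩
    exact Subtype.ext (by simpa using hC (c : G) c.2)
  obtain ⟨P1, hCP1⟩ := hCp.exists_le_sylow
  obtain ⟨g, hg⟩ := MulAction.exists_smul_eq G P1 H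
  have hH : (H : Subgroup G) = MulAut.conj g • (P1 : Subgroup G) := by
    rw [← hg]
    exact Sylow.pointwise_smul_def
  obtain ⟨c, hc1, hcC, hcC'⟩ := hkey (g⁻¹ * x * g)
  intro hbot
  have hmem : g * c * g⁻¹ ∈ (H : Subgroup G) ⊓ MulAut.conj x • (H : Subgroup G) := by
    refine Subgroup.mem_inf.2 ⟨?_, ?_⟩
    · rw [hH, h9_mem_conj_smul]
      have e : g⁻¹ * (g * c * g⁻¹) * g = c := by group
      rw [e]
      exact hCP1 hcC
    · rw [hH, h9_mem_conj_smul, h9_mem_conj_smul]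
      have e : g⁻¹ * (x⁻¹ * (g * c * g⁻¹) * x) * g = (g⁻¹ * x * g)⁻¹ * c * (g⁻¹ * x * g) := by
        group
      rw [e]
      exact hCP1 hcC'
  rw [hbot, Subgroup.mem_bot] at hmem
  apply hc1
  have e : c = g⁻¹ * (g * c * g⁻¹) * g := by group
  rw [e, hmem]
  group

end Cfsg.Agent.S2487P
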