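import Mathlib
import Cfsg.Agent.Helper9.SL2n

/-!
# Elements of A₄ used to detect it (helper9)
-/

set_option autoImplicit false

namespace Cfsg.Agent.Helper9

theorem a4_elems_h9 : ∃ τ γ : alternatingGroup (Fin 4), τ * τ = 1 ∧ τ ≠ 1 ∧ γ * γ * γ = 1 ∧
    γ * τ * γ⁻¹ ≠ τ ∧ τ * (γ * τ * γ⁻¹) = (γ * τ * γ⁻¹) * τ :=
  ⟨⟨Equiv.swap 0 1 * Equiv.swap 2 3, Equiv.Perm.mem_alternatingGroup.mpr (by decide)⟩,
    ⟨Equiv.swap 0 1 * Equiv.swap 1 2, Equiv.Perm.mem_alternatingGroup.mpr (by decide)⟩,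
    by decide, by decide, by decide, by decide, by decide⟩

end Cfsg.Agent.Helper9
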