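import Mathlib
import Cfsg.Agent.Helper9.Dk24

/-!
# Solubilizers in `PSL(2, 2^p)`: glue lemmas (helper9)
-/

set_option autoImplicit false
open scoped MatrixGroups

namespace Cfsg.Agent.Helper9

section general

variable {G : Type*} [Group G]

theorem closure_pair_map_h9 (α : G ≃* G) (x y : G) :
    Subgroup.closure ({α x, α y} : Set G)
      = (Subgroup.closure ({x, y} : Set G)).map α.toMonoidHom := by
  rw [MonoidHom.map_closure]
  congr 1
  ext g
  simp only [Set.mem_insert_iff, Set.mem_singleton_iff, Set.mem_image]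
  constructor
  · rintro (rfl | rfl)
    · exact ⟨x, Or.inl rfl, rfl⟩
    · exact ⟨y, Or.inr rfl, rfl⟩
  · rintro ⟨w, rfl | rfl, rfl⟩
    · left; rfl
    · right; rfl

theorem closure_pair_top_map_h9 (α : G ≃* G) (x y : G) :
    Subgroup.closure ({α x, α y} : Set G) = ⊤ ↔ Subgroup.closure ({x, y} : Set G) = ⊤ := by
  rw [closure_pair_map_h9]
  constructor
  · intro h
    rw [eq_top_iff]
    intro g _
    have hg : α g ∈ (Subgroup.closure ({x, y} : Set G)).map α.toMonoidHom := by
      rw [h]; exact Subgroup.mem_top _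
    obtain ⟨k, hk, hkg⟩ := hg
    have : k = g := α.injective hkg
    rw [← this]; exact hk
  · intro h
    rw [h, eq_top_iff]
    intro g _
    exact ⟨α.symm g, Subgroup.mem_top _, α.apply_symm_apply g⟩

theorem card_nontop_map_h9 (α : G ≃* G) (x : G) :
    Nat.card {y : G // Subgroup.closure ({α x, y} : Set G) ≠ ⊤}
      = Nat.card {y : G // Subgroup.closure ({x, y} : Set G) ≠ ⊤} := by
  apply Nat.card_congr
  refine Equiv.subtypeEquiv α.symm.toEquiv (fun y => ?_)
  have := closure_pair_top_map_h9 α x (α.symm y)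
  rw [α.apply_symm_apply] at this
  exact not_congr this

/-- two elements normalizing a nontrivial cyclic subgroup do not generate a nonsolvable simple
group. -/
theorem closure_pair_ne_top_of_norm_h9 [Finite G] [IsSimpleGroup G] (hns : ¬ Group.IsSolvable G)
    (x y z : G) (hz : z ≠ 1) (hx : x * z * x⁻¹ = z ∨ x * z * x⁻¹ = z⁻¹)
    (hy : y * z * y⁻¹ = z ∨ y * z * y⁻¹ = z⁻¹) :
    Subgroup.closure ({x, y} : Set G) ≠ ⊤ := by
  intro htop
  have key : ∀ w : G, (w * z * w⁻¹ = z ∨ w * z * w⁻¹ = z⁻¹) →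
      w ∈ Subgroup.normalizer (Subgroup.zpowers z : Set G) := by
    intro w hw
    apply mem_normalizer_of_conj_mem_h9
    intro v hv
    obtain ⟨k, rfl⟩ := Subgroup.mem_zpowers_iff.mp hv
    rw [← conj_zpow]
    rcases hw with h | h
    · rw [h]; exact Subgroup.zpow_mem_zpowers z k
    · rw [h]; exact Subgroup.zpow_mem _ (Subgroup.inv_mem _ (Subgroup.mem_zpowers z)) k
  have hle : Subgroup.closure ({x, y} : Set G)
      ≤ Subgroup.normalizer (Subgroup.zpowers z : Set G) := by
    rw [Subgroup.closure_le]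
    intro w hw
    rcases hw with rfl | rfl
    · exact key _ hx
    · exact key _ hy
  rw [htop, top_le_iff] at hle
  have hnorm : (Subgroup.zpowers z).Normal := Subgroup.normalizer_eq_top_iff.mp hle
  rcases hnorm.eq_bot_or_eq_top with h | h
  · exact hz (Subgroup.zpowers_eq_bot.mp h)
  · apply hns
    apply Group.isSolvable_of_comm
    intro a b
    have ha : a ∈ Subgroup.zpowers z := by rw [h]; exact Subgroup.mem_top _
    have hb : b ∈ Subgroup.zpowers z := by rw [h]; exact Subgroup.mem_top _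
    obtain ⟨i, rfl⟩ := Subgroup.mem_zpowers_iff.mp ha
    obtain ⟨j, rfl⟩ := Subgroup.mem_zpowers_iff.mp hb
    rw [← zpow_add, ← zpow_add, add_comm]

/-- an involution together with a second element whose square or whose product with the
involution has square one. -/
theorem closure_pair_ne_top_of_invol_h9 [Finite G] [IsSimpleGroup G] (hns : ¬ Group.IsSolvable G)
    (x y : G) (hx1 : x ≠ 1) (hx : x * x = 1) (hy : y * y = 1 ∨ x * y * (x * y) = 1) :
    Subgroup.closure ({x, y} : Set G) ≠ ⊤ := by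
  have hxi : x⁻¹ = x := inv_eq_of_mul_eq_one_left hx
  rcases hy with hy | hxy
  · have hyi : y⁻¹ = y := inv_eq_of_mul_eq_one_left hy
    by_cases h1 : x * y = 1
    · have hyx : y = x := by rw [← hxi]; exact (inv_eq_of_mul_eq_one_right h1).symm
      apply closure_pair_ne_top_of_norm_h9 hns x y x hx1
      · left; group
      · left; rw [hyx]; group
    · apply closure_pair_ne_top_of_norm_h9 hns x y (x * y) h1
      · right
        rw [mul_inv_rev, hxi, hyi, ← mul_assoc, hx, one_mul]
      · right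
        rw [mul_inv_rev, hxi, hyi, mul_assoc, mul_assoc, hy, mul_one]
  · by_cases h1 : y = 1
    · apply closure_pair_ne_top_of_norm_h9 hns x y x hx1
      · left; group
      · left; rw [h1]; group
    · apply closure_pair_ne_top_of_norm_h9 hns x y y h1
      · right
        rw [hxi]
        exact eq_inv_of_mul_eq_one_left (by rw [← hxy]; group)
      · left; group

theorem dih_conj_h9 {k : ℕ} (e : G ≃* DihedralGroup k) (x y : G) (hx2 : x * x ≠ 1) :
    y * x = x * y ∨ y * x = x⁻¹ * y := by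
  have hex : ∃ i, e x = DihedralGroup.r i := by
    rcases h : e x with i | i
    · exact ⟨i, rfl⟩
    · exfalso
      apply hx2
      apply e.injective
      rw [map_mul, h, map_one]
      exact DihedralGroup.sr_mul_self i
  obtain ⟨i, hi⟩ := hex
  rcases hj : e y with j | j
  · left
    apply e.injective
    rw [map_mul, map_mul, hi, hj, DihedralGroup.r_mul_r, DihedralGroup.r_mul_r, add_comm]
  · right
    apply e.injective
    have hinv : (DihedralGroup.r i)⁻¹ = DihedralGroup.r (-i) :=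
      inv_eq_of_mul_eq_one_right (by rw [DihedralGroup.r_mul_r, add_neg_cancel]; rfl)
    rw [map_mul, map_mul, map_inv, hi, hj, DihedralGroup.sr_mul_r, hinv, DihedralGroup.r_mul_sr,
      sub_neg_eq_add]

theorem dih_invol_h9 {k : ℕ} (hk : k % 2 = 1) (e : G ≃* DihedralGroup k) (x y : G)
    (hx1 : x ≠ 1) (hx2 : x * x = 1) : y * y = 1 ∨ x * y * (x * y) = 1 := by
  have hex : ∃ i, e x = DihedralGroup.sr i := by
    rcases h : e x with i | i
    · exfalso
      have h2 : DihedralGroup.r i * DihedralGroup.r i = 1 := by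
        rw [← h, ← map_mul, hx2, map_one]
      rw [DihedralGroup.r_mul_r, DihedralGroup.one_def] at h2
      have h3 : i + i = 0 := by injection h2
      have hi0 : i = 0 := by
        obtain ⟨m, hm⟩ : ∃ m, k = 2 * m + 1 := ⟨k / 2, by omega⟩
        have hk0 : ((2 * m + 1 : ℕ) : ZMod k) = 0 := by rw [← hm]; exact ZMod.natCast_self k
        push_cast at hk0
        linear_combination i * hk0 - (m : ZMod k) * h3
      apply hx1
      apply e.injective
      rw [h, hi0, map_one]
      rfl
    · exact ⟨i, rfl⟩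
  obtain ⟨i, hi⟩ := hex
  rcases hj : e y with j | j
  · right
    apply e.injective
    rw [map_mul, map_mul, hi, hj, DihedralGroup.sr_mul_r, map_one]
    exact DihedralGroup.sr_mul_self _
  · left
    apply e.injective
    rw [map_mul, hj, map_one]
    exact DihedralGroup.sr_mul_self _

theorem card_or_disjoint_h9 {α : Type*} [Finite α] (p q : α → Prop) (h : ∀ x, p x → ¬ q x) :
    Nat.card {x // p x ∨ q x} = Nat.card {x // p x} + Nat.card {x // q x} := by
  classical
  have hd : Disjoint p q := by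
    rw [disjoint_iff_inf_le]
    intro x hx
    exact h x hx.1 hx.2
  exact (Nat.card_congr (subtypeOrEquiv p q hd)).trans Nat.card_sum

end general

section char2

variable {F : Type*} [Field F] [CharP F 2]

theorem sl2_neg_char2_h9 (X : SL(2, F)) : -X = X := by
  obtain ⟨n00, n01, n10, n11⟩ := sl2_neg_entries_h9 X
  apply sl2_ext_h9
  · rw [n00]; exact CharTwo.neg_eq _
  · rw [n01]; exact CharTwo.neg_eq _
  · rw [n10]; exact CharTwo.neg_eq _
  · rw [n11]; exact CharTwo.neg_eq _

theorem psl2_mk_inj_char2_h9 {X Y : SL(2, F)}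
    (h : (QuotientGroup.mk X : Matrix.ProjectiveSpecialLinearGroup (Fin 2) F) = QuotientGroup.mk Y) :
    X = Y := by
  rcases (psl2_mk_eq_iff_h9 X Y).mp h with h | h
  · exact h
  · rw [h, sl2_neg_char2_h9]

theorem psl2_out_mk_char2_h9 (X : SL(2, F)) :
    (Quotient.out (QuotientGroup.mk X : Matrix.ProjectiveSpecialLinearGroup (Fin 2) F) : SL(2, F))
      = X :=
  psl2_mk_inj_char2_h9 (QuotientGroup.out_eq' _)

theorem psl2_mk_sq_char2_h9 (X : SL(2, F)) :
    (QuotientGroup.mk X : Matrix.ProjectiveSpecialLinearGroup (Fin 2) F) * QuotientGroup.mk X = 1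
      ↔ X.1 0 0 + X.1 1 1 = 0 := by
  rw [← sl2_sq_eq_neg_one_iff_h9, sl2_neg_char2_h9]
  constructor
  · intro h
    exact psl2_mk_inj_char2_h9 h
  · intro h
    rw [← QuotientGroup.mk_mul, h]
    rfl

theorem char2_sq_eq_one_h9 (a : F) (h : a * a = 1) : a = 1 := by
  have h2 : (2 : F) = 0 := CharTwo.two_eq_zero
  have h3 : (a - 1) ^ 2 = 0 := by linear_combination h + (1 - a) * h2
  exact sub_eq_zero.mp (pow_eq_zero_iff (by norm_num) |>.mp h3)

variable [Fintype F]

/-- an involution of the Borel subgroup is unipotent. -/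
theorem borel_invol_h9 (g : Matrix.ProjectiveSpecialLinearGroup (Fin 2) F) (hg : g ∈ borel_h9 F)
    (hg2 : g * g = 1) : ∃ s : F, g = QuotientGroup.mk (sl2E_h9 s) := by
  rw [mem_borel_h9] at hg
  have hmk : (QuotientGroup.mk (Quotient.out g : SL(2, F)) :
      Matrix.ProjectiveSpecialLinearGroup (Fin 2) F) = g := QuotientGroup.out_eq' g
  have htr : (Quotient.out g : SL(2, F)).1 0 0 + (Quotient.out g : SL(2, F)).1 1 1 = 0 :=
    (psl2_mk_sq_char2_h9 _).mp (by rw [hmk]; exact hg2)
  obtain ⟨-, hdet⟩ := sl2_entries_h9 (Quotient.out g : SL(2, F))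
  rw [hg] at hdet
  have h11 : (Quotient.out g : SL(2, F)).1 1 1 = (Quotient.out g : SL(2, F)).1 0 0 := by
    rw [eq_neg_of_add_eq_zero_right htr, CharTwo.neg_eq]
  rw [h11] at hdet
  have h00 : (Quotient.out g : SL(2, F)).1 0 0 = 1 := char2_sq_eq_one_h9 _ (by linear_combination hdet)
  refine ⟨(Quotient.out g : SL(2, F)).1 0 1, hmk.symm.trans ?_⟩
  congr 1
  obtain ⟨e00, e01, e10, e11⟩ := sl2E_entries_h9 ((Quotient.out g : SL(2, F)).1 0 1)
  apply sl2_ext_h9
  · rw [e00, h00]
  · rw [e01]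
  · rw [e10, hg]
  · rw [e11, h11, h00]

/-- involutions of a subgroup of a Borel subgroup commute. -/
theorem borel_invol_comm_h9 (K : Subgroup (Matrix.ProjectiveSpecialLinearGroup (Fin 2) F))
    (α : Matrix.ProjectiveSpecialLinearGroup (Fin 2) F ≃*
      Matrix.ProjectiveSpecialLinearGroup (Fin 2) F)
    (hα : K.map α.toMonoidHom ≤ borel_h9 F)
    (u v : Matrix.ProjectiveSpecialLinearGroup (Fin 2) F) (hu : u ∈ K) (hv : v ∈ K)
    (hu2 : u * u = 1) (hv2 : v * v = 1) : u * v = v * u := by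
  obtain ⟨s, hs⟩ := borel_invol_h9 (α u) (hα ⟨u, hu, rfl⟩) (by rw [← map_mul, hu2, map_one])
  obtain ⟨t, ht⟩ := borel_invol_h9 (α v) (hα ⟨v, hv, rfl⟩) (by rw [← map_mul, hv2, map_one])
  apply α.injective
  rw [map_mul, map_mul, hs, ht, ← QuotientGroup.mk_mul, ← QuotientGroup.mk_mul, sl2E_mul_h9,
    sl2E_mul_h9, add_comm]

/-- the proper subgroups of `PSL(2, 2^p)`, `p` prime. -/
theorem char2_proper_cases_h9 (h4 : 4 ≤ Fintype.card F)
    (hsub : ∀ q₁ r : ℕ, 4 ≤ q₁ → Fintype.card F = q₁ ^ r → r = 1)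
    (K : Subgroup (Matrix.ProjectiveSpecialLinearGroup (Fin 2) F)) (hK : K ≠ ⊤) :
    (∃ α : Matrix.ProjectiveSpecialLinearGroup (Fin 2) F ≃*
        Matrix.ProjectiveSpecialLinearGroup (Fin 2) F,
      K.map α.toMonoidHom ≤ borel_h9 F ∧
        ∃ u ∈ K, α u = QuotientGroup.mk (sl2E_h9 (1 : F))) ∨
    (∃ k : ℕ, k % 2 = 1 ∧ Nonempty (K ≃* DihedralGroup k)) ∨
    (∀ a b : K, a * b = b * a) := by
  haveI : Fact (Nat.Prime 2) := ⟨Nat.prime_two⟩
  by_cases h2 : 2 ∣ Nat.card K
  · obtain ⟨α, hE, hcase⟩ := dickson_cases_h9 (p := 2) K h2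
    rcases hcase with hb | ⟨h3, -⟩ | ⟨-, k, -, hodd, he⟩ |
      ⟨q₁, k, r, hq4, -, hcard, -, hkq, hFq, -⟩
    · left
      obtain ⟨u, hu, hαu⟩ := hE
      exact ⟨α, hb, u, hu, hαu⟩
    · omega
    · right; left; exact ⟨k, hodd, he⟩
    · exfalso
      have hr := hsub q₁ r hq4 hFq
      rw [hr, pow_one] at hFq
      exact top_case_false_h9 (p := 2) h4 K hK k (by rw [hcard, hFq]) (by rw [hFq]; exact hkq)
  · right; right
    rcases psl2_pprime_h9 (p := 2) K h2 with hc | ⟨k, hk, -⟩ | ⟨⟨e⟩⟩ | ⟨⟨e⟩⟩ | ⟨⟨e⟩⟩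
    · letI := IsCyclic.commGroup (α := K)
      exact fun a b => mul_comm a b
    · exfalso; exact h2 ⟨k, hk⟩
    · exfalso; apply h2; rw [Nat.card_congr e.toEquiv, card_alt4_h9]; norm_num
    · exfalso; apply h2; rw [Nat.card_congr e.toEquiv, card_perm4_h9]; norm_num
    · exfalso; apply h2; rw [Nat.card_congr e.toEquiv, card_A5_h9]; norm_num

end char2

end Cfsg.Agent.Helper9
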