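import Mathlib
import Cfsg.Agent.Helper9.Sb1

/-!
# Solubilizers in `PSL(2, 2^p)`: the three descriptions (helper9)
-/

set_option autoImplicit false
open scoped MatrixGroups

namespace Cfsg.Agent.Helper9

theorem sl2_conj_L_01_h9 {F : Type*} [Field F] (x : SL(2, F)) (g : F) :
    (x * sl2L_h9 g * x⁻¹).1 0 1 = -g * (x.1 0 1) ^ 2 := by
  obtain ⟨m00, m01, m10, m11⟩ := sl2_mul_entries_h9 (x * sl2L_h9 g) x⁻¹
  obtain ⟨n00, n01, n10, n11⟩ := sl2_mul_entries_h9 x (sl2L_h9 g)
  obtain ⟨i00, i01, i10, i11⟩ := sl2_inv_entries_h9 x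
  obtain ⟨e00, e01, e10, e11⟩ := sl2L_entries_h9 g
  rw [m01, n00, n01, i01, i11, e00, e01, e10, e11]; ring

theorem nt_coprime_h9 (q n : ℕ) (hq : q % 2 = 0) (hq2 : 2 ≤ q) (h1 : n ∣ q + 1)
    (h2 : n ∣ 2 * q * (q - 1)) : n = 1 := by
  have hc2 : Nat.Coprime (q + 1) 2 := by
    rw [Nat.coprime_comm, Nat.Prime.coprime_iff_not_dvd Nat.prime_two]
    omega
  have hcq : Nat.Coprime (q + 1) q := by simp
  have hn2 : Nat.Coprime n 2 := Nat.Coprime.coprime_dvd_left h1 hc2
  have hnq : Nat.Coprime n q := Nat.Coprime.coprime_dvd_left h1 hcq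
  have hn2q : Nat.Coprime n (2 * q) := Nat.Coprime.mul_right hn2 hnq
  have h3 : n ∣ q - 1 := Nat.Coprime.dvd_of_dvd_mul_left hn2q h2
  have h4 : n ∣ (q + 1) - (q - 1) := Nat.dvd_sub h1 h3
  have e : (q + 1) - (q - 1) = 2 := by omega
  rw [e] at h4
  exact Nat.Coprime.eq_one_of_dvd hn2 h4

section char2

variable {F : Type*} [Field F] [Fintype F] [CharP F 2]

theorem borel_ne_top_h9 : borel_h9 F ≠ ⊤ := by
  intro h
  have hm : (QuotientGroup.mk (sl2L_h9 (1 : F)) : Matrix.ProjectiveSpecialLinearGroup (Fin 2) F)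
      ∈ borel_h9 F := by rw [h]; exact Subgroup.mem_top _
  rw [mem_borel_h9, psl2_out_mk_char2_h9, (sl2L_entries_h9 (1 : F)).2.2.1] at hm
  exact one_ne_zero hm

theorem mk_mem_borel_char2_h9 (Y : SL(2, F)) :
    (QuotientGroup.mk Y : Matrix.ProjectiveSpecialLinearGroup (Fin 2) F) ∈ borel_h9 F
      ↔ Y.1 1 0 = 0 := by
  rw [mem_borel_h9, psl2_out_mk_char2_h9]

theorem closure_pair_borel_ne_top_h9 (x y : Matrix.ProjectiveSpecialLinearGroup (Fin 2) F)
    (hx : x ∈ borel_h9 F) (hy : y ∈ borel_h9 F) :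
    Subgroup.closure ({x, y} : Set (Matrix.ProjectiveSpecialLinearGroup (Fin 2) F)) ≠ ⊤ := by
  intro h
  apply borel_ne_top_h9 (F := F)
  rw [eq_top_iff, ← h, Subgroup.closure_le]
  rintro w (rfl | rfl)
  · exact hx
  · exact hy

/-- the solubilizer of the standard involution. -/
theorem invol_sol_iff_h9 (h4 : 4 ≤ Fintype.card F)
    (hsub : ∀ q₁ r : ℕ, 4 ≤ q₁ → Fintype.card F = q₁ ^ r → r = 1) (Y : SL(2, F)) :
    Subgroup.closure ({QuotientGroup.mk (sl2E_h9 (1 : F)), QuotientGroup.mk Y} :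
      Set (Matrix.ProjectiveSpecialLinearGroup (Fin 2) F)) ≠ ⊤ ↔
    (Y.1 1 0 = 0 ∨ Y.1 0 0 + Y.1 1 1 = 0 ∨ Y.1 1 0 = Y.1 0 0 + Y.1 1 1) := by
  haveI hsimple : IsSimpleGroup (Matrix.ProjectiveSpecialLinearGroup (Fin 2) F) :=
    Matrix.ProjectiveSpecialLinearGroup.rank_two_simple
      (by rw [Nat.card_eq_fintype_card]; exact h4)
  have hns : ¬ Group.IsSolvable (Matrix.ProjectiveSpecialLinearGroup (Fin 2) F) :=
    psl2_not_solvable_h9 (by rw [Nat.card_eq_fintype_card]; exact h4)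
  obtain ⟨e00, e01, e10, e11⟩ := sl2E_entries_h9 (1 : F)
  have hx2 : (QuotientGroup.mk (sl2E_h9 (1 : F)) : Matrix.ProjectiveSpecialLinearGroup (Fin 2) F)
      * QuotientGroup.mk (sl2E_h9 (1 : F)) = 1 :=
    (psl2_mk_sq_char2_h9 _).mpr (by rw [e00, e11]; exact CharTwo.add_self_eq_zero 1)
  have hx1 : (QuotientGroup.mk (sl2E_h9 (1 : F)) : Matrix.ProjectiveSpecialLinearGroup (Fin 2) F)
      ≠ 1 := by
    intro h
    have := psl2_mk_inj_char2_h9 (X := sl2E_h9 (1 : F)) (Y := 1) h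
    have h01 : (sl2E_h9 (1 : F)).1 0 1 = (1 : SL(2, F)).1 0 1 := by rw [this]
    rw [e01, (sl2_one_entries_h9 (F := F)).2.1] at h01
    exact one_ne_zero h01
  obtain ⟨m00, m01, m10, m11⟩ := sl2_mul_entries_h9 (sl2E_h9 (1 : F)) Y
  have hxy2 : (QuotientGroup.mk (sl2E_h9 (1 : F)) : Matrix.ProjectiveSpecialLinearGroup (Fin 2) F)
      * QuotientGroup.mk Y * (QuotientGroup.mk (sl2E_h9 (1 : F)) * QuotientGroup.mk Y) = 1 ↔
      Y.1 0 0 + Y.1 1 0 + Y.1 1 1 = 0 := by
    have := psl2_mk_sq_char2_h9 (sl2E_h9 (1 : F) * Y)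
    rw [m00, m11, e00, e01, e10, e11] at this
    rw [show Y.1 0 0 + Y.1 1 0 + Y.1 1 1 = 0 ↔ 1 * Y.1 0 0 + 1 * Y.1 1 0 + (0 * Y.1 0 1 + 1 * Y.1 1 1) = 0
      from by constructor <;> intro h <;> linear_combination h]
    exact this
  have hy2 : (QuotientGroup.mk Y : Matrix.ProjectiveSpecialLinearGroup (Fin 2) F)
      * QuotientGroup.mk Y = 1 ↔ Y.1 0 0 + Y.1 1 1 = 0 := psl2_mk_sq_char2_h9 Y
  constructor
  · intro hK
    have hxK := Subgroup.subset_closure (k :=
      ({QuotientGroup.mk (sl2E_h9 (1 : F)), QuotientGroup.mk Y} :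
        Set (Matrix.ProjectiveSpecialLinearGroup (Fin 2) F))) (Set.mem_insert _ _)
    have hyK := Subgroup.subset_closure (k :=
      ({QuotientGroup.mk (sl2E_h9 (1 : F)), QuotientGroup.mk Y} :
        Set (Matrix.ProjectiveSpecialLinearGroup (Fin 2) F)))
      (Set.mem_insert_of_mem _ (Set.mem_singleton _))
    rcases char2_proper_cases_h9 h4 hsub _ hK with ⟨α, hα, -⟩ | ⟨k, hk, ⟨e⟩⟩ | hcomm
    · left
      have hv2 : ((QuotientGroup.mk Y : Matrix.ProjectiveSpecialLinearGroup (Fin 2) F)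
          * QuotientGroup.mk (sl2E_h9 (1 : F)) * (QuotientGroup.mk Y)⁻¹)
          * (QuotientGroup.mk Y * QuotientGroup.mk (sl2E_h9 (1 : F)) * (QuotientGroup.mk Y)⁻¹)
          = 1 := by
        have : ∀ a b : Matrix.ProjectiveSpecialLinearGroup (Fin 2) F,
            (a * b * a⁻¹) * (a * b * a⁻¹) = a * (b * b) * a⁻¹ := by intro a b; group
        rw [this, hx2, mul_one, mul_inv_cancel]
      have hc := borel_invol_comm_h9 _ α hα _ _ hxK
        (Subgroup.mul_mem _ (Subgroup.mul_mem _ hyK hxK) (Subgroup.inv_mem _ hyK)) hx2 hv2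
      have hc' : sl2E_h9 (1 : F) * (Y * sl2E_h9 1 * Y⁻¹) = (Y * sl2E_h9 1 * Y⁻¹) * sl2E_h9 1 :=
        psl2_mk_inj_char2_h9 hc
      have h00 : (sl2E_h9 (1 : F) * (Y * sl2E_h9 1 * Y⁻¹)).1 0 0
          = ((Y * sl2E_h9 1 * Y⁻¹) * sl2E_h9 1).1 0 0 := by rw [hc']
      rw [(sl2_mul_entries_h9 _ _).1, (sl2_mul_entries_h9 (Y * sl2E_h9 1 * Y⁻¹) _).1,
        sl2_conj_E_10_h9, e00, e01, e10] at h00
      have hc2 : (Y.1 1 0) ^ 2 = 0 := by linear_combination -h00
      exact (pow_eq_zero_iff (by norm_num)).mp hc2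
    · right
      rcases dih_invol_h9 hk e ⟨_, hxK⟩ ⟨_, hyK⟩ (fun h => hx1 (congrArg Subtype.val h))
        (Subtype.ext hx2) with h | h
      · left; exact hy2.mp (congrArg Subtype.val h)
      · right
        have h1 := hxy2.mp (congrArg Subtype.val h)
        have h2 : Y.1 1 0 = -(Y.1 0 0 + Y.1 1 1) := by linear_combination h1
        rw [h2, CharTwo.neg_eq]
    · left
      have h := congrArg Subtype.val (hcomm ⟨_, hxK⟩ ⟨_, hyK⟩)
      have h' : sl2E_h9 (1 : F) * Y = Y * sl2E_h9 (1 : F) := psl2_mk_inj_char2_h9 h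
      have h00 : (sl2E_h9 (1 : F) * Y).1 0 0 = (Y * sl2E_h9 (1 : F)).1 0 0 := by rw [h']
      rw [m00, (sl2_mul_entries_h9 Y _).1, e00, e01, e10] at h00
      linear_combination h00
  · rintro (h | h | h)
    · exact closure_pair_borel_ne_top_h9 _ _ ((mk_mem_borel_char2_h9 _).mpr e10)
        ((mk_mem_borel_char2_h9 _).mpr h)
    · exact closure_pair_ne_top_of_invol_h9 hns _ _ hx1 hx2 (Or.inl (hy2.mpr h))
    · refine closure_pair_ne_top_of_invol_h9 hns _ _ hx1 hx2 (Or.inr (hxy2.mpr ?_))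
      rw [h]
      linear_combination (Y.1 0 0 + Y.1 1 1) * (CharTwo.two_eq_zero (R := F))

/-- the solubilizer of a diagonal element. -/
theorem diag_sol_iff_h9 (h4 : 4 ≤ Fintype.card F)
    (hsub : ∀ q₁ r : ℕ, 4 ≤ q₁ → Fintype.card F = q₁ ^ r → r = 1) (t : F) (ht : t ≠ 0)
    (ht1 : t ≠ 1) (Y : SL(2, F)) :
    Subgroup.closure ({QuotientGroup.mk (sl2D_h9 t ht), QuotientGroup.mk Y} :
      Set (Matrix.ProjectiveSpecialLinearGroup (Fin 2) F)) ≠ ⊤ ↔
    (Y.1 1 0 = 0 ∨ Y.1 0 1 = 0 ∨ (Y.1 0 0 = 0 ∧ Y.1 1 1 = 0)) := by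
  haveI hsimple : IsSimpleGroup (Matrix.ProjectiveSpecialLinearGroup (Fin 2) F) :=
    Matrix.ProjectiveSpecialLinearGroup.rank_two_simple
      (by rw [Nat.card_eq_fintype_card]; exact h4)
  have hns : ¬ Group.IsSolvable (Matrix.ProjectiveSpecialLinearGroup (Fin 2) F) :=
    psl2_not_solvable_h9 (by rw [Nat.card_eq_fintype_card]; exact h4)
  obtain ⟨d00, d01, d10, d11⟩ := sl2D_entries_h9 t ht
  obtain ⟨i00, i01, i10, i11⟩ := sl2_inv_entries_h9 (sl2D_h9 t ht)
  have htt : t * t⁻¹ = 1 := mul_inv_cancel₀ ht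
  have h2F : (2 : F) = 0 := CharTwo.two_eq_zero
  have ht2 : t - t⁻¹ ≠ 0 := by
    intro h
    have : t * t = 1 := by linear_combination t * h + htt
    exact ht1 (char2_sq_eq_one_h9 t this)
  have hx2 : (QuotientGroup.mk (sl2D_h9 t ht) : Matrix.ProjectiveSpecialLinearGroup (Fin 2) F)
      * QuotientGroup.mk (sl2D_h9 t ht) ≠ 1 := by
    intro h
    have := (psl2_mk_sq_char2_h9 _).mp h
    rw [d00, d11] at this
    apply ht2
    linear_combination this - t⁻¹ * h2F
  have hx1 : (QuotientGroup.mk (sl2D_h9 t ht) : Matrix.ProjectiveSpecialLinearGroup (Fin 2) F)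
      ≠ 1 := by
    intro h; apply hx2; rw [h, one_mul]
  have hcomm_b : (QuotientGroup.mk Y : Matrix.ProjectiveSpecialLinearGroup (Fin 2) F)
      * QuotientGroup.mk (sl2D_h9 t ht) = QuotientGroup.mk (sl2D_h9 t ht) * QuotientGroup.mk Y →
      Y.1 0 1 = 0 := by
    intro h
    have h' : Y * sl2D_h9 t ht = sl2D_h9 t ht * Y := psl2_mk_inj_char2_h9 h
    have h01 : (Y * sl2D_h9 t ht).1 0 1 = (sl2D_h9 t ht * Y).1 0 1 := by rw [h']
    rw [(sl2_mul_entries_h9 _ _).2.1, (sl2_mul_entries_h9 (sl2D_h9 t ht) Y).2.1, d00, d01, d11]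
      at h01
    have : Y.1 0 1 * (t - t⁻¹) = 0 := by linear_combination -h01
    rcases mul_eq_zero.mp this with h | h
    · exact h
    · exact absurd h ht2
  have hinv_ad : (QuotientGroup.mk Y : Matrix.ProjectiveSpecialLinearGroup (Fin 2) F)
      * QuotientGroup.mk (sl2D_h9 t ht)
        = (QuotientGroup.mk (sl2D_h9 t ht))⁻¹ * QuotientGroup.mk Y →
      Y.1 0 0 = 0 ∧ Y.1 1 1 = 0 := by
    intro h
    have h' : Y * sl2D_h9 t ht = (sl2D_h9 t ht)⁻¹ * Y := psl2_mk_inj_char2_h9 h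
    have h00 : (Y * sl2D_h9 t ht).1 0 0 = ((sl2D_h9 t ht)⁻¹ * Y).1 0 0 := by rw [h']
    have h11 : (Y * sl2D_h9 t ht).1 1 1 = ((sl2D_h9 t ht)⁻¹ * Y).1 1 1 := by rw [h']
    rw [(sl2_mul_entries_h9 _ _).1, (sl2_mul_entries_h9 (sl2D_h9 t ht)⁻¹ Y).1, i00, i01, d00,
      d01, d10, d11] at h00
    rw [(sl2_mul_entries_h9 _ _).2.2.2, (sl2_mul_entries_h9 (sl2D_h9 t ht)⁻¹ Y).2.2.2, i10, i11,
      d00, d01, d10, d11] at h11
    constructor
    · have : Y.1 0 0 * (t - t⁻¹) = 0 := by linear_combination h00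
      rcases mul_eq_zero.mp this with h | h
      · exact h
      · exact absurd h ht2
    · have : Y.1 1 1 * (t - t⁻¹) = 0 := by linear_combination -h11
      rcases mul_eq_zero.mp this with h | h
      · exact h
      · exact absurd h ht2
  constructor
  · intro hK
    have hxK := Subgroup.subset_closure (k :=
      ({QuotientGroup.mk (sl2D_h9 t ht), QuotientGroup.mk Y} :
        Set (Matrix.ProjectiveSpecialLinearGroup (Fin 2) F))) (Set.mem_insert _ _)
    have hyK := Subgroup.subset_closure (k :=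
      ({QuotientGroup.mk (sl2D_h9 t ht), QuotientGroup.mk Y} :
        Set (Matrix.ProjectiveSpecialLinearGroup (Fin 2) F)))
      (Set.mem_insert_of_mem _ (Set.mem_singleton _))
    rcases char2_proper_cases_h9 h4 hsub _ hK with ⟨α, hα, u, huK, hαu⟩ | ⟨k, hk, ⟨e⟩⟩ | hcomm
    · -- Borel case
      obtain ⟨e00, e01, e10, e11⟩ := sl2E_entries_h9 (1 : F)
      have hu2 : u * u = 1 := by
        apply α.injective
        rw [map_mul, hαu, map_one]
        exact (psl2_mk_sq_char2_h9 _).mpr (by rw [e00, e11]; exact CharTwo.add_self_eq_zero 1)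
      have hu1 : u ≠ 1 := by
        intro h
        rw [h, map_one] at hαu
        have := psl2_mk_inj_char2_h9 (X := 1) (Y := sl2E_h9 (1 : F)) hαu
        have h01 : (sl2E_h9 (1 : F)).1 0 1 = (1 : SL(2, F)).1 0 1 := by rw [← this]
        rw [e01, (sl2_one_entries_h9 (F := F)).2.1] at h01
        exact one_ne_zero h01
      obtain ⟨U, rfl⟩ : ∃ U : SL(2, F),
          (QuotientGroup.mk U : Matrix.ProjectiveSpecialLinearGroup (Fin 2) F) = u :=
        QuotientGroup.mk_surjective u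
      have htr : U.1 0 0 + U.1 1 1 = 0 := (psl2_mk_sq_char2_h9 U).mp hu2
      have h11 : U.1 1 1 = U.1 0 0 := by
        rw [eq_neg_of_add_eq_zero_right htr, CharTwo.neg_eq]
      obtain ⟨-, hdet⟩ := sl2_entries_h9 U
      have hconj2 : ∀ a : Matrix.ProjectiveSpecialLinearGroup (Fin 2) F,
          (a * QuotientGroup.mk U * a⁻¹) * (a * QuotientGroup.mk U * a⁻¹) = 1 := by
        intro a
        have : ∀ a b : Matrix.ProjectiveSpecialLinearGroup (Fin 2) F,
            (a * b * a⁻¹) * (a * b * a⁻¹) = a * (b * b) * a⁻¹ := by intro a b; group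
        rw [this, hu2, mul_one, mul_inv_cancel]
      have hc1 := borel_invol_comm_h9 _ α hα _ _ huK
        (Subgroup.mul_mem _ (Subgroup.mul_mem _ hxK huK) (Subgroup.inv_mem _ hxK)) hu2
        (hconj2 _)
      have hc1' : U * (sl2D_h9 t ht * U * (sl2D_h9 t ht)⁻¹)
          = (sl2D_h9 t ht * U * (sl2D_h9 t ht)⁻¹) * U := psl2_mk_inj_char2_h9 hc1
      obtain ⟨w00, w01, w10, w11⟩ := sl2_mul_entries_h9 (sl2D_h9 t ht * U) (sl2D_h9 t ht)⁻¹
      obtain ⟨v00, v01, v10, v11⟩ := sl2_mul_entries_h9 (sl2D_h9 t ht) U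
      have hw00 : (sl2D_h9 t ht * U * (sl2D_h9 t ht)⁻¹).1 0 0 = U.1 0 0 := by
        rw [w00, v00, v01, i00, i10, d00, d01, d10, d11]
        linear_combination U.1 0 0 * htt
      have hw01 : (sl2D_h9 t ht * U * (sl2D_h9 t ht)⁻¹).1 0 1 = t * t * U.1 0 1 := by
        rw [w01, v00, v01, i01, i11, d00, d01]
        ring
      have hw10 : (sl2D_h9 t ht * U * (sl2D_h9 t ht)⁻¹).1 1 0 = t⁻¹ * t⁻¹ * U.1 1 0 := by
        rw [w10, v10, v11, i00, i10, d10, d11]
        ring
      have h00 : (U * (sl2D_h9 t ht * U * (sl2D_h9 t ht)⁻¹)).1 0 0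
          = ((sl2D_h9 t ht * U * (sl2D_h9 t ht)⁻¹) * U).1 0 0 := by rw [hc1']
      rw [(sl2_mul_entries_h9 _ _).1, (sl2_mul_entries_h9 (sl2D_h9 t ht * U * (sl2D_h9 t ht)⁻¹) U).1,
        hw00, hw01, hw10] at h00
      have hfg : U.1 0 1 * U.1 1 0 * ((t - t⁻¹) * (t - t⁻¹)) = 0 := by
        linear_combination h00 + (U.1 0 1 * U.1 1 0 * (t * t - t * t⁻¹)) * h2F
      have hfg0 : U.1 0 1 * U.1 1 0 = 0 := by
        rcases mul_eq_zero.mp hfg with h | h
        · exact h
        · exact absurd (mul_self_eq_zero.mp h) ht2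
      have hU00 : U.1 0 0 = 1 := by
        apply char2_sq_eq_one_h9
        rw [h11] at hdet
        linear_combination hdet + hfg0
      have hUne : U ≠ 1 := by
        rintro rfl
        exact hu1 rfl
      rcases mul_eq_zero.mp hfg0 with hf | hg
      · -- U = L(g)
        have hUL : U = sl2L_h9 (U.1 1 0) := by
          obtain ⟨l00, l01, l10, l11⟩ := sl2L_entries_h9 (U.1 1 0)
          apply sl2_ext_h9
          · rw [l00, hU00]
          · rw [l01, hf]
          · rw [l10]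
          · rw [l11, h11, hU00]
        have hg0 : U.1 1 0 ≠ 0 := by
          intro h
          apply hUne
          rw [hUL, h]
          obtain ⟨l00, l01, l10, l11⟩ := sl2L_entries_h9 (0 : F)
          obtain ⟨o00, o01, o10, o11⟩ := sl2_one_entries_h9 (F := F)
          apply sl2_ext_h9
          · rw [l00, o00]
          · rw [l01, o01]
          · rw [l10, o10]
          · rw [l11, o11]
        right; left
        have hc2 := borel_invol_comm_h9 _ α hα _ _ huK
          (Subgroup.mul_mem _ (Subgroup.mul_mem _ hyK huK) (Subgroup.inv_mem _ hyK)) hu2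
          (hconj2 _)
        have hc2' : U * (Y * U * Y⁻¹) = (Y * U * Y⁻¹) * U := psl2_mk_inj_char2_h9 hc2
        have h11' : (U * (Y * U * Y⁻¹)).1 1 1 = ((Y * U * Y⁻¹) * U).1 1 1 := by rw [hc2']
        rw [(sl2_mul_entries_h9 _ _).2.2.2, (sl2_mul_entries_h9 (Y * U * Y⁻¹) U).2.2.2, hf, h11,
          hU00] at h11'
        have hz : (Y * U * Y⁻¹).1 0 1 = -(U.1 1 0) * (Y.1 0 1) ^ 2 := by
          conv_lhs => rw [hUL]
          exact sl2_conj_L_01_h9 Y _
        rw [hz] at h11'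
        have : (U.1 1 0 * Y.1 0 1) ^ 2 = 0 := by linear_combination -h11'
        rcases mul_eq_zero.mp ((pow_eq_zero_iff (by norm_num)).mp this) with h | h
        · exact absurd h hg0
        · exact h
      · -- U = E(f)
        have hUE : U = sl2E_h9 (U.1 0 1) := by
          obtain ⟨l00, l01, l10, l11⟩ := sl2E_entries_h9 (U.1 0 1)
          apply sl2_ext_h9
          · rw [l00, hU00]
          · rw [l01]
          · rw [l10, hg]
          · rw [l11, h11, hU00]
        have hf0 : U.1 0 1 ≠ 0 := by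
          intro h
          apply hUne
          rw [hUE, h, sl2E_zero_h9]
        left
        have hc2 := borel_invol_comm_h9 _ α hα _ _ huK
          (Subgroup.mul_mem _ (Subgroup.mul_mem _ hyK huK) (Subgroup.inv_mem _ hyK)) hu2
          (hconj2 _)
        have hc2' : U * (Y * U * Y⁻¹) = (Y * U * Y⁻¹) * U := psl2_mk_inj_char2_h9 hc2
        have h00' : (U * (Y * U * Y⁻¹)).1 0 0 = ((Y * U * Y⁻¹) * U).1 0 0 := by rw [hc2']
        rw [(sl2_mul_entries_h9 _ _).1, (sl2_mul_entries_h9 (Y * U * Y⁻¹) U).1, hg, hU00] at h00'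
        have hz : (Y * U * Y⁻¹).1 1 0 = -(U.1 0 1) * (Y.1 1 0) ^ 2 := by
          conv_lhs => rw [hUE]
          exact sl2_conj_E_10_h9 Y _
        rw [hz] at h00'
        have : (U.1 0 1 * Y.1 1 0) ^ 2 = 0 := by linear_combination -h00'
        rcases mul_eq_zero.mp ((pow_eq_zero_iff (by norm_num)).mp this) with h | h
        · exact absurd h hf0
        · exact h
    · rcases dih_conj_h9 e ⟨_, hxK⟩ ⟨_, hyK⟩ (fun h => hx2 (congrArg Subtype.val h)) with h | h
      · right; left; exact hcomm_b (congrArg Subtype.val h)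
      · right; right; exact hinv_ad (congrArg Subtype.val h)
    · right; left
      exact hcomm_b (congrArg Subtype.val (hcomm ⟨_, hyK⟩ ⟨_, hxK⟩))
  · rintro (h | h | ⟨ha, hd⟩)
    · exact closure_pair_borel_ne_top_h9 _ _ ((mk_mem_borel_char2_h9 _).mpr d10)
        ((mk_mem_borel_char2_h9 _).mpr h)
    · intro htop
      obtain ⟨j00, j01, j10, j11⟩ := sl2J_entries_h9 F
      obtain ⟨k00, k01, k10, k11⟩ := sl2_inv_entries_h9 (sl2J_h9 F)
      have key : ∀ M : SL(2, F), M.1 0 1 = 0 →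
          (QuotientGroup.mk (sl2J_h9 F * M * (sl2J_h9 F)⁻¹) :
            Matrix.ProjectiveSpecialLinearGroup (Fin 2) F) ∈ borel_h9 F := by
        intro M hM
        rw [mk_mem_borel_char2_h9, (sl2_mul_entries_h9 _ _).2.2.1,
          (sl2_mul_entries_h9 (sl2J_h9 F) M).2.2.1, (sl2_mul_entries_h9 (sl2J_h9 F) M).2.2.2,
          k00, k10, j10, j11, hM]
        ring
      have h1 := (closure_pair_top_map_h9
        (MulAut.conj (QuotientGroup.mk (sl2J_h9 F) : Matrix.ProjectiveSpecialLinearGroup (Fin 2) F))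
        (QuotientGroup.mk (sl2D_h9 t ht)) (QuotientGroup.mk Y)).mpr htop
      exact closure_pair_borel_ne_top_h9 _ _ (key _ d01) (key _ h) h1
    · have hYD : Y * sl2D_h9 t ht = (sl2D_h9 t ht)⁻¹ * Y := by
        obtain ⟨m00, m01, m10, m11⟩ := sl2_mul_entries_h9 Y (sl2D_h9 t ht)
        obtain ⟨n00, n01, n10, n11⟩ := sl2_mul_entries_h9 (sl2D_h9 t ht)⁻¹ Y
        apply sl2_ext_h9
        · simp only [m00, n00, i00, i01, d00, d01, d10, d11, ha]; ring
        · simp only [m01, n01, i00, i01, d00, d01, d10, d11]; ring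
        · simp only [m10, n10, i10, i11, d00, d01, d10, d11]; ring
        · simp only [m11, n11, i10, i11, d00, d01, d10, d11, hd]; ring
      apply closure_pair_ne_top_of_norm_h9 hns _ _ (QuotientGroup.mk (sl2D_h9 t ht)) hx1
      · left; group
      · right
        rw [mul_inv_eq_iff_eq_mul]
        show (QuotientGroup.mk (Y * sl2D_h9 t ht) : Matrix.ProjectiveSpecialLinearGroup (Fin 2) F)
          = QuotientGroup.mk ((sl2D_h9 t ht)⁻¹ * Y)
        rw [hYD]

/-- the solubilizer of a nonsplit semisimple element. -/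
theorem nonsplit_sol_card_h9 (h4 : 4 ≤ Fintype.card F)
    (hsub : ∀ q₁ r : ℕ, 4 ≤ q₁ → Fintype.card F = q₁ ^ r → r = 1)
    (x : Matrix.ProjectiveSpecialLinearGroup (Fin 2) F) (hx1 : x ≠ 1)
    (hxo : orderOf x ∣ Fintype.card F + 1) :
    Nat.card {y : Matrix.ProjectiveSpecialLinearGroup (Fin 2) F //
      Subgroup.closure ({x, y} : Set (Matrix.ProjectiveSpecialLinearGroup (Fin 2) F)) ≠ ⊤}
      = 2 * (Fintype.card F + 1) := by
  haveI : Fact (Nat.Prime 2) := ⟨Nat.prime_two⟩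
  have heven : Fintype.card F % 2 = 0 :=
    FiniteField.even_card_iff_char_two.mp (ringChar.eq F 2)
  have hodd : ¬ 2 ∣ orderOf x := fun h => by have := h.trans hxo; omega
  have hx2 : x * x ≠ 1 := by
    intro h
    have : orderOf x ∣ 2 := orderOf_dvd_of_pow_eq_one (by rw [pow_two]; exact h)
    rcases (Nat.dvd_prime Nat.prime_two).mp this with h1 | h2
    · exact hx1 (orderOf_eq_one_iff.mp h1)
    · exact hodd (by rw [h2])
  have hgood : sl2Good_h9 (Quotient.out x : SL(2, F)) := by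
    intro h
    apply hx2
    have hmk : (QuotientGroup.mk (Quotient.out x : SL(2, F)) :
        Matrix.ProjectiveSpecialLinearGroup (Fin 2) F) = x := QuotientGroup.out_eq' x
    have h4F : (4 : F) = 0 := by
      have h2F : (2 : F) = 0 := CharTwo.two_eq_zero
      linear_combination 2 * h2F
    rw [h4F] at h
    have htr := (pow_eq_zero_iff (by norm_num)).mp h
    have := (psl2_mk_sq_char2_h9 _).mpr htr
    rw [hmk] at this
    exact this
  obtain ⟨N', t, hN, hNtop, hcard, hev, -⟩ := top_torus_h9 (p := 2) h4 x hgood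
  have hxN : x ∈ N' := hN x (Or.inl (by group))
  have hset : ∀ y : Matrix.ProjectiveSpecialLinearGroup (Fin 2) F,
      Subgroup.closure ({x, y} : Set (Matrix.ProjectiveSpecialLinearGroup (Fin 2) F)) ≠ ⊤
        ↔ y ∈ N' := by
    intro y
    constructor
    · intro hK
      apply hN
      have hxK := Subgroup.subset_closure (k :=
        ({x, y} : Set (Matrix.ProjectiveSpecialLinearGroup (Fin 2) F))) (Set.mem_insert _ _)
      have hyK := Subgroup.subset_closure (k :=
        ({x, y} : Set (Matrix.ProjectiveSpecialLinearGroup (Fin 2) F)))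
        (Set.mem_insert_of_mem _ (Set.mem_singleton _))
      suffices h : y * x = x * y ∨ y * x = x⁻¹ * y by
        rcases h with h | h
        · left; rw [h]; group
        · right; rw [h]; group
      rcases char2_proper_cases_h9 h4 hsub _ hK with ⟨α, hα, -⟩ | ⟨k, hk, ⟨e⟩⟩ | hcomm
      · exfalso
        have h1 : orderOf x ∣ Nat.card (borel_h9 F) := by
          have hmem : α x ∈ borel_h9 F := hα ⟨x, hxK, rfl⟩
          have : orderOf (α x) = orderOf x := MulEquiv.orderOf_eq α x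
          rw [← this]
          exact Subgroup.orderOf_dvd_natCard _ hmem
        obtain ⟨k₀, -, -, hpar, hB, -⟩ := top_struct_parity_h9 (p := 2) (F := F) h4
        have hk₀ : k₀ = Fintype.card F - 1 := by
          rcases hpar with ⟨h, -⟩ | ⟨-, h⟩
          · omega
          · exact h
        rw [hB, hk₀] at h1
        apply hx1
        apply orderOf_eq_one_iff.mp
        apply nt_coprime_h9 (Fintype.card F) _ heven (by omega) hxo
        rw [mul_assoc]
        exact Dvd.dvd.mul_left h1 2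
      · rcases dih_conj_h9 e ⟨_, hxK⟩ ⟨_, hyK⟩ (fun h => hx2 (congrArg Subtype.val h)) with h | h
        · left; exact congrArg Subtype.val h
        · right; exact congrArg Subtype.val h
      · left; exact congrArg Subtype.val (hcomm ⟨_, hyK⟩ ⟨_, hxK⟩)
    · intro hy htop
      apply hNtop
      rw [eq_top_iff, ← htop, Subgroup.closure_le]
      rintro w (rfl | rfl)
      · exact hxN
      · exact hy
  have hc : Nat.card {y : Matrix.ProjectiveSpecialLinearGroup (Fin 2) F //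
      Subgroup.closure ({x, y} : Set (Matrix.ProjectiveSpecialLinearGroup (Fin 2) F)) ≠ ⊤}
      = Nat.card N' := Nat.card_congr (Equiv.subtypeEquivRight hset)
  rw [hc, hcard]
  rcases hev heven with ht | ht
  · exfalso
    have h1 : orderOf x ∣ 2 * t := by rw [← hcard]; exact Subgroup.orderOf_dvd_natCard _ hxN
    rw [ht] at h1
    apply hx1
    apply orderOf_eq_one_iff.mp
    apply nt_coprime_h9 (Fintype.card F) _ heven (by omega) hxo
    have e : 2 * Fintype.card F * (Fintype.card F - 1)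
        = Fintype.card F * (2 * (Fintype.card F - 1)) := by ring
    rw [e]
    exact Dvd.dvd.mul_left h1 _
  · rw [ht]

end char2

end Cfsg.Agent.Helper9
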