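import Mathlib
import Cfsg.Agent.Helper9.Sb2

/-!
# Solubilizers in `PSL(2, 2^p)`: diagonalisation and counting (helper9)
-/

set_option autoImplicit false
open scoped MatrixGroups

namespace Cfsg.Agent.Helper9

/-- the element of `SL(2, F)` with given entries. -/
def sl2Of_h9 {F : Type*} [Field F] (a b c d : F) (h : a * d - b * c = 1) : SL(2, F) :=
  ⟨!![a, b; c, d], by rw [Matrix.det_fin_two_of]; exact h⟩

theorem sl2Of_entries_h9 {F : Type*} [Field F] (a b c d : F) (h : a * d - b * c = 1) :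
    (sl2Of_h9 a b c d h).1 0 0 = a ∧ (sl2Of_h9 a b c d h).1 0 1 = b ∧
    (sl2Of_h9 a b c d h).1 1 0 = c ∧ (sl2Of_h9 a b c d h).1 1 1 = d := by
  refine ⟨?_, ?_, ?_, ?_⟩ <;> simp [sl2Of_h9]

open Polynomial in
/-- a matrix fixed by the `q`-th power map has an eigenvalue in `F_q`. -/
theorem exists_eigen_h9 {F : Type*} [Field F] [Fintype F] (M : Matrix (Fin 2) (Fin 2) F)
    (hM : M ^ Fintype.card F = M) :
    ∃ a : F, (M - algebraMap F (Matrix (Fin 2) (Fin 2) F) a).det = 0 := by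
  classical
  have hq : 1 < Fintype.card F := Fintype.one_lt_card
  have hmonic : (X ^ Fintype.card F - X : F[X]).Monic :=
    Polynomial.monic_X_pow_sub (by rw [degree_X]; exact_mod_cast hq)
  have hroots := FiniteField.roots_X_pow_card_sub_X F
  have hprod := Polynomial.prod_multiset_X_sub_C_of_monic_of_roots_card_eq hmonic
    (by rw [hroots, FiniteField.X_pow_card_sub_X_natDegree_eq F hq]; rfl)
  rw [hroots] at hprod
  let φ : F[X] →* F := Matrix.detMonoidHom.comp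
    ((Polynomial.aeval M : F[X] →ₐ[F] Matrix (Fin 2) (Fin 2) F) : F[X] →* Matrix (Fin 2) (Fin 2) F)
  have h1 : φ ((Finset.univ.val.map (fun a : F => X - C a)).prod)
      = (Finset.univ.val.map (fun a : F => φ (X - C a))).prod := by
    rw [map_multiset_prod, Multiset.map_map]; rfl
  have h2 : φ (X ^ Fintype.card F - X) = 0 := by
    simp [φ, hM]
  rw [hprod, h2] at h1
  have := Multiset.prod_eq_zero_iff.mp h1.symm
  obtain ⟨a, -, ha⟩ := Multiset.mem_map.mp this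
  refine ⟨a, ?_⟩
  simpa [φ] using ha

theorem sl2_diagF_aux_h9 {F : Type*} [Field F] (X : SL(2, F)) (a : F)
    (ha : a * a - (X.1 0 0 + X.1 1 1) * a + 1 = 0) (hne : a * a ≠ 1) (hc : X.1 1 0 ≠ 0) :
    ∃ (P : SL(2, F)) (t : F) (ht : t ≠ 0), X = P * sl2D_h9 t ht * P⁻¹ := by
  have ha0 : a ≠ 0 := by
    rintro rfl
    simp at ha
  obtain ⟨b, hb⟩ : ∃ b, b = a⁻¹ := ⟨_, rfl⟩
  have hab : a * b = 1 := by rw [hb]; exact mul_inv_cancel₀ ha0
  have hamb : a - b ≠ 0 := by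
    intro h
    apply hne
    linear_combination a * h + hab
  obtain ⟨e, he⟩ : ∃ e, X.1 1 0 * (a - b) * e = 1 :=
    ⟨(X.1 1 0 * (a - b))⁻¹, mul_inv_cancel₀ (mul_ne_zero hc hamb)⟩
  obtain ⟨-, hdet⟩ := sl2_entries_h9 X
  have hPdet : (a - X.1 1 1) * e * X.1 1 0 - (b - X.1 1 1) * (X.1 1 0 * e) = 1 := by
    linear_combination he
  obtain ⟨P, hP⟩ : ∃ P : SL(2, F), P = sl2Of_h9 ((a - X.1 1 1) * e) (b - X.1 1 1) (X.1 1 0 * e)
    (X.1 1 0) hPdet := ⟨_, rfl⟩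
  have hPe := sl2Of_entries_h9 ((a - X.1 1 1) * e) (b - X.1 1 1) (X.1 1 0 * e) (X.1 1 0) hPdet
  rw [← hP] at hPe
  obtain ⟨p00, p01, p10, p11⟩ := hPe
  obtain ⟨d00, d01, d10, d11⟩ := sl2D_entries_h9 a ha0
  rw [← hb] at d11
  refine ⟨P, a, ha0, ?_⟩
  rw [eq_mul_inv_iff_mul_eq]
  obtain ⟨m00, m01, m10, m11⟩ := sl2_mul_entries_h9 X P
  obtain ⟨n00, n01, n10, n11⟩ := sl2_mul_entries_h9 P (sl2D_h9 a ha0)
  apply sl2_ext_h9
  · rw [m00, n00, p00, p10, p01, d00, d10]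
    linear_combination (-e) * ha - e * hdet
  · rw [m01, n01, p00, p01, p11, d01, d11]
    linear_combination (-(b * b)) * ha + ((a * b + 1) - (X.1 0 0 + X.1 1 1) * b) * hab - hdet
  · rw [m10, n10, p00, p10, p11, d00, d10]
    ring
  · rw [m11, n11, p01, p10, p11, d01, d11]
    ring

/-- diagonalisation of an element of `SL(2, F)` with an eigenvalue `a ≠ a⁻¹` in `F`. -/
theorem sl2_diagF_h9 {F : Type*} [Field F] (X : SL(2, F)) (a : F)
    (ha : a * a - (X.1 0 0 + X.1 1 1) * a + 1 = 0) (hne : a * a ≠ 1) :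
    ∃ (P : SL(2, F)) (t : F) (ht : t ≠ 0), X = P * sl2D_h9 t ht * P⁻¹ := by
  by_cases hc : X.1 1 0 = 0
  · by_cases hb : X.1 0 1 = 0
    · obtain ⟨-, hdet⟩ := sl2_entries_h9 X
      rw [hc] at hdet
      have h0 : X.1 0 0 ≠ 0 := by
        intro h; rw [h] at hdet; simp at hdet
      refine ⟨1, X.1 0 0, h0, ?_⟩
      rw [one_mul, inv_one, mul_one]
      obtain ⟨d00, d01, d10, d11⟩ := sl2D_entries_h9 (X.1 0 0) h0
      apply sl2_ext_h9
      · rw [d00]
      · rw [d01, hb]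
      · rw [d10, hc]
      · rw [d11]; exact eq_inv_of_mul_eq_one_right (by linear_combination hdet)
    · obtain ⟨j00, j01, j10, j11⟩ := sl2J_entries_h9 F
      obtain ⟨k00, k01, k10, k11⟩ := sl2_inv_entries_h9 (sl2J_h9 F)
      obtain ⟨m00, m01, m10, m11⟩ := sl2_mul_entries_h9 (sl2J_h9 F * X) (sl2J_h9 F)⁻¹
      obtain ⟨n00, n01, n10, n11⟩ := sl2_mul_entries_h9 (sl2J_h9 F) X
      have h10 : (sl2J_h9 F * X * (sl2J_h9 F)⁻¹).1 1 0 = -X.1 0 1 := by
        simp only [m10, n10, n11, k00, k10, j10, j11]; ring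
      have h00 : (sl2J_h9 F * X * (sl2J_h9 F)⁻¹).1 0 0 = X.1 1 1 := by
        simp only [m00, n00, n01, k00, k10, j00, j01, j10, j11]; ring
      have h11 : (sl2J_h9 F * X * (sl2J_h9 F)⁻¹).1 1 1 = X.1 0 0 := by
        simp only [m11, n10, n11, k01, k11, j00, j01, j10, j11]; ring
      obtain ⟨P, t, ht, hP⟩ := sl2_diagF_aux_h9 (sl2J_h9 F * X * (sl2J_h9 F)⁻¹) a
        (by rw [h00, h11]; linear_combination ha) hne (by rw [h10]; exact neg_ne_zero.mpr hb)
      refine ⟨(sl2J_h9 F)⁻¹ * P, t, ht, ?_⟩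
      calc X = (sl2J_h9 F)⁻¹ * (sl2J_h9 F * X * (sl2J_h9 F)⁻¹) * sl2J_h9 F := by group
        _ = (sl2J_h9 F)⁻¹ * P * sl2D_h9 t ht * ((sl2J_h9 F)⁻¹ * P)⁻¹ := by rw [hP]; group
  · exact sl2_diagF_aux_h9 X a ha hne hc

/-- a nontrivial element of order dividing `q - 1` is conjugate to a diagonal element. -/
theorem split_conj_h9 {F : Type*} [Field F] [Fintype F] [CharP F 2]
    (x : Matrix.ProjectiveSpecialLinearGroup (Fin 2) F) (hx1 : x ≠ 1)
    (hxo : orderOf x ∣ Fintype.card F - 1) :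
    ∃ (α : Matrix.ProjectiveSpecialLinearGroup (Fin 2) F ≃*
        Matrix.ProjectiveSpecialLinearGroup (Fin 2) F) (t : F) (ht : t ≠ 0), t ≠ 1 ∧
      α x = QuotientGroup.mk (sl2D_h9 t ht) := by
  have heven : Fintype.card F % 2 = 0 :=
    FiniteField.even_card_iff_char_two.mp (ringChar.eq F 2)
  have hq : 1 < Fintype.card F := Fintype.one_lt_card
  obtain ⟨X, rfl⟩ : ∃ X : SL(2, F),
      (QuotientGroup.mk X : Matrix.ProjectiveSpecialLinearGroup (Fin 2) F) = x :=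
    QuotientGroup.mk_surjective x
  have hpow : (QuotientGroup.mk X : Matrix.ProjectiveSpecialLinearGroup (Fin 2) F)
      ^ (Fintype.card F - 1) = 1 := orderOf_dvd_iff_pow_eq_one.mp hxo
  have hXpow : X ^ (Fintype.card F - 1) = 1 :=
    psl2_mk_inj_char2_h9 (X := X ^ (Fintype.card F - 1)) (Y := 1) hpow
  have hXq : X.1 ^ Fintype.card F = X.1 := by
    have : X ^ Fintype.card F = X := by
      calc X ^ Fintype.card F = X ^ ((Fintype.card F - 1) + 1) := by congr 1; omega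
        _ = X := by rw [pow_succ, hXpow, one_mul]
    rw [← Matrix.SpecialLinearGroup.coe_pow, this]
  obtain ⟨a, ha⟩ := exists_eigen_h9 X.1 hXq
  rw [Matrix.det_fin_two] at ha
  simp [Matrix.sub_apply, Matrix.algebraMap_matrix_apply] at ha
  obtain ⟨-, hdet⟩ := sl2_entries_h9 X
  have ha' : a * a - (X.1 0 0 + X.1 1 1) * a + 1 = 0 := by linear_combination ha - hdet
  have hne : a * a ≠ 1 := by
    intro h
    have ha1 := char2_sq_eq_one_h9 a h
    rw [ha1] at ha'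
    have htr : X.1 0 0 + X.1 1 1 = 0 := by
      have h2F : (2 : F) = 0 := CharTwo.two_eq_zero
      linear_combination -ha' + h2F
    have hsq := (psl2_mk_sq_char2_h9 X).mpr htr
    have h2 : orderOf (QuotientGroup.mk X : Matrix.ProjectiveSpecialLinearGroup (Fin 2) F) ∣ 2 :=
      orderOf_dvd_of_pow_eq_one (by rw [pow_two]; exact hsq)
    rcases (Nat.dvd_prime Nat.prime_two).mp h2 with h1 | h1
    · exact hx1 (orderOf_eq_one_iff.mp h1)
    · rw [h1] at hxo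
      omega
  obtain ⟨P, t, ht, hX⟩ := sl2_diagF_h9 X a ha' hne
  refine ⟨MulAut.conj (QuotientGroup.mk P : Matrix.ProjectiveSpecialLinearGroup (Fin 2) F)⁻¹,
    t, ht, ?_, ?_⟩
  · rintro rfl
    apply hx1
    have hD1 : sl2D_h9 (1 : F) ht = 1 := by
      obtain ⟨d00, d01, d10, d11⟩ := sl2D_entries_h9 (1 : F) ht
      obtain ⟨o00, o01, o10, o11⟩ := sl2_one_entries_h9 (F := F)
      apply sl2_ext_h9
      · rw [d00, o00]
      · rw [d01, o01]
      · rw [d10, o10]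
      · rw [d11, o11, inv_one]
    rw [hX, hD1, mul_one, mul_inv_cancel]
    rfl
  · show (QuotientGroup.mk (P⁻¹ * X * P⁻¹⁻¹) : Matrix.ProjectiveSpecialLinearGroup (Fin 2) F)
      = QuotientGroup.mk (sl2D_h9 t ht)
    congr 1
    rw [hX]; group

section count

variable {F : Type*} [Field F] [Fintype F]

theorem card_sl2_upper_h9 :
    Nat.card {Y : SL(2, F) // Y.1 1 0 = 0} = Fintype.card F * (Fintype.card F - 1) := by
  classical
  let f : {Y : SL(2, F) // Y.1 1 0 = 0} → F × Fˣ := fun Y =>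
    (Y.1.1 0 1, Units.mk0 (Y.1.1 0 0) (by
      obtain ⟨-, hdet⟩ := sl2_entries_h9 Y.1
      intro h
      rw [h, Y.2] at hdet
      simp at hdet))
  have hf : Function.Bijective f := by
    constructor
    · rintro ⟨Y, hY⟩ ⟨Y', hY'⟩ h
      simp only [f, Prod.mk.injEq, Units.ext_iff, Units.val_mk0] at h
      obtain ⟨h01, h00⟩ := h
      apply Subtype.ext
      obtain ⟨-, hdet⟩ := sl2_entries_h9 Y
      obtain ⟨-, hdet'⟩ := sl2_entries_h9 Y'
      rw [hY] at hdet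
      rw [hY'] at hdet'
      have h0 : Y.1 0 0 ≠ 0 := by intro h; rw [h] at hdet; simp at hdet
      apply sl2_ext_h9
      · exact h00
      · exact h01
      · rw [hY, hY']
      · apply mul_left_cancel₀ h0
        linear_combination hdet - hdet' - Y'.1 1 1 * h00
    · rintro ⟨b, u⟩
      have hd : u.1 * (u⁻¹ : Fˣ).1 - b * 0 = 1 := by simp
      exact ⟨⟨sl2Of_h9 u.1 b 0 (u⁻¹ : Fˣ).1 hd, (sl2Of_entries_h9 _ _ _ _ hd).2.2.1⟩,
        Prod.ext (sl2Of_entries_h9 _ _ _ _ hd).2.1 (Units.ext (sl2Of_entries_h9 _ _ _ _ hd).1)⟩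
  rw [Nat.card_congr (Equiv.ofBijective f hf), Nat.card_prod, Nat.card_units,
    Nat.card_eq_fintype_card]

theorem card_sl2_graph_h9 (φ : F → F → F) :
    Nat.card {Y : SL(2, F) // Y.1 1 0 ≠ 0 ∧ Y.1 1 1 = φ (Y.1 0 0) (Y.1 1 0)}
      = Fintype.card F * (Fintype.card F - 1) := by
  classical
  let f : {Y : SL(2, F) // Y.1 1 0 ≠ 0 ∧ Y.1 1 1 = φ (Y.1 0 0) (Y.1 1 0)} → F × Fˣ := fun Y =>
    (Y.1.1 0 0, Units.mk0 (Y.1.1 1 0) Y.2.1)
  have hf : Function.Bijective f := by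
    constructor
    · rintro ⟨Y, hY, hYd⟩ ⟨Y', hY', hYd'⟩ h
      simp only [f, Prod.mk.injEq, Units.ext_iff, Units.val_mk0] at h
      obtain ⟨h00, h10⟩ := h
      apply Subtype.ext
      obtain ⟨-, hdet⟩ := sl2_entries_h9 Y
      obtain ⟨-, hdet'⟩ := sl2_entries_h9 Y'
      have h11 : Y.1 1 1 = Y'.1 1 1 := by rw [hYd, hYd', h00, h10]
      apply sl2_ext_h9
      · exact h00
      · apply mul_right_cancel₀ hY
        linear_combination -hdet + hdet' + Y.1 1 1 * h00 + Y'.1 0 0 * h11 - Y'.1 0 1 * h10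
      · exact h10
      · exact h11
    · rintro ⟨a, u⟩
      have hd : a * φ a u.1 - (a * φ a u.1 - 1) * (u⁻¹ : Fˣ).1 * u.1 = 1 := by
        have : (u⁻¹ : Fˣ).1 * u.1 = 1 := Units.inv_mul u
        linear_combination (-(a * φ a u.1 - 1)) * this
      obtain ⟨s00, s01, s10, s11⟩ := sl2Of_entries_h9 a ((a * φ a u.1 - 1) * (u⁻¹ : Fˣ).1) u.1
        (φ a u.1) hd
      refine ⟨⟨sl2Of_h9 a ((a * φ a u.1 - 1) * (u⁻¹ : Fˣ).1) u.1 (φ a u.1) hd, ?_, ?_⟩, ?_⟩
      · rw [s10]; exact u.ne_zero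
      · rw [s11, s00, s10]
      · exact Prod.ext s00 (Units.ext s10)
  rw [Nat.card_congr (Equiv.ofBijective f hf), Nat.card_prod, Nat.card_units,
    Nat.card_eq_fintype_card]

theorem card_sl2_lowdiag_h9 :
    Nat.card {Y : SL(2, F) // Y.1 1 0 ≠ 0 ∧ Y.1 0 1 = 0}
      = (Fintype.card F - 1) * (Fintype.card F - 1) := by
  classical
  let f : {Y : SL(2, F) // Y.1 1 0 ≠ 0 ∧ Y.1 0 1 = 0} → Fˣ × Fˣ := fun Y =>
    (Units.mk0 (Y.1.1 0 0) (by
      obtain ⟨-, hdet⟩ := sl2_entries_h9 Y.1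
      intro h
      rw [h, Y.2.2] at hdet
      simp at hdet), Units.mk0 (Y.1.1 1 0) Y.2.1)
  have hf : Function.Bijective f := by
    constructor
    · rintro ⟨Y, hY, hYb⟩ ⟨Y', hY', hYb'⟩ h
      simp only [f, Prod.mk.injEq, Units.ext_iff, Units.val_mk0] at h
      obtain ⟨h00, h10⟩ := h
      apply Subtype.ext
      obtain ⟨-, hdet⟩ := sl2_entries_h9 Y
      obtain ⟨-, hdet'⟩ := sl2_entries_h9 Y'
      rw [hYb] at hdet
      rw [hYb'] at hdet'
      have h0 : Y.1 0 0 ≠ 0 := by intro h; rw [h] at hdet; simp at hdet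
      apply sl2_ext_h9
      · exact h00
      · rw [hYb, hYb']
      · exact h10
      · apply mul_left_cancel₀ h0
        linear_combination hdet - hdet' - Y'.1 1 1 * h00
    · rintro ⟨u, v⟩
      have hd : u.1 * (u⁻¹ : Fˣ).1 - 0 * v.1 = 1 := by simp
      obtain ⟨s00, s01, s10, s11⟩ := sl2Of_entries_h9 u.1 0 v.1 (u⁻¹ : Fˣ).1 hd
      refine ⟨⟨sl2Of_h9 u.1 0 v.1 (u⁻¹ : Fˣ).1 hd, ?_, s01⟩, ?_⟩
      · rw [s10]; exact v.ne_zero
      · exact Prod.ext (Units.ext s00) (Units.ext s10)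
  rw [Nat.card_congr (Equiv.ofBijective f hf), Nat.card_prod, Nat.card_units,
    Nat.card_eq_fintype_card]

theorem card_sl2_anti_h9 :
    Nat.card {Y : SL(2, F) // Y.1 0 0 = 0 ∧ Y.1 1 1 = 0} = Fintype.card F - 1 := by
  classical
  let f : {Y : SL(2, F) // Y.1 0 0 = 0 ∧ Y.1 1 1 = 0} → Fˣ := fun Y =>
    Units.mk0 (Y.1.1 1 0) (by
      obtain ⟨-, hdet⟩ := sl2_entries_h9 Y.1
      intro h
      rw [h, Y.2.1] at hdet
      simp at hdet)
  have hf : Function.Bijective f := by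
    constructor
    · rintro ⟨Y, hYa, hYd⟩ ⟨Y', hYa', hYd'⟩ h
      simp only [f, Units.ext_iff, Units.val_mk0] at h
      apply Subtype.ext
      obtain ⟨-, hdet⟩ := sl2_entries_h9 Y
      obtain ⟨-, hdet'⟩ := sl2_entries_h9 Y'
      rw [hYa, hYd] at hdet
      rw [hYa', hYd'] at hdet'
      have h0 : Y.1 1 0 ≠ 0 := by intro h; rw [h] at hdet; simp at hdet
      apply sl2_ext_h9
      · rw [hYa, hYa']
      · apply mul_right_cancel₀ h0
        linear_combination -hdet + hdet' - Y'.1 0 1 * h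
      · exact h
      · rw [hYd, hYd']
    · intro v
      have hd : (0 : F) * 0 - (-(v⁻¹ : Fˣ).1) * v.1 = 1 := by
        have : (v⁻¹ : Fˣ).1 * v.1 = 1 := Units.inv_mul v
        linear_combination this
      obtain ⟨s00, s01, s10, s11⟩ := sl2Of_entries_h9 (0 : F) (-(v⁻¹ : Fˣ).1) v.1 0 hd
      exact ⟨⟨sl2Of_h9 (0 : F) (-(v⁻¹ : Fˣ).1) v.1 0 hd, s00, s11⟩, Units.ext s10⟩
  rw [Nat.card_congr (Equiv.ofBijective f hf), Nat.card_units, Nat.card_eq_fintype_card]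

variable [CharP F 2]

theorem card_psl2_char2_h9 (Q : Matrix.ProjectiveSpecialLinearGroup (Fin 2) F → Prop)
    (P : SL(2, F) → Prop) (h : ∀ Y : SL(2, F), Q (QuotientGroup.mk Y) ↔ P Y) :
    Nat.card {y : Matrix.ProjectiveSpecialLinearGroup (Fin 2) F // Q y}
      = Nat.card {Y : SL(2, F) // P Y} := by
  let e : SL(2, F) ≃ Matrix.ProjectiveSpecialLinearGroup (Fin 2) F :=
    Equiv.ofBijective (fun Y => (QuotientGroup.mk Y : Matrix.ProjectiveSpecialLinearGroup (Fin 2) F))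
      ⟨fun X Y h => psl2_mk_inj_char2_h9 h, QuotientGroup.mk_surjective⟩
  exact (Nat.card_congr (Equiv.subtypeEquiv e (fun Y => (h Y).symm))).symm

/-- the solubilizer of an involution of `PSL(2, 2^p)` has `3 q (q - 1)` elements. -/
theorem invol_sol_card_h9 (h4 : 4 ≤ Fintype.card F)
    (hsub : ∀ q₁ r : ℕ, 4 ≤ q₁ → Fintype.card F = q₁ ^ r → r = 1)
    (x : Matrix.ProjectiveSpecialLinearGroup (Fin 2) F) (ho : orderOf x = 2) :
    Nat.card {y : Matrix.ProjectiveSpecialLinearGroup (Fin 2) F //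
      Subgroup.closure ({x, y} : Set (Matrix.ProjectiveSpecialLinearGroup (Fin 2) F)) ≠ ⊤}
      = 3 * Fintype.card F * (Fintype.card F - 1) := by
  haveI : Fact (Nat.Prime 2) := ⟨Nat.prime_two⟩
  have hx1 : x ≠ 1 := by
    rintro rfl
    rw [orderOf_one] at ho
    omega
  have hx2 : x ^ 2 = 1 := by
    have := pow_orderOf_eq_one x
    rwa [ho] at this
  obtain ⟨α, hα, -⟩ := psl2_normalize_h9 (p := 2) ⊤ x (Subgroup.mem_top _) hx1 hx2
  rw [← card_nontop_map_h9 α x, hα, card_psl2_char2_h9 _ _ (invol_sol_iff_h9 h4 hsub)]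
  have hiff : ∀ Y : SL(2, F),
      (Y.1 1 0 = 0 ∨ Y.1 0 0 + Y.1 1 1 = 0 ∨ Y.1 1 0 = Y.1 0 0 + Y.1 1 1) ↔
      (Y.1 1 0 = 0 ∨ ((Y.1 1 0 ≠ 0 ∧ Y.1 1 1 = -(Y.1 0 0)) ∨
        (Y.1 1 0 ≠ 0 ∧ Y.1 1 1 = Y.1 1 0 - Y.1 0 0))) := by
    intro Y
    by_cases hc : Y.1 1 0 = 0
    · simp [hc]
    · constructor
      · rintro (h | h | h)
        · exact absurd h hc
        · right; left; exact ⟨hc, by linear_combination h⟩
        · right; right; exact ⟨hc, by linear_combination -h⟩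
      · rintro (h | ⟨-, h⟩ | ⟨-, h⟩)
        · left; exact h
        · right; left; linear_combination h
        · right; right; linear_combination -h
  have c1 : Nat.card {Y : SL(2, F) // Y.1 1 0 ≠ 0 ∧ Y.1 1 1 = -(Y.1 0 0)}
      = Fintype.card F * (Fintype.card F - 1) := card_sl2_graph_h9 (fun a _ => -a)
  have c2 : Nat.card {Y : SL(2, F) // Y.1 1 0 ≠ 0 ∧ Y.1 1 1 = Y.1 1 0 - Y.1 0 0}
      = Fintype.card F * (Fintype.card F - 1) := card_sl2_graph_h9 (fun a c => c - a)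
  rw [Nat.card_congr (Equiv.subtypeEquivRight hiff),
    card_or_disjoint_h9 _ _ (by
      rintro Y hc (⟨h, -⟩ | ⟨h, -⟩)
      · exact h hc
      · exact h hc),
    card_or_disjoint_h9 _ _ (by
      rintro Y ⟨hc, h1⟩ ⟨-, h2⟩
      apply hc
      linear_combination h1 - h2),
    card_sl2_upper_h9, c1, c2]
  ring

/-- the solubilizer of a split semisimple element of `PSL(2, 2^p)` has `2 q (q - 1)`
elements. -/
theorem split_sol_card_h9 (h4 : 4 ≤ Fintype.card F)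
    (hsub : ∀ q₁ r : ℕ, 4 ≤ q₁ → Fintype.card F = q₁ ^ r → r = 1)
    (x : Matrix.ProjectiveSpecialLinearGroup (Fin 2) F) (hx1 : x ≠ 1)
    (ho : orderOf x ∣ Fintype.card F - 1) :
    Nat.card {y : Matrix.ProjectiveSpecialLinearGroup (Fin 2) F //
      Subgroup.closure ({x, y} : Set (Matrix.ProjectiveSpecialLinearGroup (Fin 2) F)) ≠ ⊤}
      = 2 * Fintype.card F * (Fintype.card F - 1) := by
  obtain ⟨α, t, ht, ht1, hα⟩ := split_conj_h9 x hx1 ho
  rw [← card_nontop_map_h9 α x, hα, card_psl2_char2_h9 _ _ (diag_sol_iff_h9 h4 hsub t ht ht1)]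
  have hiff : ∀ Y : SL(2, F),
      (Y.1 1 0 = 0 ∨ Y.1 0 1 = 0 ∨ (Y.1 0 0 = 0 ∧ Y.1 1 1 = 0)) ↔
      (Y.1 1 0 = 0 ∨ ((Y.1 1 0 ≠ 0 ∧ Y.1 0 1 = 0) ∨ (Y.1 0 0 = 0 ∧ Y.1 1 1 = 0))) := by
    intro Y
    by_cases hc : Y.1 1 0 = 0
    · simp [hc]
    · simp [hc]
  rw [Nat.card_congr (Equiv.subtypeEquivRight hiff),
    card_or_disjoint_h9 _ _ (by
      rintro Y hc (⟨h, -⟩ | ⟨ha, hd⟩)
      · exact h hc
      · obtain ⟨-, hdet⟩ := sl2_entries_h9 Y
        rw [ha, hd, hc] at hdet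
        simp at hdet),
    card_or_disjoint_h9 _ _ (by
      rintro Y ⟨-, hb⟩ ⟨ha, hd⟩
      obtain ⟨-, hdet⟩ := sl2_entries_h9 Y
      rw [ha, hd, hb] at hdet
      simp at hdet),
    card_sl2_upper_h9, card_sl2_lowdiag_h9, card_sl2_anti_h9]
  obtain ⟨m, hm⟩ : ∃ m, Fintype.card F = m + 1 :=
    ⟨Fintype.card F - 1, by have := Fintype.card_pos (α := F); omega⟩
  rw [hm]
  simp only [Nat.add_sub_cancel]
  ring

end count

end Cfsg.Agent.Helper9
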