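import Mathlib
import Cfsg.Agent.Helper9.Sb3

/-!
# Solubilizers in `PSL(2, 3^p)`: glue lemmas (helper9)
-/

set_option autoImplicit false
open scoped MatrixGroups

namespace Cfsg.Agent.Helper9

set_option maxRecDepth 1000000 in
set_option maxHeartbeats 4000000 in
theorem a4_factA_h9 : ∀ g h : alternatingGroup (Fin 4), g ^ 3 = 1 → g ≠ 1 →
    (h = 1 ∨ h = g ∨ h = g⁻¹) ∨ (h ≠ 1 ∧ h * h = 1 ∧ (g * h) ^ 3 = 1) ∨
    (h ^ 3 = 1 ∧ ((g * h ≠ 1 ∧ (g * h) * (g * h) = 1) ∨
      (g⁻¹ * h ≠ 1 ∧ (g⁻¹ * h) * (g⁻¹ * h) = 1))) := by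
  decide +kernel

set_option maxRecDepth 1000000 in
set_option maxHeartbeats 4000000 in
theorem a4_factB_h9 : ∀ g h : alternatingGroup (Fin 4), g ≠ 1 → g * g = 1 →
    h * h = 1 ∨ (h ^ 3 = 1 ∧ (g * h) ^ 3 = 1) := by
  decide +kernel

set_option maxRecDepth 1000000 in
set_option maxHeartbeats 4000000 in
theorem a4_factC_h9 : ∀ g : alternatingGroup (Fin 4), g * g = 1 ∨ g ^ 3 = 1 := by
  decide +kernel

section general

variable {G : Type*} [Group G]

/-- an involution `t` and an element `g` with `g³ = (t g)³ = 1` do not generate a nonsolvable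
simple group. -/
theorem closure_pair_ne_top_of_a4_h9 [Finite G] [IsSimpleGroup G] (hns : ¬ Group.IsSolvable G)
    (t g : G) (ht1 : t ≠ 1) (ht : t * t = 1) (hg : g ^ 3 = 1) (htg : (t * g) ^ 3 = 1) :
    Subgroup.closure ({t, g} : Set G) ≠ ⊤ := by
  have hti : t⁻¹ = t := inv_eq_of_mul_eq_one_left ht
  have r4 : g * g = g⁻¹ := by
    apply eq_inv_of_mul_eq_one_left
    rw [← hg, pow_succ, pow_two]
  have r2 : g⁻¹ * g⁻¹ = g := by
    rw [← mul_inv_rev, r4, inv_inv]
  have r1 : t * g * t = g⁻¹ * t * g⁻¹ := by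
    have h : (t * g * t) * (g * t * g) = 1 := by
      have e : (t * g * t) * (g * t * g) = (t * g) ^ 3 := by
        rw [pow_succ, pow_two]; group
      rw [e, htg]
    have := eq_inv_of_mul_eq_one_left h
    rw [this, mul_inv_rev, mul_inv_rev, hti, mul_assoc]
  have r3 : t * g⁻¹ * t = g * t * g := by
    have h : (t * g⁻¹ * t) * (t * g * t) = 1 := by
      have : (t * g⁻¹ * t) * (t * g * t) = t * g⁻¹ * (t * t) * g * t := by group
      rw [this, ht, mul_one, inv_mul_cancel_right, ht]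
    have h' := eq_inv_of_mul_eq_one_left h
    rw [h', r1, mul_inv_rev, mul_inv_rev, inv_inv, hti, mul_assoc]
  have c1 : t * (g * t * g⁻¹) = (g * t * g⁻¹) * t := by
    calc t * (g * t * g⁻¹) = (t * g * t) * g⁻¹ := by group
      _ = g⁻¹ * t * g⁻¹ * g⁻¹ := by rw [r1]
      _ = g⁻¹ * t * (g⁻¹ * g⁻¹) := by group
      _ = g⁻¹ * t * g := by rw [r2]
      _ = (g * g) * t * g := by rw [r4]
      _ = g * (g * t * g) := by group
      _ = g * (t * g⁻¹ * t) := by rw [r3]
      _ = (g * t * g⁻¹) * t := by group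
  have c2 : g * (g * t * g⁻¹) * g⁻¹ = t * (g * t * g⁻¹) := by
    calc g * (g * t * g⁻¹) * g⁻¹ = (g * g) * t * (g⁻¹ * g⁻¹) := by group
      _ = g⁻¹ * t * g := by rw [r4, r2]
      _ = g⁻¹ * t * (g⁻¹ * g⁻¹) := by rw [r2]
      _ = (g⁻¹ * t * g⁻¹) * g⁻¹ := by group
      _ = (t * g * t) * g⁻¹ := by rw [r1]
      _ = t * (g * t * g⁻¹) := by group
  intro htop
  have htV : t ∈ Subgroup.closure ({t, g * t * g⁻¹} : Set G) :=
    Subgroup.subset_closure (Set.mem_insert _ _)
  have ht'V : g * t * g⁻¹ ∈ Subgroup.closure ({t, g * t * g⁻¹} : Set G) :=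
    Subgroup.subset_closure (Set.mem_insert_of_mem _ (Set.mem_singleton _))
  have hgN : g ∈ Subgroup.normalizer
      (Subgroup.closure ({t, g * t * g⁻¹} : Set G) : Set G) := by
    apply mem_normalizer_of_conj_mem_h9
    intro v hv
    refine Subgroup.closure_induction
      (p := fun v _ => g * v * g⁻¹ ∈ Subgroup.closure ({t, g * t * g⁻¹} : Set G))
      ?_ ?_ ?_ ?_ hv
    · intro w hw
      rcases hw with rfl | rfl
      · exact ht'V
      · rw [c2]; exact Subgroup.mul_mem _ htV ht'V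
    · simp
    · intro a b _ _ ha hb
      have : g * (a * b) * g⁻¹ = (g * a * g⁻¹) * (g * b * g⁻¹) := by group
      rw [this]; exact Subgroup.mul_mem _ ha hb
    · intro a _ ha
      have : g * a⁻¹ * g⁻¹ = (g * a * g⁻¹)⁻¹ := by group
      rw [this]; exact Subgroup.inv_mem _ ha
  have hle : Subgroup.closure ({t, g} : Set G) ≤ Subgroup.normalizer
      (Subgroup.closure ({t, g * t * g⁻¹} : Set G) : Set G) := by
    rw [Subgroup.closure_le]
    rintro w (rfl | rfl)
    · exact Subgroup.le_normalizer htV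
    · exact hgN
  rw [htop, top_le_iff] at hle
  have hnorm : (Subgroup.closure ({t, g * t * g⁻¹} : Set G)).Normal :=
    Subgroup.normalizer_eq_top_iff.mp hle
  rcases hnorm.eq_bot_or_eq_top with h | h
  · apply ht1
    have : t ∈ (⊥ : Subgroup G) := by rw [← h]; exact htV
    exact Subgroup.mem_bot.mp this
  · exact closure_pair_ne_top_of_norm_h9 hns t (g * t * g⁻¹) t ht1 (Or.inl (by group))
      (Or.inl (by rw [← c1]; group)) h

theorem dih_invol2_h9 {k : ℕ} (e : G ≃* DihedralGroup k) (x y : G) :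
    y * y = 1 ∨ x * y * (x * y) = 1 ∨ x * y = y * x := by
  rcases hi : e x with i | i <;> rcases hj : e y with j | j
  · right; right
    apply e.injective
    rw [map_mul, map_mul, hi, hj, DihedralGroup.r_mul_r, DihedralGroup.r_mul_r, add_comm]
  · left
    apply e.injective
    rw [map_mul, hj, map_one]
    exact DihedralGroup.sr_mul_self _
  · right; left
    apply e.injective
    rw [map_mul, map_mul, hi, hj, DihedralGroup.sr_mul_r, map_one]
    exact DihedralGroup.sr_mul_self _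
  · left
    apply e.injective
    rw [map_mul, hj, map_one]
    exact DihedralGroup.sr_mul_self _

end general

section odd

variable {F : Type*} [Field F]

theorem sl2_neg_ne_self_h9 (h2 : (2 : F) ≠ 0) (X : SL(2, F)) : -X ≠ X := by
  intro h
  obtain ⟨n00, n01, n10, n11⟩ := sl2_neg_entries_h9 X
  obtain ⟨-, hdet⟩ := sl2_entries_h9 X
  have e00 : X.1 0 0 = 0 := by
    have : (-X).1 0 0 = X.1 0 0 := by rw [h]
    rw [n00] at this
    have h' : 2 * X.1 0 0 = 0 := by linear_combination -this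
    exact (mul_eq_zero.mp h').resolve_left h2
  have e01 : X.1 0 1 = 0 := by
    have : (-X).1 0 1 = X.1 0 1 := by rw [h]
    rw [n01] at this
    have h' : 2 * X.1 0 1 = 0 := by linear_combination -this
    exact (mul_eq_zero.mp h').resolve_left h2
  rw [e00, e01] at hdet
  simp at hdet

theorem sl2_sq_one_h9 (h2 : (2 : F) ≠ 0) (Z : SL(2, F)) (h : Z * Z = 1) : Z = 1 ∨ Z = -1 := by
  obtain ⟨m00, m01, m10, m11⟩ := sl2_mul_entries_h9 Z Z
  obtain ⟨o00, o01, o10, o11⟩ := sl2_one_entries_h9 (F := F)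
  obtain ⟨-, hdet⟩ := sl2_entries_h9 Z
  rw [h, o00] at m00
  rw [h, o01] at m01
  rw [h, o10] at m10
  rw [h, o11] at m11
  have htr : Z.1 0 0 + Z.1 1 1 ≠ 0 := by
    intro h0
    apply h2
    have hd : Z.1 1 1 = -Z.1 0 0 := by linear_combination h0
    rw [hd] at hdet
    linear_combination m00 - hdet
  have hb : Z.1 0 1 = 0 := by
    have : Z.1 0 1 * (Z.1 0 0 + Z.1 1 1) = 0 := by linear_combination -m01
    exact (mul_eq_zero.mp this).resolve_right htr
  have hc : Z.1 1 0 = 0 := by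
    have : Z.1 1 0 * (Z.1 0 0 + Z.1 1 1) = 0 := by linear_combination -m10
    exact (mul_eq_zero.mp this).resolve_right htr
  rw [hb, hc] at m00 hdet
  have ha : (Z.1 0 0 - 1) * (Z.1 0 0 + 1) = 0 := by linear_combination -m00
  obtain ⟨n00, n01, n10, n11⟩ := sl2_neg_entries_h9 (1 : SL(2, F))
  rcases mul_eq_zero.mp ha with ha | ha
  · left
    have ha' : Z.1 0 0 = 1 := by linear_combination ha
    rw [ha'] at hdet
    apply sl2_ext_h9
    · rw [o00, ha']
    · rw [o01, hb]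
    · rw [o10, hc]
    · rw [o11]; linear_combination hdet
  · right
    have ha' : Z.1 0 0 = -1 := by linear_combination ha
    rw [ha'] at hdet
    apply sl2_ext_h9
    · rw [n00, o00, ha']
    · rw [n01, o01, hb]; simp
    · rw [n10, o10, hc]; simp
    · rw [n11, o11]; linear_combination -hdet

theorem psl2_sq_one_h9 (h2 : (2 : F) ≠ 0) (Z : SL(2, F))
    (h : (QuotientGroup.mk Z : Matrix.ProjectiveSpecialLinearGroup (Fin 2) F)
      * QuotientGroup.mk Z = 1) : Z.1 0 0 + Z.1 1 1 = 0 ∨ Z = 1 ∨ Z = -1 := by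
  have h' : (QuotientGroup.mk (Z * Z) : Matrix.ProjectiveSpecialLinearGroup (Fin 2) F)
      = QuotientGroup.mk 1 := h
  rcases (psl2_mk_eq_iff_h9 _ _).mp h' with h1 | h1
  · right; exact sl2_sq_one_h9 h2 Z h1
  · left; exact (sl2_sq_eq_neg_one_iff_h9 Z).mp h1

theorem psl2_sq_of_trace_h9 (Z : SL(2, F)) (h : Z.1 0 0 + Z.1 1 1 = 0) :
    (QuotientGroup.mk Z : Matrix.ProjectiveSpecialLinearGroup (Fin 2) F)
      * QuotientGroup.mk Z = 1 := by
  have := (sl2_sq_eq_neg_one_iff_h9 Z).mpr h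
  show (QuotientGroup.mk (Z * Z) : Matrix.ProjectiveSpecialLinearGroup (Fin 2) F)
      = QuotientGroup.mk 1
  rw [this]
  exact psl2_mk_neg_h9 1

theorem psl2_cube_iff_h9 [CharP F 3] (Z : SL(2, F)) :
    (QuotientGroup.mk Z : Matrix.ProjectiveSpecialLinearGroup (Fin 2) F) ^ 3 = 1
      ↔ (Z.1 0 0 + Z.1 1 1) ^ 2 = 4 := by
  haveI : Fact (Nat.Prime 3) := ⟨Nat.prime_three⟩
  constructor
  · intro h
    rw [← QuotientGroup.mk_pow] at h
    have h' : (QuotientGroup.mk (Z ^ 3) : Matrix.ProjectiveSpecialLinearGroup (Fin 2) F)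
        = QuotientGroup.mk 1 := h
    have := sl2_not_good_of_ppow_h9 (p := 3) Z 1
      (by rw [pow_one]; exact (psl2_mk_eq_iff_h9 _ _).mp h')
    unfold sl2Good_h9 at this
    exact not_not.mp this
  · intro h
    rw [← QuotientGroup.mk_pow]
    rcases sl2_not_good_pow_h9 (p := 3) Z (by unfold sl2Good_h9; exact not_not.mpr h)
      with h1 | h1
    · rw [h1]; rfl
    · rw [h1]; exact psl2_mk_neg_h9 1

theorem sl2_anticomm_trace_h9 (h2 : (2 : F) ≠ 0) (U W : SL(2, F)) (h : U * W = -(W * U)) :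
    W.1 0 0 + W.1 1 1 = 0 := by
  have h1 : U * W * U⁻¹ = -W := by rw [h, neg_mul, mul_inv_cancel_right]
  have h3 := sl2_trace_conj_h9 U W
  rw [h1, (sl2_neg_entries_h9 W).1, (sl2_neg_entries_h9 W).2.2.2] at h3
  have : 2 * (W.1 0 0 + W.1 1 1) = 0 := by linear_combination -h3
  exact (mul_eq_zero.mp this).resolve_left h2

theorem psl2_comm_lift_h9 (h2 : (2 : F) ≠ 0) (U W : SL(2, F)) (hW : W.1 0 0 + W.1 1 1 ≠ 0)
    (h : (QuotientGroup.mk U : Matrix.ProjectiveSpecialLinearGroup (Fin 2) F) * QuotientGroup.mk W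
      = QuotientGroup.mk W * QuotientGroup.mk U) : U * W = W * U := by
  have h' : (QuotientGroup.mk (U * W) : Matrix.ProjectiveSpecialLinearGroup (Fin 2) F)
      = QuotientGroup.mk (W * U) := h
  rcases (psl2_mk_eq_iff_h9 _ _).mp h' with h1 | h1
  · exact h1
  · exact absurd (sl2_anticomm_trace_h9 h2 U W h1) hW

/-- counting in `PSL(2, F)` through `SL(2, F)` in odd characteristic. -/
theorem card_psl2_odd_h9 [Finite F] (h2 : (2 : F) ≠ 0)
    (Q : Matrix.ProjectiveSpecialLinearGroup (Fin 2) F → Prop)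
    (P : SL(2, F) → Prop) (h : ∀ Y : SL(2, F), Q (QuotientGroup.mk Y) ↔ P Y) :
    2 * Nat.card {y : Matrix.ProjectiveSpecialLinearGroup (Fin 2) F // Q y}
      = Nat.card {Y : SL(2, F) // P Y} := by
  classical
  have hP1 : ∀ y : {y : Matrix.ProjectiveSpecialLinearGroup (Fin 2) F // Q y},
      P (Quotient.out y.1 : SL(2, F)) := fun y =>
    (h _).mp (by rw [QuotientGroup.out_eq']; exact y.2)
  have hP2 : ∀ y : {y : Matrix.ProjectiveSpecialLinearGroup (Fin 2) F // Q y},
      P (-(Quotient.out y.1 : SL(2, F))) := fun y =>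
    (h _).mp (by rw [psl2_mk_neg_h9, QuotientGroup.out_eq']; exact y.2)
  let f : {y : Matrix.ProjectiveSpecialLinearGroup (Fin 2) F // Q y} × Bool →
      {Y : SL(2, F) // P Y} := fun yb =>
    match yb with
    | (y, true) => ⟨Quotient.out y.1, hP1 y⟩
    | (y, false) => ⟨-(Quotient.out y.1 : SL(2, F)), hP2 y⟩
  have hmk : ∀ yb, (QuotientGroup.mk (f yb).1 : Matrix.ProjectiveSpecialLinearGroup (Fin 2) F)
      = yb.1.1 := by
    rintro ⟨y, b⟩
    cases b
    · show (QuotientGroup.mk (-(Quotient.out y.1 : SL(2, F))) :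
        Matrix.ProjectiveSpecialLinearGroup (Fin 2) F) = y.1
      rw [psl2_mk_neg_h9, QuotientGroup.out_eq']
    · show (QuotientGroup.mk (Quotient.out y.1 : SL(2, F)) :
        Matrix.ProjectiveSpecialLinearGroup (Fin 2) F) = y.1
      rw [QuotientGroup.out_eq']
  have hf : Function.Bijective f := by
    constructor
    · rintro ⟨y, b⟩ ⟨y', b'⟩ hyy
      have h1 : y.1 = y'.1 := by
        have := hmk (y, b)
        rw [hyy, hmk (y', b')] at this
        exact this.symm
      have hy : y = y' := Subtype.ext h1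
      subst hy
      have hv : (f (y, b)).1 = (f (y, b')).1 := by rw [hyy]
      cases b <;> cases b'
      · rfl
      · exfalso
        exact sl2_neg_ne_self_h9 h2 _ hv
      · exfalso
        exact sl2_neg_ne_self_h9 h2 _ hv.symm
      · rfl
    · rintro ⟨Y, hY⟩
      rcases psl2_out_mk_h9 Y with h1 | h1
      · exact ⟨(⟨QuotientGroup.mk Y, (h Y).mpr hY⟩, true), Subtype.ext h1⟩
      · refine ⟨(⟨QuotientGroup.mk Y, (h Y).mpr hY⟩, false), Subtype.ext ?_⟩
        show -(Quotient.out (QuotientGroup.mk Y :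
          Matrix.ProjectiveSpecialLinearGroup (Fin 2) F) : SL(2, F)) = Y
        rw [h1, neg_neg]
  rw [← Nat.card_congr (Equiv.ofBijective f hf), Nat.card_prod,
    Nat.card_eq_fintype_card (α := Bool), Fintype.card_bool, mul_comm]

variable [Fintype F]

theorem mk_mem_borel_gen_h9 (Y : SL(2, F)) :
    (QuotientGroup.mk Y : Matrix.ProjectiveSpecialLinearGroup (Fin 2) F) ∈ borel_h9 F
      ↔ Y.1 1 0 = 0 := by
  rw [mem_borel_h9]
  rcases psl2_out_mk_h9 Y with h | h
  · rw [h]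
  · rw [h, (sl2_neg_entries_h9 Y).2.2.1, neg_eq_zero]

theorem borel_ne_top_gen_h9 : borel_h9 F ≠ ⊤ := by
  intro h
  have hm : (QuotientGroup.mk (sl2L_h9 (1 : F)) : Matrix.ProjectiveSpecialLinearGroup (Fin 2) F)
      ∈ borel_h9 F := by rw [h]; exact Subgroup.mem_top _
  rw [mk_mem_borel_gen_h9, (sl2L_entries_h9 (1 : F)).2.2.1] at hm
  exact one_ne_zero hm

theorem closure_pair_borel_ne_top_gen_h9 (x y : Matrix.ProjectiveSpecialLinearGroup (Fin 2) F)
    (hx : x ∈ borel_h9 F) (hy : y ∈ borel_h9 F) :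
    Subgroup.closure ({x, y} : Set (Matrix.ProjectiveSpecialLinearGroup (Fin 2) F)) ≠ ⊤ := by
  intro h
  apply borel_ne_top_gen_h9 (F := F)
  rw [eq_top_iff, ← h, Subgroup.closure_le]
  rintro w (rfl | rfl)
  · exact hx
  · exact hy

variable [CharP F 3]

/-- elements of order dividing `3` of the Borel subgroup are unipotent. -/
theorem borel_cube_h9 (g : Matrix.ProjectiveSpecialLinearGroup (Fin 2) F) (hg : g ∈ borel_h9 F)
    (hg3 : g ^ 3 = 1) : ∃ s : F, g = QuotientGroup.mk (sl2E_h9 s) := by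
  rw [mem_borel_h9] at hg
  have hmk : (QuotientGroup.mk (Quotient.out g : SL(2, F)) :
      Matrix.ProjectiveSpecialLinearGroup (Fin 2) F) = g := QuotientGroup.out_eq' g
  have htr := (psl2_cube_iff_h9 (Quotient.out g : SL(2, F))).mp (by rw [hmk]; exact hg3)
  obtain ⟨-, hdet⟩ := sl2_entries_h9 (Quotient.out g : SL(2, F))
  rw [hg] at hdet
  have h2 : ((Quotient.out g : SL(2, F)).1 0 0 + (Quotient.out g : SL(2, F)).1 1 1 - 2)
      * ((Quotient.out g : SL(2, F)).1 0 0 + (Quotient.out g : SL(2, F)).1 1 1 + 2) = 0 := by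
    linear_combination htr
  rcases mul_eq_zero.mp h2 with ht | ht
  · have h00 : (Quotient.out g : SL(2, F)).1 0 0 = 1 := by
      have : ((Quotient.out g : SL(2, F)).1 0 0 - 1) ^ 2 = 0 := by
        linear_combination ((Quotient.out g : SL(2, F)).1 0 0) * ht - hdet
      exact sub_eq_zero.mp ((pow_eq_zero_iff (by norm_num)).mp this)
    have h11 : (Quotient.out g : SL(2, F)).1 1 1 = 1 := by
      rw [h00] at ht; linear_combination ht
    refine ⟨(Quotient.out g : SL(2, F)).1 0 1, hmk.symm.trans ?_⟩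
    congr 1
    obtain ⟨e00, e01, e10, e11⟩ := sl2E_entries_h9 ((Quotient.out g : SL(2, F)).1 0 1)
    apply sl2_ext_h9
    · rw [e00, h00]
    · rw [e01]
    · rw [e10, hg]
    · rw [e11, h11]
  · have h00 : (Quotient.out g : SL(2, F)).1 0 0 = -1 := by
      have : ((Quotient.out g : SL(2, F)).1 0 0 + 1) ^ 2 = 0 := by
        linear_combination ((Quotient.out g : SL(2, F)).1 0 0) * ht - hdet
      linear_combination (pow_eq_zero_iff (by norm_num)).mp this
    have h11 : (Quotient.out g : SL(2, F)).1 1 1 = -1 := by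
      rw [h00] at ht; linear_combination ht
    refine ⟨-(Quotient.out g : SL(2, F)).1 0 1, hmk.symm.trans ?_⟩
    rw [← psl2_mk_neg_h9 (sl2E_h9 (-(Quotient.out g : SL(2, F)).1 0 1))]
    congr 1
    obtain ⟨e00, e01, e10, e11⟩ := sl2E_entries_h9 (-(Quotient.out g : SL(2, F)).1 0 1)
    obtain ⟨n00, n01, n10, n11⟩ := sl2_neg_entries_h9
      (sl2E_h9 (-(Quotient.out g : SL(2, F)).1 0 1))
    apply sl2_ext_h9
    · rw [n00, e00, h00]
    · rw [n01, e01, neg_neg]
    · rw [n10, e10, hg, neg_zero]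
    · rw [n11, e11, h11]

/-- elements of order dividing `3` of a subgroup of a Borel subgroup commute. -/
theorem borel_cube_comm_h9 (K : Subgroup (Matrix.ProjectiveSpecialLinearGroup (Fin 2) F))
    (α : Matrix.ProjectiveSpecialLinearGroup (Fin 2) F ≃*
      Matrix.ProjectiveSpecialLinearGroup (Fin 2) F)
    (hα : K.map α.toMonoidHom ≤ borel_h9 F)
    (u v : Matrix.ProjectiveSpecialLinearGroup (Fin 2) F) (hu : u ∈ K) (hv : v ∈ K)
    (hu3 : u ^ 3 = 1) (hv3 : v ^ 3 = 1) : u * v = v * u := by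
  obtain ⟨s, hs⟩ := borel_cube_h9 (α u) (hα ⟨u, hu, rfl⟩) (by rw [← map_pow, hu3, map_one])
  obtain ⟨t, ht⟩ := borel_cube_h9 (α v) (hα ⟨v, hv, rfl⟩) (by rw [← map_pow, hv3, map_one])
  apply α.injective
  rw [map_mul, map_mul, hs, ht, ← QuotientGroup.mk_mul, ← QuotientGroup.mk_mul, sl2E_mul_h9,
    sl2E_mul_h9, add_comm]

/-- the proper subgroups of `PSL(2, 3^p)`, `p` an odd prime. -/
theorem char3_proper_cases_h9 (h4 : 4 ≤ Fintype.card F)
    (hq : Fintype.card F % 240 = 3 ∨ Fintype.card F % 240 = 27)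
    (hsub : ∀ q₁ r : ℕ, 4 ≤ q₁ → Fintype.card F = q₁ ^ r → r = 1)
    (K : Subgroup (Matrix.ProjectiveSpecialLinearGroup (Fin 2) F)) (hK : K ≠ ⊤) :
    (∃ α : Matrix.ProjectiveSpecialLinearGroup (Fin 2) F ≃*
        Matrix.ProjectiveSpecialLinearGroup (Fin 2) F,
      K.map α.toMonoidHom ≤ borel_h9 F ∧
        ∃ u ∈ K, α u = QuotientGroup.mk (sl2E_h9 (1 : F))) ∨
    Nonempty (K ≃* alternatingGroup (Fin 4)) ∨
    (∃ k : ℕ, Nonempty (K ≃* DihedralGroup k)) ∨
    (∀ a b : K, a * b = b * a) := by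
  haveI : Fact (Nat.Prime 3) := ⟨Nat.prime_three⟩
  have hodd : Fintype.card F % 2 = 1 := by omega
  obtain ⟨r, hr, hcard⟩ := psl2_card_odd_h9 hodd
  have hmod : (r * (r + 1) * (r + 2)) % 80 = 24 ∨ (r * (r + 1) * (r + 2)) % 80 = 56 := by
    rcases hq with h | h
    · left
      have hm : r ≡ 2 [MOD 80] := by
        show r % 80 = 2 % 80
        omega
      exact (hm.mul (hm.add_right 1)).mul (hm.add_right 2)
    · right
      have hm : r ≡ 26 [MOD 80] := by
        show r % 80 = 26 % 80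
        omega
      exact (hm.mul (hm.add_right 1)).mul (hm.add_right 2)
  rw [← hcard] at hmod
  have hdvd : Nat.card K ∣ Nat.card (Matrix.ProjectiveSpecialLinearGroup (Fin 2) F) :=
    Subgroup.card_subgroup_dvd_card K
  by_cases h3 : 3 ∣ Nat.card K
  · obtain ⟨α, hE, hcase⟩ := dickson_cases_h9 (p := 3) K h3
    rcases hcase with hb | ⟨-, ⟨⟨e⟩⟩ | ⟨⟨e⟩⟩ | ⟨⟨e⟩⟩⟩ | ⟨h32, -⟩ |
      ⟨q₁, k, r', hq4, -, hcard', -, hkq, hFq, -⟩
    · left
      obtain ⟨u, hu, hαu⟩ := hE
      exact ⟨α, hb, u, hu, hαu⟩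
    · right; left; exact ⟨e⟩
    · exfalso
      rw [Nat.card_congr e.toEquiv, card_perm4_h9] at hdvd
      obtain ⟨m, hm⟩ := hdvd
      omega
    · exfalso
      rw [Nat.card_congr e.toEquiv, card_A5_h9] at hdvd
      obtain ⟨m, hm⟩ := hdvd
      omega
    · omega
    · exfalso
      have hr' := hsub q₁ r' hq4 hFq
      rw [hr', pow_one] at hFq
      exact top_case_false_h9 (p := 3) h4 K hK k (by rw [hcard', hFq]) (by rw [hFq]; exact hkq)
  · right
    rcases psl2_pprime_h9 (p := 3) K h3 with hc | ⟨k, -, he⟩ | ⟨⟨e⟩⟩ | ⟨⟨e⟩⟩ | ⟨⟨e⟩⟩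
    · right; right
      letI := IsCyclic.commGroup (α := K)
      exact fun a b => mul_comm a b
    · right; left; exact ⟨k, he⟩
    · exfalso; apply h3; rw [Nat.card_congr e.toEquiv, card_alt4_h9]; norm_num
    · exfalso; apply h3; rw [Nat.card_congr e.toEquiv, card_perm4_h9]; norm_num
    · exfalso; apply h3; rw [Nat.card_congr e.toEquiv, card_A5_h9]; norm_num

end odd

end Cfsg.Agent.Helper9
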