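import Mathlib
import Cfsg.Agent.Helper9.Sc1

/-!
# Solubilizers in `PSL(2, 3^p)`: semisimple elements (helper9)
-/

set_option autoImplicit false
open scoped MatrixGroups

namespace Cfsg.Agent.Helper9

theorem char3_three_h9 {F : Type*} [Field F] [CharP F 3] : (3 : F) = 0 := by
  exact_mod_cast CharP.cast_eq_zero F 3

theorem char3_two_ne_zero_h9 {F : Type*} [Field F] [CharP F 3] : (2 : F) ≠ 0 := by
  intro h
  have h' : ((2 : ℕ) : F) = 0 := by exact_mod_cast h
  rw [CharP.cast_eq_zero_iff F 3] at h'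
  omega

theorem nt3_coprime_h9 (q n k : ℕ) (hq4 : q % 4 = 3) (hk : 2 * k = q - 1) (h1 : n ∣ q + 1)
    (h2 : n ∣ q * k) : n = 1 := by
  have hcq : Nat.Coprime (q + 1) q := by simp
  have hnq : Nat.Coprime n q := Nat.Coprime.coprime_dvd_left h1 hcq
  have h3 : n ∣ k := Nat.Coprime.dvd_of_dvd_mul_left hnq h2
  have h4 : n ∣ 2 * k := Dvd.dvd.mul_left h3 2
  rw [hk] at h4
  have h5 : n ∣ (q + 1) - (q - 1) := Nat.dvd_sub h1 h4
  have e : (q + 1) - (q - 1) = 2 := by omega
  rw [e] at h5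
  rcases (Nat.dvd_prime Nat.prime_two).mp h5 with h | h
  · exact h
  · exfalso
    rw [h] at h3
    obtain ⟨m, hm⟩ := h3
    omega

theorem card_sl2_split_h9 {F : Type*} [Field F] [Fintype F] :
    Nat.card {Y : SL(2, F) // Y.1 1 0 = 0 ∨ Y.1 0 1 = 0 ∨ (Y.1 0 0 = 0 ∧ Y.1 1 1 = 0)}
      = 2 * Fintype.card F * (Fintype.card F - 1) := by
  have hiff : ∀ Y : SL(2, F),
      (Y.1 1 0 = 0 ∨ Y.1 0 1 = 0 ∨ (Y.1 0 0 = 0 ∧ Y.1 1 1 = 0)) ↔
      (Y.1 1 0 = 0 ∨ ((Y.1 1 0 ≠ 0 ∧ Y.1 0 1 = 0) ∨ (Y.1 0 0 = 0 ∧ Y.1 1 1 = 0))) := by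
    intro Y
    by_cases hc : Y.1 1 0 = 0
    · simp [hc]
    · simp [hc]
  rw [Nat.card_congr (Equiv.subtypeEquivRight hiff),
    card_or_disjoint_h9 _ _ (by
      rintro Y hc (⟨h, -⟩ | ⟨ha, hd⟩)
      · exact h hc
      · obtain ⟨-, hdet⟩ := sl2_entries_h9 Y
        rw [ha, hd, hc] at hdet
        simp at hdet),
    card_or_disjoint_h9 _ _ (by
      rintro Y ⟨-, hb⟩ ⟨ha, hd⟩
      obtain ⟨-, hdet⟩ := sl2_entries_h9 Y
      rw [ha, hd, hb] at hdet
      simp at hdet),
    card_sl2_upper_h9, card_sl2_lowdiag_h9, card_sl2_anti_h9]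
  obtain ⟨m, hm⟩ : ∃ m, Fintype.card F = m + 1 :=
    ⟨Fintype.card F - 1, by have := Fintype.card_pos (α := F); omega⟩
  rw [hm]
  simp only [Nat.add_sub_cancel]
  ring

/-- an element of `SL(2, q)` whose square has order dividing `q - 1` and whose trace is nonzero
has an eigenvalue in `F_q`. -/
theorem exists_eigen_sq_h9 {F : Type*} [Field F] [Fintype F] (X : SL(2, F))
    (htr : X.1 0 0 + X.1 1 1 ≠ 0) (hpow : (X * X) ^ (Fintype.card F - 1) = 1) :
    ∃ a : F, a * a - (X.1 0 0 + X.1 1 1) * a + 1 = 0 := by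
  have hq : 1 < Fintype.card F := Fintype.one_lt_card
  have hZq : (X * X).1 ^ Fintype.card F = (X * X).1 := by
    have : (X * X) ^ Fintype.card F = X * X := by
      calc (X * X) ^ Fintype.card F = (X * X) ^ ((Fintype.card F - 1) + 1) := by congr 1; omega
        _ = X * X := by rw [pow_succ, hpow, one_mul]
    rw [← Matrix.SpecialLinearGroup.coe_pow, this]
  obtain ⟨s, hs⟩ := exists_eigen_h9 (X * X).1 hZq
  have key : ((X * X).1 0 0 - s) * ((X * X).1 1 1 - s) - (X * X).1 0 1 * (X * X).1 1 0 = 0 := by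
    have := hs
    rw [Matrix.det_fin_two] at this
    simpa [Matrix.sub_apply, Matrix.algebraMap_matrix_apply] using this
  obtain ⟨m00, m01, m10, m11⟩ := sl2_mul_entries_h9 X X
  rw [m00, m01, m10, m11] at key
  obtain ⟨-, hdet⟩ := sl2_entries_h9 X
  have hkey2 : (1 + s) ^ 2 = s * (X.1 0 0 + X.1 1 1) ^ 2 := by
    linear_combination key - (2 * (1 + s) + (X.1 0 0 * X.1 1 1 - X.1 0 1 * X.1 1 0 - 1)) * hdet
  have hτ : (X.1 0 0 + X.1 1 1) * (X.1 0 0 + X.1 1 1)⁻¹ = 1 := mul_inv_cancel₀ htr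
  refine ⟨(1 + s) * (X.1 0 0 + X.1 1 1)⁻¹, ?_⟩
  linear_combination (X.1 0 0 + X.1 1 1)⁻¹ * (X.1 0 0 + X.1 1 1)⁻¹ * hkey2
    + (s + s * ((X.1 0 0 + X.1 1 1) * (X.1 0 0 + X.1 1 1)⁻¹ - 1) - 1) * hτ

section char3

variable {F : Type*} [Field F] [Fintype F] [CharP F 3]

/-- the solubilizer of a nonsplit semisimple element of `PSL(2, 3^p)`. -/
theorem nonsplit3_sol_card_h9 (h4 : 4 ≤ Fintype.card F)
    (hq : Fintype.card F % 240 = 3 ∨ Fintype.card F % 240 = 27)
    (hsub : ∀ q₁ r : ℕ, 4 ≤ q₁ → Fintype.card F = q₁ ^ r → r = 1)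
    (x : Matrix.ProjectiveSpecialLinearGroup (Fin 2) F) (hx1 : x ≠ 1) (hx2o : orderOf x ≠ 2)
    (hxo : orderOf x ∣ Fintype.card F + 1) :
    Nat.card {y : Matrix.ProjectiveSpecialLinearGroup (Fin 2) F //
      Subgroup.closure ({x, y} : Set (Matrix.ProjectiveSpecialLinearGroup (Fin 2) F)) ≠ ⊤}
      = Fintype.card F + 1 := by
  haveI : Fact (Nat.Prime 3) := ⟨Nat.prime_three⟩
  have hodd : Fintype.card F % 2 = 1 := by omega
  have hx2 : x * x ≠ 1 := by
    intro h
    have : orderOf x ∣ 2 := orderOf_dvd_of_pow_eq_one (by rw [pow_two]; exact h)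
    rcases (Nat.dvd_prime Nat.prime_two).mp this with h1 | h2
    · exact hx1 (orderOf_eq_one_iff.mp h1)
    · exact hx2o h2
  have hx3 : x ^ 3 ≠ 1 := by
    intro h
    have : orderOf x ∣ 3 := orderOf_dvd_of_pow_eq_one h
    rcases (Nat.dvd_prime Nat.prime_three).mp this with h1 | h3
    · exact hx1 (orderOf_eq_one_iff.mp h1)
    · rw [h3] at hxo
      omega
  have hmk : (QuotientGroup.mk (Quotient.out x : SL(2, F)) :
      Matrix.ProjectiveSpecialLinearGroup (Fin 2) F) = x := QuotientGroup.out_eq' x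
  have hgood : sl2Good_h9 (Quotient.out x : SL(2, F)) := by
    intro h
    apply hx3
    have := (psl2_cube_iff_h9 (Quotient.out x : SL(2, F))).mpr h
    rwa [hmk] at this
  obtain ⟨N', t, hN, hNtop, hcard, -, hoc⟩ := top_torus_h9 (p := 3) h4 x hgood
  have hxN : x ∈ N' := hN x (Or.inl (by group))
  have hset : ∀ y : Matrix.ProjectiveSpecialLinearGroup (Fin 2) F,
      Subgroup.closure ({x, y} : Set (Matrix.ProjectiveSpecialLinearGroup (Fin 2) F)) ≠ ⊤
        ↔ y ∈ N' := by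
    intro y
    constructor
    · intro hK
      apply hN
      have hxK := Subgroup.subset_closure (k :=
        ({x, y} : Set (Matrix.ProjectiveSpecialLinearGroup (Fin 2) F))) (Set.mem_insert _ _)
      have hyK := Subgroup.subset_closure (k :=
        ({x, y} : Set (Matrix.ProjectiveSpecialLinearGroup (Fin 2) F)))
        (Set.mem_insert_of_mem _ (Set.mem_singleton _))
      suffices h : y * x = x * y ∨ y * x = x⁻¹ * y by
        rcases h with h | h
        · left; rw [h]; group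
        · right; rw [h]; group
      rcases char3_proper_cases_h9 h4 hq hsub _ hK with ⟨α, hα, -⟩ | ⟨⟨e⟩⟩ | ⟨k, ⟨e⟩⟩ | hcomm
      · exfalso
        have h1 : orderOf x ∣ Nat.card (borel_h9 F) := by
          have hmem : α x ∈ borel_h9 F := hα ⟨x, hxK, rfl⟩
          have : orderOf (α x) = orderOf x := MulEquiv.orderOf_eq α x
          rw [← this]
          exact Subgroup.orderOf_dvd_natCard _ hmem
        obtain ⟨k₀, -, -, hpar, hB, -⟩ := top_struct_parity_h9 (p := 3) (F := F) h4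
        have hk₀ : 2 * k₀ = Fintype.card F - 1 := by
          rcases hpar with ⟨-, h⟩ | ⟨h, -⟩
          · exact h
          · omega
        rw [hB] at h1
        exact hx1 (orderOf_eq_one_iff.mp
          (nt3_coprime_h9 (Fintype.card F) _ k₀ (by omega) hk₀ hxo h1))
      · exfalso
        rcases a4_factC_h9 (e ⟨x, hxK⟩) with h | h
        · apply hx2
          have h' : (⟨x, hxK⟩ : Subgroup.closure
              ({x, y} : Set (Matrix.ProjectiveSpecialLinearGroup (Fin 2) F))) * ⟨x, hxK⟩ = 1 := by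
            apply e.injective
            rw [map_mul, map_one]; exact h
          exact congrArg Subtype.val h'
        · apply hx3
          have h' : (⟨x, hxK⟩ : Subgroup.closure
              ({x, y} : Set (Matrix.ProjectiveSpecialLinearGroup (Fin 2) F))) ^ 3 = 1 := by
            apply e.injective
            rw [map_pow, map_one]; exact h
          exact congrArg Subtype.val h'
      · rcases dih_conj_h9 e ⟨_, hxK⟩ ⟨_, hyK⟩ (fun h => hx2 (congrArg Subtype.val h)) with h | h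
        · left; exact congrArg Subtype.val h
        · right; exact congrArg Subtype.val h
      · left; exact congrArg Subtype.val (hcomm ⟨_, hyK⟩ ⟨_, hxK⟩)
    · intro hy htop
      apply hNtop
      rw [eq_top_iff, ← htop, Subgroup.closure_le]
      rintro w (rfl | rfl)
      · exact hxN
      · exact hy
  have hc : Nat.card {y : Matrix.ProjectiveSpecialLinearGroup (Fin 2) F //
      Subgroup.closure ({x, y} : Set (Matrix.ProjectiveSpecialLinearGroup (Fin 2) F)) ≠ ⊤}
      = Nat.card N' := Nat.card_congr (Equiv.subtypeEquivRight hset)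
  rw [hc, hcard]
  rcases hoc hodd with ht | ht
  · exfalso
    have h1 : orderOf x ∣ 2 * t := by rw [← hcard]; exact Subgroup.orderOf_dvd_natCard _ hxN
    rw [ht] at h1
    have h5 : orderOf x ∣ (Fintype.card F + 1) - (Fintype.card F - 1) := Nat.dvd_sub hxo h1
    have e : (Fintype.card F + 1) - (Fintype.card F - 1) = 2 := by omega
    rw [e] at h5
    rcases (Nat.dvd_prime Nat.prime_two).mp h5 with h | h
    · exact hx1 (orderOf_eq_one_iff.mp h)
    · exact hx2o h
  · exact ht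

/-- a nontrivial non-involution of order dividing `q - 1` is conjugate to a diagonal element. -/
theorem split3_conj_h9 (hq : Fintype.card F % 240 = 3 ∨ Fintype.card F % 240 = 27)
    (x : Matrix.ProjectiveSpecialLinearGroup (Fin 2) F) (hx1 : x ≠ 1) (hx2o : orderOf x ≠ 2)
    (hxo : orderOf x ∣ Fintype.card F - 1) :
    ∃ (α : Matrix.ProjectiveSpecialLinearGroup (Fin 2) F ≃*
        Matrix.ProjectiveSpecialLinearGroup (Fin 2) F) (t : F) (ht : t ≠ 0), t * t ≠ 1 ∧
      t * t ≠ -1 ∧ α x = QuotientGroup.mk (sl2D_h9 t ht) := by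
  have h2F : (2 : F) ≠ 0 := char3_two_ne_zero_h9
  have hx2 : x * x ≠ 1 := by
    intro h
    have : orderOf x ∣ 2 := orderOf_dvd_of_pow_eq_one (by rw [pow_two]; exact h)
    rcases (Nat.dvd_prime Nat.prime_two).mp this with h1 | h2
    · exact hx1 (orderOf_eq_one_iff.mp h1)
    · exact hx2o h2
  have hx3 : x ^ 3 ≠ 1 := by
    intro h
    have : orderOf x ∣ 3 := orderOf_dvd_of_pow_eq_one h
    rcases (Nat.dvd_prime Nat.prime_three).mp this with h1 | h3
    · exact hx1 (orderOf_eq_one_iff.mp h1)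
    · rw [h3] at hxo
      omega
  obtain ⟨X, rfl⟩ : ∃ X : SL(2, F),
      (QuotientGroup.mk X : Matrix.ProjectiveSpecialLinearGroup (Fin 2) F) = x :=
    QuotientGroup.mk_surjective x
  have htr : X.1 0 0 + X.1 1 1 ≠ 0 := fun h => hx2 (psl2_sq_of_trace_h9 X h)
  have hpow : (QuotientGroup.mk X : Matrix.ProjectiveSpecialLinearGroup (Fin 2) F)
      ^ (Fintype.card F - 1) = 1 := orderOf_dvd_iff_pow_eq_one.mp hxo
  have hXpow : (X * X) ^ (Fintype.card F - 1) = 1 := by
    rw [← QuotientGroup.mk_pow] at hpow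
    have h' : (QuotientGroup.mk (X ^ (Fintype.card F - 1)) :
        Matrix.ProjectiveSpecialLinearGroup (Fin 2) F) = QuotientGroup.mk 1 := hpow
    rw [(Commute.refl X).mul_pow]
    rcases (psl2_mk_eq_iff_h9 _ _).mp h' with h1 | h1
    · rw [h1, one_mul]
    · rw [h1, neg_mul_neg, one_mul]
  obtain ⟨a, ha⟩ := exists_eigen_sq_h9 X htr hXpow
  have hne : a * a ≠ 1 := by
    intro h
    apply hx3
    apply (psl2_cube_iff_h9 X).mpr
    linear_combination (-(X.1 0 0 + X.1 1 1) ^ 2 + ((X.1 0 0 + X.1 1 1) * a + 2)) * h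
      - ((X.1 0 0 + X.1 1 1) * a + 2) * ha
  obtain ⟨P, t, ht, hX⟩ := sl2_diagF_h9 X a ha hne
  have hα : (MulAut.conj (QuotientGroup.mk P : Matrix.ProjectiveSpecialLinearGroup (Fin 2) F)⁻¹)
      (QuotientGroup.mk X) = QuotientGroup.mk (sl2D_h9 t ht) := by
    show (QuotientGroup.mk (P⁻¹ * X * P⁻¹⁻¹) : Matrix.ProjectiveSpecialLinearGroup (Fin 2) F)
      = QuotientGroup.mk (sl2D_h9 t ht)
    congr 1
    rw [hX]; group
  have hD2 : (QuotientGroup.mk (sl2D_h9 t ht) : Matrix.ProjectiveSpecialLinearGroup (Fin 2) F)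
      * QuotientGroup.mk (sl2D_h9 t ht) ≠ 1 := by
    intro h
    apply hx2
    apply (MulAut.conj (QuotientGroup.mk P :
      Matrix.ProjectiveSpecialLinearGroup (Fin 2) F)⁻¹).injective
    rw [map_mul, hα, map_one]
    exact h
  obtain ⟨d00, d01, d10, d11⟩ := sl2D_entries_h9 t ht
  have htt : t * t⁻¹ = 1 := mul_inv_cancel₀ ht
  refine ⟨MulAut.conj (QuotientGroup.mk P : Matrix.ProjectiveSpecialLinearGroup (Fin 2) F)⁻¹,
    t, ht, ?_, ?_, hα⟩
  · intro h
    apply hD2
    have hDD : sl2D_h9 t ht * sl2D_h9 t ht = 1 := by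
      obtain ⟨m00, m01, m10, m11⟩ := sl2_mul_entries_h9 (sl2D_h9 t ht) (sl2D_h9 t ht)
      obtain ⟨o00, o01, o10, o11⟩ := sl2_one_entries_h9 (F := F)
      apply sl2_ext_h9
      · rw [m00, o00, d00, d01, d10]; linear_combination h
      · rw [m01, o01, d00, d01, d11]; ring
      · rw [m10, o10, d00, d10, d11]; ring
      · rw [m11, o11, d01, d10, d11]
        linear_combination (-(t⁻¹ * t⁻¹)) * h + (t * t⁻¹ + 1) * htt
    show (QuotientGroup.mk (sl2D_h9 t ht * sl2D_h9 t ht) :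
      Matrix.ProjectiveSpecialLinearGroup (Fin 2) F) = 1
    rw [hDD]; rfl
  · intro h
    apply hD2
    apply psl2_sq_of_trace_h9
    rw [d00, d11]
    linear_combination t⁻¹ * h - t * htt

/-- the solubilizer of a diagonal element of `PSL(2, 3^p)`. -/
theorem diag3_sol_iff_h9 (h4 : 4 ≤ Fintype.card F)
    (hq : Fintype.card F % 240 = 3 ∨ Fintype.card F % 240 = 27)
    (hsub : ∀ q₁ r : ℕ, 4 ≤ q₁ → Fintype.card F = q₁ ^ r → r = 1) (t : F) (ht : t ≠ 0)
    (ht1 : t * t ≠ 1) (ht2 : t * t ≠ -1) (Y : SL(2, F)) :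
    Subgroup.closure ({QuotientGroup.mk (sl2D_h9 t ht), QuotientGroup.mk Y} :
      Set (Matrix.ProjectiveSpecialLinearGroup (Fin 2) F)) ≠ ⊤ ↔
    (Y.1 1 0 = 0 ∨ Y.1 0 1 = 0 ∨ (Y.1 0 0 = 0 ∧ Y.1 1 1 = 0)) := by
  haveI : Fact (Nat.Prime 3) := ⟨Nat.prime_three⟩
  haveI hsimple : IsSimpleGroup (Matrix.ProjectiveSpecialLinearGroup (Fin 2) F) :=
    Matrix.ProjectiveSpecialLinearGroup.rank_two_simple
      (by rw [Nat.card_eq_fintype_card]; exact h4)
  have hns : ¬ Group.IsSolvable (Matrix.ProjectiveSpecialLinearGroup (Fin 2) F) :=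
    psl2_not_solvable_h9 (by rw [Nat.card_eq_fintype_card]; exact h4)
  have h2F : (2 : F) ≠ 0 := char3_two_ne_zero_h9
  obtain ⟨d00, d01, d10, d11⟩ := sl2D_entries_h9 t ht
  obtain ⟨i00, i01, i10, i11⟩ := sl2_inv_entries_h9 (sl2D_h9 t ht)
  have htt : t * t⁻¹ = 1 := mul_inv_cancel₀ ht
  have htm : t - t⁻¹ ≠ 0 := by
    intro h
    apply ht1
    linear_combination t * h + htt
  have htp : t + t⁻¹ ≠ 0 := by
    intro h
    apply ht2
    linear_combination t * h - htt
  have hx2 : (QuotientGroup.mk (sl2D_h9 t ht) : Matrix.ProjectiveSpecialLinearGroup (Fin 2) F)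
      * QuotientGroup.mk (sl2D_h9 t ht) ≠ 1 := by
    intro h
    rcases psl2_sq_one_h9 h2F _ h with h1 | h1 | h1
    · rw [d00, d11] at h1
      exact htp h1
    · apply ht1
      have : (sl2D_h9 t ht).1 0 0 = (1 : SL(2, F)).1 0 0 := by rw [h1]
      rw [d00, (sl2_one_entries_h9 (F := F)).1] at this
      rw [this, one_mul]
    · apply ht1
      have : (sl2D_h9 t ht).1 0 0 = (-1 : SL(2, F)).1 0 0 := by rw [h1]
      rw [d00, (sl2_neg_entries_h9 (1 : SL(2, F))).1, (sl2_one_entries_h9 (F := F)).1] at this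
      rw [this]; ring
  have hx3 : (QuotientGroup.mk (sl2D_h9 t ht) : Matrix.ProjectiveSpecialLinearGroup (Fin 2) F)
      ^ 3 ≠ 1 := by
    intro h
    have h1 := (psl2_cube_iff_h9 _).mp h
    rw [d00, d11] at h1
    have h3 : (t * t - 1) ^ 2 * (t * t) = 0 := by
      have e : ((t + t⁻¹) ^ 2 - 4) * (t * t) ^ 2 = (t * t - 1) ^ 2 * (t * t) := by
        have : t⁻¹ = t⁻¹ := rfl
        linear_combination ((t * t) * (t * t⁻¹ + 1) + 2 * (t * t) * (t * t)) * htt
      rw [← e, h1]; ring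
    rcases mul_eq_zero.mp h3 with h5 | h5
    · exact ht1 (sub_eq_zero.mp ((pow_eq_zero_iff (by norm_num)).mp h5))
    · exact ht (mul_self_eq_zero.mp h5)
  have hx1 : (QuotientGroup.mk (sl2D_h9 t ht) : Matrix.ProjectiveSpecialLinearGroup (Fin 2) F)
      ≠ 1 := by
    intro h; apply hx2; rw [h, one_mul]
  have hcomm_b : (QuotientGroup.mk Y : Matrix.ProjectiveSpecialLinearGroup (Fin 2) F)
      * QuotientGroup.mk (sl2D_h9 t ht) = QuotientGroup.mk (sl2D_h9 t ht) * QuotientGroup.mk Y →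
      Y.1 0 1 = 0 := by
    intro h
    have h' : (QuotientGroup.mk (Y * sl2D_h9 t ht) :
        Matrix.ProjectiveSpecialLinearGroup (Fin 2) F) = QuotientGroup.mk (sl2D_h9 t ht * Y) := h
    rcases (psl2_mk_eq_iff_h9 _ _).mp h' with h1 | h1
    · have h01 : (Y * sl2D_h9 t ht).1 0 1 = (sl2D_h9 t ht * Y).1 0 1 := by rw [h1]
      rw [(sl2_mul_entries_h9 _ _).2.1, (sl2_mul_entries_h9 (sl2D_h9 t ht) Y).2.1, d00, d01, d11]
        at h01
      have : Y.1 0 1 * (t - t⁻¹) = 0 := by linear_combination -h01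
      exact (mul_eq_zero.mp this).resolve_right htm
    · have h01 : (Y * sl2D_h9 t ht).1 0 1 = (-(sl2D_h9 t ht * Y)).1 0 1 := by rw [h1]
      rw [(sl2_neg_entries_h9 _).2.1, (sl2_mul_entries_h9 _ _).2.1,
        (sl2_mul_entries_h9 (sl2D_h9 t ht) Y).2.1, d00, d01, d11] at h01
      have : Y.1 0 1 * (t + t⁻¹) = 0 := by linear_combination h01
      exact (mul_eq_zero.mp this).resolve_right htp
  have hinv_ad : (QuotientGroup.mk Y : Matrix.ProjectiveSpecialLinearGroup (Fin 2) F)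
      * QuotientGroup.mk (sl2D_h9 t ht)
        = (QuotientGroup.mk (sl2D_h9 t ht))⁻¹ * QuotientGroup.mk Y →
      Y.1 0 0 = 0 ∧ Y.1 1 1 = 0 := by
    intro h
    have h' : (QuotientGroup.mk (Y * sl2D_h9 t ht) :
        Matrix.ProjectiveSpecialLinearGroup (Fin 2) F)
        = QuotientGroup.mk ((sl2D_h9 t ht)⁻¹ * Y) := h
    rcases (psl2_mk_eq_iff_h9 _ _).mp h' with h1 | h1
    · have h00 : (Y * sl2D_h9 t ht).1 0 0 = ((sl2D_h9 t ht)⁻¹ * Y).1 0 0 := by rw [h1]
      have h11 : (Y * sl2D_h9 t ht).1 1 1 = ((sl2D_h9 t ht)⁻¹ * Y).1 1 1 := by rw [h1]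
      rw [(sl2_mul_entries_h9 _ _).1, (sl2_mul_entries_h9 (sl2D_h9 t ht)⁻¹ Y).1, i00, i01, d00,
        d01, d10, d11] at h00
      rw [(sl2_mul_entries_h9 _ _).2.2.2, (sl2_mul_entries_h9 (sl2D_h9 t ht)⁻¹ Y).2.2.2, i10,
        i11, d00, d01, d10, d11] at h11
      constructor
      · have : Y.1 0 0 * (t - t⁻¹) = 0 := by linear_combination h00
        exact (mul_eq_zero.mp this).resolve_right htm
      · have : Y.1 1 1 * (t - t⁻¹) = 0 := by linear_combination -h11
        exact (mul_eq_zero.mp this).resolve_right htm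
    · have h00 : (Y * sl2D_h9 t ht).1 0 0 = (-((sl2D_h9 t ht)⁻¹ * Y)).1 0 0 := by rw [h1]
      have h11 : (Y * sl2D_h9 t ht).1 1 1 = (-((sl2D_h9 t ht)⁻¹ * Y)).1 1 1 := by rw [h1]
      rw [(sl2_neg_entries_h9 _).1, (sl2_mul_entries_h9 _ _).1,
        (sl2_mul_entries_h9 (sl2D_h9 t ht)⁻¹ Y).1, i00, i01, d00, d01, d10, d11] at h00
      rw [(sl2_neg_entries_h9 _).2.2.2, (sl2_mul_entries_h9 _ _).2.2.2,
        (sl2_mul_entries_h9 (sl2D_h9 t ht)⁻¹ Y).2.2.2, i10, i11, d00, d01, d10, d11] at h11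
      constructor
      · have : Y.1 0 0 * (t + t⁻¹) = 0 := by linear_combination h00
        exact (mul_eq_zero.mp this).resolve_right htp
      · have : Y.1 1 1 * (t + t⁻¹) = 0 := by linear_combination h11
        exact (mul_eq_zero.mp this).resolve_right htp
  constructor
  · intro hK
    have hxK := Subgroup.subset_closure (k :=
      ({QuotientGroup.mk (sl2D_h9 t ht), QuotientGroup.mk Y} :
        Set (Matrix.ProjectiveSpecialLinearGroup (Fin 2) F))) (Set.mem_insert _ _)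
    have hyK := Subgroup.subset_closure (k :=
      ({QuotientGroup.mk (sl2D_h9 t ht), QuotientGroup.mk Y} :
        Set (Matrix.ProjectiveSpecialLinearGroup (Fin 2) F)))
      (Set.mem_insert_of_mem _ (Set.mem_singleton _))
    rcases char3_proper_cases_h9 h4 hq hsub _ hK with
      ⟨α, hα, u, huK, hαu⟩ | ⟨⟨e⟩⟩ | ⟨k, ⟨e⟩⟩ | hcomm
    · -- Borel case
      obtain ⟨e00, e01, e10, e11⟩ := sl2E_entries_h9 (1 : F)
      have hu3 : u ^ 3 = 1 := by
        apply α.injective
        rw [map_pow, hαu, map_one]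
        apply (psl2_cube_iff_h9 _).mpr
        rw [e00, e11]; norm_num
      have hu1 : u ≠ 1 := by
        intro h
        rw [h, map_one] at hαu
        rcases (psl2_mk_eq_iff_h9 (1 : SL(2, F)) (sl2E_h9 (1 : F))).mp hαu with h1 | h1
        · have h01 : (1 : SL(2, F)).1 0 1 = (sl2E_h9 (1 : F)).1 0 1 := by rw [← h1]
          rw [e01, (sl2_one_entries_h9 (F := F)).2.1] at h01
          exact zero_ne_one h01
        · have h01 : (1 : SL(2, F)).1 0 1 = (-sl2E_h9 (1 : F)).1 0 1 := by rw [← h1]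
          rw [(sl2_neg_entries_h9 _).2.1, e01, (sl2_one_entries_h9 (F := F)).2.1] at h01
          have : (1 : F) = 0 := by linear_combination h01
          exact one_ne_zero this
      obtain ⟨U, rfl, hU3⟩ := sl2_lift_unip_h9 (p := 3) u hu3
      have htrU : U.1 0 0 + U.1 1 1 = 2 := sl2_unip_trace_h9 (p := 3) U 1 (by rwa [pow_one])
      obtain ⟨-, hdet⟩ := sl2_entries_h9 U
      have hconj3 : ∀ a : Matrix.ProjectiveSpecialLinearGroup (Fin 2) F,
          (a * QuotientGroup.mk U * a⁻¹) ^ 3 = 1 := by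
        intro a
        rw [conj_pow, hu3, mul_one, mul_inv_cancel]
      have hc1 := borel_cube_comm_h9 _ α hα _ _ huK
        (Subgroup.mul_mem _ (Subgroup.mul_mem _ hxK huK) (Subgroup.inv_mem _ hxK)) hu3
        (hconj3 _)
      have hc1' : U * (sl2D_h9 t ht * U * (sl2D_h9 t ht)⁻¹)
          = (sl2D_h9 t ht * U * (sl2D_h9 t ht)⁻¹) * U :=
        psl2_comm_lift_h9 h2F _ _ (by rw [sl2_trace_conj_h9, htrU]; exact h2F) hc1
      obtain ⟨w00, w01, w10, w11⟩ := sl2_mul_entries_h9 (sl2D_h9 t ht * U) (sl2D_h9 t ht)⁻¹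
      obtain ⟨v00, v01, v10, v11⟩ := sl2_mul_entries_h9 (sl2D_h9 t ht) U
      have hw00 : (sl2D_h9 t ht * U * (sl2D_h9 t ht)⁻¹).1 0 0 = U.1 0 0 := by
        rw [w00, v00, v01, i00, i10, d00, d01, d10, d11]
        linear_combination U.1 0 0 * htt
      have hw01 : (sl2D_h9 t ht * U * (sl2D_h9 t ht)⁻¹).1 0 1 = t * t * U.1 0 1 := by
        rw [w01, v00, v01, i01, i11, d00, d01]
        ring
      have hw10 : (sl2D_h9 t ht * U * (sl2D_h9 t ht)⁻¹).1 1 0 = t⁻¹ * t⁻¹ * U.1 1 0 := by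
        rw [w10, v10, v11, i00, i10, d10, d11]
        ring
      have h00 : (U * (sl2D_h9 t ht * U * (sl2D_h9 t ht)⁻¹)).1 0 0
          = ((sl2D_h9 t ht * U * (sl2D_h9 t ht)⁻¹) * U).1 0 0 := by rw [hc1']
      rw [(sl2_mul_entries_h9 _ _).1, (sl2_mul_entries_h9 (sl2D_h9 t ht * U * (sl2D_h9 t ht)⁻¹) U).1,
        hw00, hw01, hw10] at h00
      have hfg : U.1 0 1 * U.1 1 0 * ((t - t⁻¹) * (t + t⁻¹)) = 0 := by
        linear_combination -h00
      have hfg0 : U.1 0 1 * U.1 1 0 = 0 :=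
        (mul_eq_zero.mp hfg).resolve_right (mul_ne_zero htm htp)
      have hU00 : U.1 0 0 = 1 := by
        have : (U.1 0 0 - 1) ^ 2 = 0 := by
          linear_combination -hdet - hfg0 + U.1 0 0 * htrU
        exact sub_eq_zero.mp ((pow_eq_zero_iff (by norm_num)).mp this)
      have hU11 : U.1 1 1 = 1 := by rw [hU00] at htrU; linear_combination htrU
      have hUne : U ≠ 1 := by
        rintro rfl
        exact hu1 rfl
      have hconjtr : ∀ C : SL(2, F), (C * U * C⁻¹).1 0 0 + (C * U * C⁻¹).1 1 1 ≠ 0 := by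
        intro C
        rw [sl2_trace_conj_h9, htrU]; exact h2F
      have hc2 := borel_cube_comm_h9 _ α hα _ _ huK
        (Subgroup.mul_mem _ (Subgroup.mul_mem _ hyK huK) (Subgroup.inv_mem _ hyK)) hu3
        (hconj3 _)
      have hc2' : U * (Y * U * Y⁻¹) = (Y * U * Y⁻¹) * U :=
        psl2_comm_lift_h9 h2F _ _ (hconjtr Y) hc2
      rcases mul_eq_zero.mp hfg0 with hf | hg
      · -- U = L(g)
        have hUL : U = sl2L_h9 (U.1 1 0) := by
          obtain ⟨l00, l01, l10, l11⟩ := sl2L_entries_h9 (U.1 1 0)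
          apply sl2_ext_h9
          · rw [l00, hU00]
          · rw [l01, hf]
          · rw [l10]
          · rw [l11, hU11]
        have hg0 : U.1 1 0 ≠ 0 := by
          intro h
          apply hUne
          rw [hUL, h]
          obtain ⟨l00, l01, l10, l11⟩ := sl2L_entries_h9 (0 : F)
          obtain ⟨o00, o01, o10, o11⟩ := sl2_one_entries_h9 (F := F)
          apply sl2_ext_h9
          · rw [l00, o00]
          · rw [l01, o01]
          · rw [l10, o10]
          · rw [l11, o11]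
        right; left
        have h11' : (U * (Y * U * Y⁻¹)).1 1 1 = ((Y * U * Y⁻¹) * U).1 1 1 := by rw [hc2']
        rw [(sl2_mul_entries_h9 _ _).2.2.2, (sl2_mul_entries_h9 (Y * U * Y⁻¹) U).2.2.2, hf, hU11]
          at h11'
        have hz : (Y * U * Y⁻¹).1 0 1 = -(U.1 1 0) * (Y.1 0 1) ^ 2 := by
          conv_lhs => rw [hUL]
          exact sl2_conj_L_01_h9 Y _
        rw [hz] at h11'
        have : (U.1 1 0 * Y.1 0 1) ^ 2 = 0 := by linear_combination -h11'
        rcases mul_eq_zero.mp ((pow_eq_zero_iff (by norm_num)).mp this) with h | h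
        · exact absurd h hg0
        · exact h
      · -- U = E(f)
        have hUE : U = sl2E_h9 (U.1 0 1) := by
          obtain ⟨l00, l01, l10, l11⟩ := sl2E_entries_h9 (U.1 0 1)
          apply sl2_ext_h9
          · rw [l00, hU00]
          · rw [l01]
          · rw [l10, hg]
          · rw [l11, hU11]
        have hf0 : U.1 0 1 ≠ 0 := by
          intro h
          apply hUne
          rw [hUE, h, sl2E_zero_h9]
        left
        have h00' : (U * (Y * U * Y⁻¹)).1 0 0 = ((Y * U * Y⁻¹) * U).1 0 0 := by rw [hc2']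
        rw [(sl2_mul_entries_h9 _ _).1, (sl2_mul_entries_h9 (Y * U * Y⁻¹) U).1, hg, hU00] at h00'
        have hz : (Y * U * Y⁻¹).1 1 0 = -(U.1 0 1) * (Y.1 1 0) ^ 2 := by
          conv_lhs => rw [hUE]
          exact sl2_conj_E_10_h9 Y _
        rw [hz] at h00'
        have : (U.1 0 1 * Y.1 1 0) ^ 2 = 0 := by linear_combination -h00'
        rcases mul_eq_zero.mp ((pow_eq_zero_iff (by norm_num)).mp this) with h | h
        · exact absurd h hf0
        · exact h
    · exfalso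
      rcases a4_factC_h9 (e ⟨_, hxK⟩) with h | h
      · apply hx2
        have h' : (⟨_, hxK⟩ : Subgroup.closure
            ({QuotientGroup.mk (sl2D_h9 t ht), QuotientGroup.mk Y} :
              Set (Matrix.ProjectiveSpecialLinearGroup (Fin 2) F))) * ⟨_, hxK⟩ = 1 := by
          apply e.injective
          rw [map_mul, map_one]; exact h
        exact congrArg Subtype.val h'
      · apply hx3
        have h' : (⟨_, hxK⟩ : Subgroup.closure
            ({QuotientGroup.mk (sl2D_h9 t ht), QuotientGroup.mk Y} :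
              Set (Matrix.ProjectiveSpecialLinearGroup (Fin 2) F))) ^ 3 = 1 := by
          apply e.injective
          rw [map_pow, map_one]; exact h
        exact congrArg Subtype.val h'
    · rcases dih_conj_h9 e ⟨_, hxK⟩ ⟨_, hyK⟩ (fun h => hx2 (congrArg Subtype.val h)) with h | h
      · right; left; exact hcomm_b (congrArg Subtype.val h)
      · right; right; exact hinv_ad (congrArg Subtype.val h)
    · right; left
      exact hcomm_b (congrArg Subtype.val (hcomm ⟨_, hyK⟩ ⟨_, hxK⟩))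
  · rintro (h | h | ⟨ha, hd⟩)
    · exact closure_pair_borel_ne_top_gen_h9 _ _ ((mk_mem_borel_gen_h9 _).mpr d10)
        ((mk_mem_borel_gen_h9 _).mpr h)
    · intro htop
      obtain ⟨j00, j01, j10, j11⟩ := sl2J_entries_h9 F
      obtain ⟨k00, k01, k10, k11⟩ := sl2_inv_entries_h9 (sl2J_h9 F)
      have key : ∀ M : SL(2, F), M.1 0 1 = 0 →
          (QuotientGroup.mk (sl2J_h9 F * M * (sl2J_h9 F)⁻¹) :
            Matrix.ProjectiveSpecialLinearGroup (Fin 2) F) ∈ borel_h9 F := by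
        intro M hM
        rw [mk_mem_borel_gen_h9, (sl2_mul_entries_h9 _ _).2.2.1,
          (sl2_mul_entries_h9 (sl2J_h9 F) M).2.2.1, (sl2_mul_entries_h9 (sl2J_h9 F) M).2.2.2,
          k00, k10, j10, j11, hM]
        ring
      have h1 := (closure_pair_top_map_h9
        (MulAut.conj (QuotientGroup.mk (sl2J_h9 F) : Matrix.ProjectiveSpecialLinearGroup (Fin 2) F))
        (QuotientGroup.mk (sl2D_h9 t ht)) (QuotientGroup.mk Y)).mpr htop
      exact closure_pair_borel_ne_top_gen_h9 _ _ (key _ d01) (key _ h) h1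
    · have hYD : Y * sl2D_h9 t ht = (sl2D_h9 t ht)⁻¹ * Y := by
        obtain ⟨m00, m01, m10, m11⟩ := sl2_mul_entries_h9 Y (sl2D_h9 t ht)
        obtain ⟨n00, n01, n10, n11⟩ := sl2_mul_entries_h9 (sl2D_h9 t ht)⁻¹ Y
        apply sl2_ext_h9
        · simp only [m00, n00, i00, i01, d00, d01, d10, d11, ha]; ring
        · simp only [m01, n01, i00, i01, d00, d01, d10, d11]; ring
        · simp only [m10, n10, i10, i11, d00, d01, d10, d11]; ring
        · simp only [m11, n11, i10, i11, d00, d01, d10, d11, hd]; ring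
      apply closure_pair_ne_top_of_norm_h9 hns _ _ (QuotientGroup.mk (sl2D_h9 t ht)) hx1
      · left; group
      · right
        rw [mul_inv_eq_iff_eq_mul]
        show (QuotientGroup.mk (Y * sl2D_h9 t ht) : Matrix.ProjectiveSpecialLinearGroup (Fin 2) F)
          = QuotientGroup.mk ((sl2D_h9 t ht)⁻¹ * Y)
        rw [hYD]

/-- the solubilizer of a split semisimple non-involution of `PSL(2, 3^p)` has `q (q - 1)`
elements. -/
theorem split3_sol_card_h9 (h4 : 4 ≤ Fintype.card F)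
    (hq : Fintype.card F % 240 = 3 ∨ Fintype.card F % 240 = 27)
    (hsub : ∀ q₁ r : ℕ, 4 ≤ q₁ → Fintype.card F = q₁ ^ r → r = 1)
    (x : Matrix.ProjectiveSpecialLinearGroup (Fin 2) F) (hx1 : x ≠ 1) (hx2o : orderOf x ≠ 2)
    (hxo : orderOf x ∣ Fintype.card F - 1) :
    Nat.card {y : Matrix.ProjectiveSpecialLinearGroup (Fin 2) F //
      Subgroup.closure ({x, y} : Set (Matrix.ProjectiveSpecialLinearGroup (Fin 2) F)) ≠ ⊤}
      = Fintype.card F * (Fintype.card F - 1) := by
  obtain ⟨α, t, ht, ht1, ht2, hα⟩ := split3_conj_h9 hq x hx1 hx2o hxo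
  have h := card_psl2_odd_h9 (char3_two_ne_zero_h9 (F := F))
    (fun y => Subgroup.closure ({QuotientGroup.mk (sl2D_h9 t ht), y} :
      Set (Matrix.ProjectiveSpecialLinearGroup (Fin 2) F)) ≠ ⊤)
    (fun Y => Y.1 1 0 = 0 ∨ Y.1 0 1 = 0 ∨ (Y.1 0 0 = 0 ∧ Y.1 1 1 = 0))
    (diag3_sol_iff_h9 h4 hq hsub t ht ht1 ht2)
  rw [card_sl2_split_h9, mul_assoc] at h
  rw [← card_nontop_map_h9 α x, hα]
  exact Nat.eq_of_mul_eq_mul_left (by norm_num) h


end char3

end Cfsg.Agent.Helper9
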