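import Mathlib
import Cfsg.Agent.Helper9.Sc2

/-!
# Solubilizers in `PSL(2, 3^p)`: elements of order 3 (helper9)
-/

set_option autoImplicit false
open scoped MatrixGroups

namespace Cfsg.Agent.Helper9

theorem closure_pair_le_ne_top_h9 {G : Type*} [Group G] (x y t g : G)
    (hx : x ∈ Subgroup.closure ({t, g} : Set G)) (hy : y ∈ Subgroup.closure ({t, g} : Set G))
    (h : Subgroup.closure ({t, g} : Set G) ≠ ⊤) : Subgroup.closure ({x, y} : Set G) ≠ ⊤ := by
  intro htop
  apply h
  rw [eq_top_iff, ← htop, Subgroup.closure_le]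
  rintro w (rfl | rfl)
  · exact hx
  · exact hy

theorem a4_apply1_h9 {G : Type*} [Group G] [Finite G] [IsSimpleGroup G]
    (hns : ¬ Group.IsSolvable G) (x y : G) (hx3 : x ^ 3 = 1) (hy3 : y ^ 3 = 1)
    (ht2 : (x * y) * (x * y) = 1) (ht1 : x * y ≠ 1) :
    Subgroup.closure ({x, y} : Set G) ≠ ⊤ := by
  have hg3 : (y⁻¹) ^ 3 = 1 := by rw [inv_pow, hy3, inv_one]
  have htg : ((x * y) * y⁻¹) ^ 3 = 1 := by rw [mul_inv_cancel_right, hx3]
  have hne := closure_pair_ne_top_of_a4_h9 hns (x * y) y⁻¹ ht1 ht2 hg3 htg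
  refine closure_pair_le_ne_top_h9 x y (x * y) y⁻¹ ?_ ?_ hne
  · have hx : (x * y) * y⁻¹ ∈ Subgroup.closure ({x * y, y⁻¹} : Set G) :=
      Subgroup.mul_mem _ (Subgroup.subset_closure (Set.mem_insert _ _))
        (Subgroup.subset_closure (Set.mem_insert_of_mem _ (Set.mem_singleton _)))
    rwa [mul_inv_cancel_right] at hx
  · have hy : (y⁻¹)⁻¹ ∈ Subgroup.closure ({x * y, y⁻¹} : Set G) :=
      Subgroup.inv_mem _ (Subgroup.subset_closure (Set.mem_insert_of_mem _ (Set.mem_singleton _)))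
    rwa [inv_inv] at hy

theorem a4_apply2_h9 {G : Type*} [Group G] [Finite G] [IsSimpleGroup G]
    (hns : ¬ Group.IsSolvable G) (x y : G) (hx3 : x ^ 3 = 1) (hy3 : y ^ 3 = 1)
    (ht2 : (x⁻¹ * y) * (x⁻¹ * y) = 1) (ht1 : x⁻¹ * y ≠ 1) :
    Subgroup.closure ({x, y} : Set G) ≠ ⊤ := by
  have hx3' : (x⁻¹) ^ 3 = 1 := by rw [inv_pow, hx3, inv_one]
  have hne := a4_apply1_h9 hns x⁻¹ y hx3' hy3 ht2 ht1
  refine closure_pair_le_ne_top_h9 x y x⁻¹ y ?_ ?_ hne
  · have hx : (x⁻¹)⁻¹ ∈ Subgroup.closure ({x⁻¹, y} : Set G) :=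
      Subgroup.inv_mem _ (Subgroup.subset_closure (Set.mem_insert _ _))
    rwa [inv_inv] at hx
  · exact Subgroup.subset_closure (Set.mem_insert_of_mem _ (Set.mem_singleton _))

theorem card_sl2_cd_h9 {F : Type*} [Field F] [Fintype F] (c₀ : F) (hc₀ : c₀ ≠ 0) (ψ : F → F) :
    Nat.card {Y : SL(2, F) // Y.1 1 0 = c₀ ∧ Y.1 1 1 = ψ (Y.1 0 0)} = Fintype.card F := by
  classical
  let f : {Y : SL(2, F) // Y.1 1 0 = c₀ ∧ Y.1 1 1 = ψ (Y.1 0 0)} → F := fun Y => Y.1.1 0 0
  have hf : Function.Bijective f := by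
    constructor
    · rintro ⟨Y, hY, hYd⟩ ⟨Y', hY', hYd'⟩ h
      simp only [f] at h
      apply Subtype.ext
      obtain ⟨-, hdet⟩ := sl2_entries_h9 Y
      obtain ⟨-, hdet'⟩ := sl2_entries_h9 Y'
      have h11 : Y.1 1 1 = Y'.1 1 1 := by rw [hYd, hYd', h]
      have h10 : Y.1 1 0 = Y'.1 1 0 := by rw [hY, hY']
      apply sl2_ext_h9
      · exact h
      · apply mul_right_cancel₀ (hY ▸ hc₀ : Y.1 1 0 ≠ 0)
        linear_combination -hdet + hdet' + Y.1 1 1 * h + Y'.1 0 0 * h11 - Y'.1 0 1 * h10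
      · exact h10
      · exact h11
    · intro a
      have hd : a * ψ a - (a * ψ a - 1) * c₀⁻¹ * c₀ = 1 := by
        have : c₀⁻¹ * c₀ = 1 := inv_mul_cancel₀ hc₀
        linear_combination (-(a * ψ a - 1)) * this
      obtain ⟨s00, s01, s10, s11⟩ := sl2Of_entries_h9 a ((a * ψ a - 1) * c₀⁻¹) c₀ (ψ a) hd
      exact ⟨⟨sl2Of_h9 a ((a * ψ a - 1) * c₀⁻¹) c₀ (ψ a) hd, s10, by rw [s11, s00]⟩, s00⟩
  rw [Nat.card_congr (Equiv.ofBijective f hf), Nat.card_eq_fintype_card]

theorem piece_disj_h9 {F : Type*} [Field F] (Y : SL(2, F)) (c₁ c₂ β₁ β₂ : F)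
    (h : c₁ ≠ c₂ ∨ β₁ ≠ β₂) (h1 : Y.1 1 0 = c₁ ∧ Y.1 1 1 = β₁ - Y.1 0 0)
    (h2 : Y.1 1 0 = c₂ ∧ Y.1 1 1 = β₂ - Y.1 0 0) : False := by
  rcases h with h | h
  · exact h (h1.1.symm.trans h2.1)
  · apply h
    linear_combination h2.2 - h1.2

section char3

variable {F : Type*} [Field F] [Fintype F] [CharP F 3]

theorem mk_eq_c0_h9 (Y M : SL(2, F)) (hM : M.1 1 0 = 0)
    (h : (QuotientGroup.mk Y : Matrix.ProjectiveSpecialLinearGroup (Fin 2) F) = QuotientGroup.mk M) :
    Y.1 1 0 = 0 := by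
  rcases (psl2_mk_eq_iff_h9 _ _).mp h with h1 | h1
  · rw [h1, hM]
  · rw [h1, (sl2_neg_entries_h9 M).2.2.1, hM, neg_zero]

/-- the solubilizer of the standard element of order `3`. -/
theorem unip3_sol_iff_h9 (h4 : 4 ≤ Fintype.card F)
    (hq : Fintype.card F % 240 = 3 ∨ Fintype.card F % 240 = 27)
    (hsub : ∀ q₁ r : ℕ, 4 ≤ q₁ → Fintype.card F = q₁ ^ r → r = 1) (Y : SL(2, F)) :
    Subgroup.closure ({QuotientGroup.mk (sl2E_h9 (1 : F)), QuotientGroup.mk Y} :
      Set (Matrix.ProjectiveSpecialLinearGroup (Fin 2) F)) ≠ ⊤ ↔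
    (Y.1 1 0 = 0 ∨ (Y.1 1 0 * Y.1 1 0 = 1 ∧
      (Y.1 0 0 + Y.1 1 1) ^ 3 = Y.1 0 0 + Y.1 1 1)) := by
  haveI : Fact (Nat.Prime 3) := ⟨Nat.prime_three⟩
  haveI hsimple : IsSimpleGroup (Matrix.ProjectiveSpecialLinearGroup (Fin 2) F) :=
    Matrix.ProjectiveSpecialLinearGroup.rank_two_simple
      (by rw [Nat.card_eq_fintype_card]; exact h4)
  have hns : ¬ Group.IsSolvable (Matrix.ProjectiveSpecialLinearGroup (Fin 2) F) :=
    psl2_not_solvable_h9 (by rw [Nat.card_eq_fintype_card]; exact h4)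
  have h2F : (2 : F) ≠ 0 := char3_two_ne_zero_h9
  have h3F : (3 : F) = 0 := char3_three_h9
  obtain ⟨e00, e01, e10, e11⟩ := sl2E_entries_h9 (1 : F)
  obtain ⟨i00, i01, i10, i11⟩ := sl2_inv_entries_h9 (sl2E_h9 (1 : F))
  rw [e11] at i00
  rw [e01] at i01
  rw [e10, neg_zero] at i10
  rw [e00] at i11
  obtain ⟨m00, m01, m10, m11⟩ := sl2_mul_entries_h9 (sl2E_h9 (1 : F)) Y
  rw [e00, e01] at m00
  rw [e00, e01] at m01
  rw [e10, e11] at m10
  rw [e10, e11] at m11
  obtain ⟨n00, n01, n10, n11⟩ := sl2_mul_entries_h9 (sl2E_h9 (1 : F))⁻¹ Y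
  rw [i00, i01] at n00
  rw [i00, i01] at n01
  rw [i10, i11] at n10
  rw [i10, i11] at n11
  obtain ⟨r00, r01, r10, r11⟩ := sl2_mul_entries_h9 Y (sl2E_h9 (1 : F))
  rw [e00, e10] at r00
  rw [e01, e11] at r01
  rw [e00, e10] at r10
  rw [e01, e11] at r11
  have hx3 : (QuotientGroup.mk (sl2E_h9 (1 : F)) : Matrix.ProjectiveSpecialLinearGroup (Fin 2) F)
      ^ 3 = 1 := by
    apply (psl2_cube_iff_h9 _).mpr
    rw [e00, e11]; norm_num
  have hx1 : (QuotientGroup.mk (sl2E_h9 (1 : F)) : Matrix.ProjectiveSpecialLinearGroup (Fin 2) F)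
      ≠ 1 := by
    intro h
    rcases (psl2_mk_eq_iff_h9 (sl2E_h9 (1 : F)) 1).mp h with h1 | h1
    · have h01 : (sl2E_h9 (1 : F)).1 0 1 = (1 : SL(2, F)).1 0 1 := by rw [h1]
      rw [e01, (sl2_one_entries_h9 (F := F)).2.1] at h01
      exact one_ne_zero h01
    · have h01 : (sl2E_h9 (1 : F)).1 0 1 = (-1 : SL(2, F)).1 0 1 := by rw [h1]
      rw [e01, (sl2_neg_entries_h9 _).2.1, (sl2_one_entries_h9 (F := F)).2.1] at h01
      have : (1 : F) = 0 := by linear_combination h01
      exact one_ne_zero this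
  have hx2 : (QuotientGroup.mk (sl2E_h9 (1 : F)) : Matrix.ProjectiveSpecialLinearGroup (Fin 2) F)
      * QuotientGroup.mk (sl2E_h9 (1 : F)) ≠ 1 := by
    intro h
    apply hx1
    have e : ∀ z : Matrix.ProjectiveSpecialLinearGroup (Fin 2) F, z = z ^ 3 * (z * z)⁻¹ := by
      intro z; rw [pow_succ, pow_two]; group
    rw [e (QuotientGroup.mk (sl2E_h9 (1 : F))), hx3, h, inv_one, mul_one]
  have htrE : (sl2E_h9 (1 : F)).1 0 0 + (sl2E_h9 (1 : F)).1 1 1 ≠ 0 := by
    rw [e00, e11]
    intro h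
    apply h2F
    linear_combination h
  constructor
  · intro hK
    have hxK := Subgroup.subset_closure (k :=
      ({QuotientGroup.mk (sl2E_h9 (1 : F)), QuotientGroup.mk Y} :
        Set (Matrix.ProjectiveSpecialLinearGroup (Fin 2) F))) (Set.mem_insert _ _)
    have hyK := Subgroup.subset_closure (k :=
      ({QuotientGroup.mk (sl2E_h9 (1 : F)), QuotientGroup.mk Y} :
        Set (Matrix.ProjectiveSpecialLinearGroup (Fin 2) F)))
      (Set.mem_insert_of_mem _ (Set.mem_singleton _))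
    have hcommcase : (QuotientGroup.mk Y : Matrix.ProjectiveSpecialLinearGroup (Fin 2) F)
        * QuotientGroup.mk (sl2E_h9 (1 : F)) = QuotientGroup.mk (sl2E_h9 (1 : F)) * QuotientGroup.mk Y
        → Y.1 1 0 = 0 := by
      intro h
      have h' := psl2_comm_lift_h9 h2F Y (sl2E_h9 (1 : F)) htrE h
      have h00 : (Y * sl2E_h9 (1 : F)).1 0 0 = (sl2E_h9 (1 : F) * Y).1 0 0 := by rw [h']
      rw [r00, m00] at h00
      linear_combination -h00
    rcases char3_proper_cases_h9 h4 hq hsub _ hK with ⟨α, hα, -⟩ | ⟨⟨e⟩⟩ | ⟨k, ⟨e⟩⟩ | hcomm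
    · left
      have hw3 : ((QuotientGroup.mk Y : Matrix.ProjectiveSpecialLinearGroup (Fin 2) F)
          * QuotientGroup.mk (sl2E_h9 (1 : F)) * (QuotientGroup.mk Y)⁻¹) ^ 3 = 1 := by
        rw [conj_pow, hx3, mul_one, mul_inv_cancel]
      have hc := borel_cube_comm_h9 _ α hα _ _ hxK
        (Subgroup.mul_mem _ (Subgroup.mul_mem _ hyK hxK) (Subgroup.inv_mem _ hyK)) hx3 hw3
      have hc' : sl2E_h9 (1 : F) * (Y * sl2E_h9 1 * Y⁻¹) = (Y * sl2E_h9 1 * Y⁻¹) * sl2E_h9 1 :=
        psl2_comm_lift_h9 h2F _ _ (by rw [sl2_trace_conj_h9]; exact htrE) hc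
      have h00 : (sl2E_h9 (1 : F) * (Y * sl2E_h9 1 * Y⁻¹)).1 0 0
          = ((Y * sl2E_h9 1 * Y⁻¹) * sl2E_h9 1).1 0 0 := by rw [hc']
      rw [(sl2_mul_entries_h9 _ _).1, (sl2_mul_entries_h9 (Y * sl2E_h9 1 * Y⁻¹) _).1,
        sl2_conj_E_10_h9, e00, e01, e10] at h00
      have hc2 : (Y.1 1 0) ^ 2 = 0 := by linear_combination -h00
      exact (pow_eq_zero_iff (by norm_num)).mp hc2
    · -- A4
      have hg3 : (e ⟨_, hxK⟩) ^ 3 = 1 := by
        rw [← map_pow]
        have : (⟨_, hxK⟩ : Subgroup.closure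
            ({QuotientGroup.mk (sl2E_h9 (1 : F)), QuotientGroup.mk Y} :
              Set (Matrix.ProjectiveSpecialLinearGroup (Fin 2) F))) ^ 3 = 1 := Subtype.ext hx3
        rw [this, map_one]
      have hg1 : e ⟨_, hxK⟩ ≠ 1 := by
        intro h
        apply hx1
        have : (⟨_, hxK⟩ : Subgroup.closure
            ({QuotientGroup.mk (sl2E_h9 (1 : F)), QuotientGroup.mk Y} :
              Set (Matrix.ProjectiveSpecialLinearGroup (Fin 2) F))) = 1 := by
          apply e.injective; rw [h, map_one]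
        exact congrArg Subtype.val this
      rcases a4_factA_h9 (e ⟨_, hxK⟩) (e ⟨_, hyK⟩) hg3 hg1 with
        (h | h | h) | ⟨hh1, hh2, hh3⟩ | ⟨hh3, ⟨hn1, hs⟩ | ⟨hn1, hs⟩⟩
      · left
        have : (⟨_, hyK⟩ : Subgroup.closure
            ({QuotientGroup.mk (sl2E_h9 (1 : F)), QuotientGroup.mk Y} :
              Set (Matrix.ProjectiveSpecialLinearGroup (Fin 2) F))) = 1 := by
          apply e.injective; rw [h, map_one]
        exact mk_eq_c0_h9 Y 1 (sl2_one_entries_h9 (F := F)).2.2.1 (congrArg Subtype.val this)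
      · left
        have := e.injective h
        exact mk_eq_c0_h9 Y _ e10 (congrArg Subtype.val this)
      · left
        have : (⟨_, hyK⟩ : Subgroup.closure
            ({QuotientGroup.mk (sl2E_h9 (1 : F)), QuotientGroup.mk Y} :
              Set (Matrix.ProjectiveSpecialLinearGroup (Fin 2) F))) = ⟨_, hxK⟩⁻¹ := by
          apply e.injective; rw [h, map_inv]
        exact mk_eq_c0_h9 Y (sl2E_h9 (1 : F))⁻¹ i10 (congrArg Subtype.val this)
      · right
        have hy1 : (QuotientGroup.mk Y : Matrix.ProjectiveSpecialLinearGroup (Fin 2) F) ≠ 1 := by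
          intro h
          apply hh1
          have : (⟨_, hyK⟩ : Subgroup.closure
              ({QuotientGroup.mk (sl2E_h9 (1 : F)), QuotientGroup.mk Y} :
                Set (Matrix.ProjectiveSpecialLinearGroup (Fin 2) F))) = 1 := Subtype.ext h
          rw [this, map_one]
        have hy2 : (QuotientGroup.mk Y : Matrix.ProjectiveSpecialLinearGroup (Fin 2) F)
            * QuotientGroup.mk Y = 1 := by
          have : (⟨_, hyK⟩ : Subgroup.closure
              ({QuotientGroup.mk (sl2E_h9 (1 : F)), QuotientGroup.mk Y} :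
                Set (Matrix.ProjectiveSpecialLinearGroup (Fin 2) F))) * ⟨_, hyK⟩ = 1 := by
            apply e.injective; rw [map_mul, map_one]; exact hh2
          exact congrArg Subtype.val this
        have hxy3 : ((QuotientGroup.mk (sl2E_h9 (1 : F)) :
            Matrix.ProjectiveSpecialLinearGroup (Fin 2) F) * QuotientGroup.mk Y) ^ 3 = 1 := by
          have : ((⟨_, hxK⟩ : Subgroup.closure
              ({QuotientGroup.mk (sl2E_h9 (1 : F)), QuotientGroup.mk Y} :
                Set (Matrix.ProjectiveSpecialLinearGroup (Fin 2) F))) * ⟨_, hyK⟩) ^ 3 = 1 := by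
            apply e.injective; rw [map_pow, map_mul, map_one]; exact hh3
          exact congrArg Subtype.val this
        have hβ : Y.1 0 0 + Y.1 1 1 = 0 := by
          rcases psl2_sq_one_h9 h2F Y hy2 with h | h | h
          · exact h
          · exfalso; apply hy1; rw [h]; rfl
          · exfalso; apply hy1; rw [h]; exact psl2_mk_neg_h9 1
        have hc4 := (psl2_cube_iff_h9 (sl2E_h9 (1 : F) * Y)).mp hxy3
        rw [m00, m11] at hc4
        refine ⟨?_, ?_⟩
        · linear_combination hc4 - (Y.1 0 0 + Y.1 1 1 + 2 * Y.1 1 0) * hβ + h3F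
        · rw [hβ]; ring
      · right
        have hy3 : (QuotientGroup.mk Y : Matrix.ProjectiveSpecialLinearGroup (Fin 2) F) ^ 3 = 1 := by
          have : (⟨_, hyK⟩ : Subgroup.closure
              ({QuotientGroup.mk (sl2E_h9 (1 : F)), QuotientGroup.mk Y} :
                Set (Matrix.ProjectiveSpecialLinearGroup (Fin 2) F))) ^ 3 = 1 := by
            apply e.injective; rw [map_pow, map_one]; exact hh3
          exact congrArg Subtype.val this
        have hβ := (psl2_cube_iff_h9 Y).mp hy3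
        have hxy1 : (QuotientGroup.mk (sl2E_h9 (1 : F)) :
            Matrix.ProjectiveSpecialLinearGroup (Fin 2) F) * QuotientGroup.mk Y ≠ 1 := by
          intro h
          apply hn1
          have : (⟨_, hxK⟩ : Subgroup.closure
              ({QuotientGroup.mk (sl2E_h9 (1 : F)), QuotientGroup.mk Y} :
                Set (Matrix.ProjectiveSpecialLinearGroup (Fin 2) F))) * ⟨_, hyK⟩ = 1 :=
            Subtype.ext h
          rw [← map_mul, this, map_one]
        have hxy2 : ((QuotientGroup.mk (sl2E_h9 (1 : F)) :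
            Matrix.ProjectiveSpecialLinearGroup (Fin 2) F) * QuotientGroup.mk Y)
            * (QuotientGroup.mk (sl2E_h9 (1 : F)) * QuotientGroup.mk Y) = 1 := by
          have : ((⟨_, hxK⟩ : Subgroup.closure
              ({QuotientGroup.mk (sl2E_h9 (1 : F)), QuotientGroup.mk Y} :
                Set (Matrix.ProjectiveSpecialLinearGroup (Fin 2) F))) * ⟨_, hyK⟩)
              * (⟨_, hxK⟩ * ⟨_, hyK⟩) = 1 := by
            apply e.injective; rw [map_mul, map_mul, map_one]; exact hs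
          exact congrArg Subtype.val this
        have htr0 : (sl2E_h9 (1 : F) * Y).1 0 0 + (sl2E_h9 (1 : F) * Y).1 1 1 = 0 := by
          rcases psl2_sq_one_h9 h2F (sl2E_h9 (1 : F) * Y) hxy2 with h | h | h
          · exact h
          · exfalso; apply hxy1
            show (QuotientGroup.mk (sl2E_h9 (1 : F) * Y) :
              Matrix.ProjectiveSpecialLinearGroup (Fin 2) F) = 1
            rw [h]; rfl
          · exfalso; apply hxy1
            show (QuotientGroup.mk (sl2E_h9 (1 : F) * Y) :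
              Matrix.ProjectiveSpecialLinearGroup (Fin 2) F) = 1
            rw [h]; exact psl2_mk_neg_h9 1
        rw [m00, m11] at htr0
        have hcβ : Y.1 1 0 = -(Y.1 0 0 + Y.1 1 1) := by linear_combination htr0
        refine ⟨?_, ?_⟩
        · rw [hcβ]; linear_combination hβ + h3F
        · linear_combination (Y.1 0 0 + Y.1 1 1) * hβ + (Y.1 0 0 + Y.1 1 1) * h3F
      · right
        have hy3 : (QuotientGroup.mk Y : Matrix.ProjectiveSpecialLinearGroup (Fin 2) F) ^ 3 = 1 := by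
          have : (⟨_, hyK⟩ : Subgroup.closure
              ({QuotientGroup.mk (sl2E_h9 (1 : F)), QuotientGroup.mk Y} :
                Set (Matrix.ProjectiveSpecialLinearGroup (Fin 2) F))) ^ 3 = 1 := by
            apply e.injective; rw [map_pow, map_one]; exact hh3
          exact congrArg Subtype.val this
        have hβ := (psl2_cube_iff_h9 Y).mp hy3
        have hxy1 : (QuotientGroup.mk (sl2E_h9 (1 : F)) :
            Matrix.ProjectiveSpecialLinearGroup (Fin 2) F)⁻¹ * QuotientGroup.mk Y ≠ 1 := by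
          intro h
          apply hn1
          have : (⟨_, hxK⟩ : Subgroup.closure
              ({QuotientGroup.mk (sl2E_h9 (1 : F)), QuotientGroup.mk Y} :
                Set (Matrix.ProjectiveSpecialLinearGroup (Fin 2) F)))⁻¹ * ⟨_, hyK⟩ = 1 :=
            Subtype.ext h
          rw [← map_inv, ← map_mul, this, map_one]
        have hxy2 : ((QuotientGroup.mk (sl2E_h9 (1 : F)) :
            Matrix.ProjectiveSpecialLinearGroup (Fin 2) F)⁻¹ * QuotientGroup.mk Y)
            * ((QuotientGroup.mk (sl2E_h9 (1 : F)))⁻¹ * QuotientGroup.mk Y) = 1 := by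
          have : ((⟨_, hxK⟩ : Subgroup.closure
              ({QuotientGroup.mk (sl2E_h9 (1 : F)), QuotientGroup.mk Y} :
                Set (Matrix.ProjectiveSpecialLinearGroup (Fin 2) F)))⁻¹ * ⟨_, hyK⟩)
              * (⟨_, hxK⟩⁻¹ * ⟨_, hyK⟩) = 1 := by
            apply e.injective; rw [map_mul, map_mul, map_inv, map_one]; exact hs
          exact congrArg Subtype.val this
        have htr0 : ((sl2E_h9 (1 : F))⁻¹ * Y).1 0 0 + ((sl2E_h9 (1 : F))⁻¹ * Y).1 1 1 = 0 := by
          rcases psl2_sq_one_h9 h2F ((sl2E_h9 (1 : F))⁻¹ * Y) hxy2 with h | h | h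
          · exact h
          · exfalso; apply hxy1
            show (QuotientGroup.mk ((sl2E_h9 (1 : F))⁻¹ * Y) :
              Matrix.ProjectiveSpecialLinearGroup (Fin 2) F) = 1
            rw [h]; rfl
          · exfalso; apply hxy1
            show (QuotientGroup.mk ((sl2E_h9 (1 : F))⁻¹ * Y) :
              Matrix.ProjectiveSpecialLinearGroup (Fin 2) F) = 1
            rw [h]; exact psl2_mk_neg_h9 1
        rw [n00, n11] at htr0
        have hcβ : Y.1 1 0 = Y.1 0 0 + Y.1 1 1 := by linear_combination -htr0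
        refine ⟨?_, ?_⟩
        · rw [hcβ]; linear_combination hβ + h3F
        · linear_combination (Y.1 0 0 + Y.1 1 1) * hβ + (Y.1 0 0 + Y.1 1 1) * h3F
    · -- dihedral
      left
      rcases dih_conj_h9 e ⟨_, hxK⟩ ⟨_, hyK⟩ (fun h => hx2 (congrArg Subtype.val h)) with h | h
      · exact hcommcase (congrArg Subtype.val h)
      · have h' : (QuotientGroup.mk (Y * sl2E_h9 (1 : F)) :
            Matrix.ProjectiveSpecialLinearGroup (Fin 2) F)
            = QuotientGroup.mk ((sl2E_h9 (1 : F))⁻¹ * Y) := congrArg Subtype.val h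
        rcases (psl2_mk_eq_iff_h9 _ _).mp h' with h1 | h1
        · have h00 : (Y * sl2E_h9 (1 : F)).1 0 0 = ((sl2E_h9 (1 : F))⁻¹ * Y).1 0 0 := by rw [h1]
          rw [r00, n00] at h00
          linear_combination h00
        · have h10 : (Y * sl2E_h9 (1 : F)).1 1 0 = (-((sl2E_h9 (1 : F))⁻¹ * Y)).1 1 0 := by
            rw [h1]
          rw [(sl2_neg_entries_h9 _).2.2.1, r10, n10] at h10
          have : 2 * Y.1 1 0 = 0 := by linear_combination h10
          exact (mul_eq_zero.mp this).resolve_left h2F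
    · left
      exact hcommcase (congrArg Subtype.val (hcomm ⟨_, hyK⟩ ⟨_, hxK⟩))
  · rintro (h | ⟨hc, hβ⟩)
    · exact closure_pair_borel_ne_top_gen_h9 _ _ ((mk_mem_borel_gen_h9 _).mpr e10)
        ((mk_mem_borel_gen_h9 _).mpr h)
    · have hc0 : Y.1 1 0 ≠ 0 := by
        intro h; rw [h] at hc; simp at hc
      by_cases hβ0 : Y.1 0 0 + Y.1 1 1 = 0
      · -- trace zero
        have hy2 := psl2_sq_of_trace_h9 Y hβ0
        have hy1 : (QuotientGroup.mk Y : Matrix.ProjectiveSpecialLinearGroup (Fin 2) F) ≠ 1 := by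
          intro h
          exact hc0 (mk_eq_c0_h9 Y 1 (sl2_one_entries_h9 (F := F)).2.2.1 h)
        have hyx3 : ((QuotientGroup.mk Y : Matrix.ProjectiveSpecialLinearGroup (Fin 2) F)
            * QuotientGroup.mk (sl2E_h9 (1 : F))) ^ 3 = 1 := by
          rw [← QuotientGroup.mk_mul]
          apply (psl2_cube_iff_h9 (Y * sl2E_h9 (1 : F))).mpr
          rw [r00, r11]
          linear_combination hc + (Y.1 0 0 + Y.1 1 1 + 2 * Y.1 1 0) * hβ0 - h3F
        have := closure_pair_ne_top_of_a4_h9 hns _ _ hy1 hy2 hx3 hyx3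
        rwa [Set.pair_comm] at this
      · have hβ2 : (Y.1 0 0 + Y.1 1 1) * (Y.1 0 0 + Y.1 1 1) = 1 := by
          apply mul_left_cancel₀ hβ0
          linear_combination hβ
        have hy3 : (QuotientGroup.mk Y : Matrix.ProjectiveSpecialLinearGroup (Fin 2) F) ^ 3 = 1 := by
          apply (psl2_cube_iff_h9 Y).mpr
          linear_combination hβ2 - h3F
        have hcc : (Y.1 1 0 - (Y.1 0 0 + Y.1 1 1)) * (Y.1 1 0 + (Y.1 0 0 + Y.1 1 1)) = 0 := by
          linear_combination hc - hβ2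
        rcases mul_eq_zero.mp hcc with hc1 | hc1
        · -- c = β : t = x⁻¹ y
          have ht2 := psl2_sq_of_trace_h9 ((sl2E_h9 (1 : F))⁻¹ * Y)
            (by rw [n00, n11]; linear_combination -hc1)
          rw [QuotientGroup.mk_mul, QuotientGroup.mk_inv] at ht2
          have ht1 : (QuotientGroup.mk (sl2E_h9 (1 : F)) :
              Matrix.ProjectiveSpecialLinearGroup (Fin 2) F)⁻¹ * QuotientGroup.mk Y ≠ 1 := by
            intro h
            rw [← QuotientGroup.mk_inv, ← QuotientGroup.mk_mul] at h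
            have := mk_eq_c0_h9 _ 1 (sl2_one_entries_h9 (F := F)).2.2.1 h
            rw [n10] at this
            apply hc0
            linear_combination this
          exact a4_apply2_h9 hns _ _ hx3 hy3 ht2 ht1
        · -- c = -β : t = x y
          have ht2 := psl2_sq_of_trace_h9 (sl2E_h9 (1 : F) * Y)
            (by rw [m00, m11]; linear_combination hc1)
          rw [QuotientGroup.mk_mul] at ht2
          have ht1 : (QuotientGroup.mk (sl2E_h9 (1 : F)) :
              Matrix.ProjectiveSpecialLinearGroup (Fin 2) F) * QuotientGroup.mk Y ≠ 1 := by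
            intro h
            rw [← QuotientGroup.mk_mul] at h
            have := mk_eq_c0_h9 _ 1 (sl2_one_entries_h9 (F := F)).2.2.1 h
            rw [m10] at this
            apply hc0
            linear_combination this
          exact a4_apply1_h9 hns _ _ hx3 hy3 ht2 ht1

end char3

end Cfsg.Agent.Helper9
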