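import Mathlib
import Cfsg.Agent.Helper9.Sc3

/-!
# Solubilizers in `PSL(2, 3^p)`: counting for elements of order 3 (helper9)
-/

set_option autoImplicit false
open scoped MatrixGroups

namespace Cfsg.Agent.Helper9

section char3

variable {F : Type*} [Field F] [Fintype F] [CharP F 3]

theorem card_sl2_unip3_h9 :
    Nat.card {Y : SL(2, F) // Y.1 1 0 = 0 ∨ (Y.1 1 0 * Y.1 1 0 = 1 ∧
      (Y.1 0 0 + Y.1 1 1) ^ 3 = Y.1 0 0 + Y.1 1 1)}
      = Fintype.card F * (Fintype.card F + 5) := by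
  have h2F : (2 : F) ≠ 0 := char3_two_ne_zero_h9
  have h3F : (3 : F) = 0 := char3_three_h9
  have h01 : (0 : F) ≠ 1 := zero_ne_one
  have h0m : (0 : F) ≠ -1 := by
    intro h
    have : (1 : F) = 0 := by linear_combination h
    exact one_ne_zero this
  have h1m : (1 : F) ≠ -1 := by
    intro h
    apply h2F
    linear_combination h
  have hm0 : (-1 : F) ≠ 0 := fun h => h0m h.symm
  have hiff : ∀ Y : SL(2, F),
      (Y.1 1 0 = 0 ∨ (Y.1 1 0 * Y.1 1 0 = 1 ∧
        (Y.1 0 0 + Y.1 1 1) ^ 3 = Y.1 0 0 + Y.1 1 1)) ↔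
      (Y.1 1 0 = 0 ∨
        ((Y.1 1 0 = 1 ∧ Y.1 1 1 = 0 - Y.1 0 0) ∨
        ((Y.1 1 0 = 1 ∧ Y.1 1 1 = 1 - Y.1 0 0) ∨
        ((Y.1 1 0 = 1 ∧ Y.1 1 1 = -1 - Y.1 0 0) ∨
        ((Y.1 1 0 = -1 ∧ Y.1 1 1 = 0 - Y.1 0 0) ∨
        ((Y.1 1 0 = -1 ∧ Y.1 1 1 = 1 - Y.1 0 0) ∨
        (Y.1 1 0 = -1 ∧ Y.1 1 1 = -1 - Y.1 0 0))))))) := by
    intro Y
    constructor
    · rintro (h | ⟨hc, hβ⟩)
      · left; exact h
      · right
        have hcc : (Y.1 1 0 - 1) * (Y.1 1 0 + 1) = 0 := by linear_combination hc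
        have hβ3 : (Y.1 0 0 + Y.1 1 1) * ((Y.1 0 0 + Y.1 1 1) - 1) * ((Y.1 0 0 + Y.1 1 1) + 1)
            = 0 := by linear_combination hβ
        rcases mul_eq_zero.mp hcc with hc1 | hc1
        · have hc' : Y.1 1 0 = 1 := by linear_combination hc1
          rcases mul_eq_zero.mp hβ3 with hβ0 | hβ1
          · rcases mul_eq_zero.mp hβ0 with hβ0 | hβ1
            · left; exact ⟨hc', by linear_combination hβ0⟩
            · right; left; exact ⟨hc', by linear_combination hβ1⟩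
          · right; right; left; exact ⟨hc', by linear_combination hβ1⟩
        · have hc' : Y.1 1 0 = -1 := by linear_combination hc1
          rcases mul_eq_zero.mp hβ3 with hβ0 | hβ1
          · rcases mul_eq_zero.mp hβ0 with hβ0 | hβ1
            · right; right; right; left; exact ⟨hc', by linear_combination hβ0⟩
            · right; right; right; right; left; exact ⟨hc', by linear_combination hβ1⟩
          · right; right; right; right; right; exact ⟨hc', by linear_combination hβ1⟩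
    · rintro (h | ⟨hc, hd⟩ | ⟨hc, hd⟩ | ⟨hc, hd⟩ | ⟨hc, hd⟩ | ⟨hc, hd⟩ | ⟨hc, hd⟩)
      · left; exact h
      · right; refine ⟨by rw [hc]; ring, ?_⟩
        have : Y.1 0 0 + Y.1 1 1 = 0 := by linear_combination hd
        rw [this]; ring
      · right; refine ⟨by rw [hc]; ring, ?_⟩
        have : Y.1 0 0 + Y.1 1 1 = 1 := by linear_combination hd
        rw [this]; ring
      · right; refine ⟨by rw [hc]; ring, ?_⟩
        have : Y.1 0 0 + Y.1 1 1 = -1 := by linear_combination hd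
        rw [this]; ring
      · right; refine ⟨by rw [hc]; ring, ?_⟩
        have : Y.1 0 0 + Y.1 1 1 = 0 := by linear_combination hd
        rw [this]; ring
      · right; refine ⟨by rw [hc]; ring, ?_⟩
        have : Y.1 0 0 + Y.1 1 1 = 1 := by linear_combination hd
        rw [this]; ring
      · right; refine ⟨by rw [hc]; ring, ?_⟩
        have : Y.1 0 0 + Y.1 1 1 = -1 := by linear_combination hd
        rw [this]; ring
  have k : ∀ c₀ β₀ : F, c₀ ≠ 0 →
      Nat.card {Y : SL(2, F) // Y.1 1 0 = c₀ ∧ Y.1 1 1 = β₀ - Y.1 0 0} = Fintype.card F :=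
    fun c₀ β₀ h => card_sl2_cd_h9 c₀ h (fun a => β₀ - a)
  rw [Nat.card_congr (Equiv.subtypeEquivRight hiff),
    card_or_disjoint_h9 _ _ (by
      rintro Y hc (⟨h, -⟩ | ⟨h, -⟩ | ⟨h, -⟩ | ⟨h, -⟩ | ⟨h, -⟩ | ⟨h, -⟩)
      · rw [hc] at h; exact h01 h
      · rw [hc] at h; exact h01 h
      · rw [hc] at h; exact h01 h
      · rw [hc] at h; exact h0m h
      · rw [hc] at h; exact h0m h
      · rw [hc] at h; exact h0m h),
    card_or_disjoint_h9 _ _ (by
      rintro Y h1 (h2 | h2 | h2 | h2 | h2)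
      · exact piece_disj_h9 Y _ _ _ _ (Or.inr h01) h1 h2
      · exact piece_disj_h9 Y _ _ _ _ (Or.inr h0m) h1 h2
      · exact piece_disj_h9 Y _ _ _ _ (Or.inl h1m) h1 h2
      · exact piece_disj_h9 Y _ _ _ _ (Or.inl h1m) h1 h2
      · exact piece_disj_h9 Y _ _ _ _ (Or.inl h1m) h1 h2),
    card_or_disjoint_h9 _ _ (by
      rintro Y h1 (h2 | h2 | h2 | h2)
      · exact piece_disj_h9 Y _ _ _ _ (Or.inr h1m) h1 h2
      · exact piece_disj_h9 Y _ _ _ _ (Or.inl h1m) h1 h2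
      · exact piece_disj_h9 Y _ _ _ _ (Or.inl h1m) h1 h2
      · exact piece_disj_h9 Y _ _ _ _ (Or.inl h1m) h1 h2),
    card_or_disjoint_h9 _ _ (by
      rintro Y h1 (h2 | h2 | h2)
      · exact piece_disj_h9 Y _ _ _ _ (Or.inl h1m) h1 h2
      · exact piece_disj_h9 Y _ _ _ _ (Or.inl h1m) h1 h2
      · exact piece_disj_h9 Y _ _ _ _ (Or.inl h1m) h1 h2),
    card_or_disjoint_h9 _ _ (by
      rintro Y h1 (h2 | h2)
      · exact piece_disj_h9 Y _ _ _ _ (Or.inr h01) h1 h2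
      · exact piece_disj_h9 Y _ _ _ _ (Or.inr h0m) h1 h2),
    card_or_disjoint_h9 _ _ (by
      rintro Y h1 h2
      exact piece_disj_h9 Y _ _ _ _ (Or.inr h1m) h1 h2),
    card_sl2_upper_h9, k 1 0 one_ne_zero, k 1 1 one_ne_zero, k 1 (-1) one_ne_zero,
    k (-1) 0 hm0, k (-1) 1 hm0, k (-1) (-1) hm0]
  obtain ⟨m, hm⟩ : ∃ m, Fintype.card F = m + 1 :=
    ⟨Fintype.card F - 1, by have := Fintype.card_pos (α := F); omega⟩
  rw [hm]
  simp only [Nat.add_sub_cancel]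
  ring

/-- twice the solubilizer of an element of order `3` of `PSL(2, 3^p)` has `q (q + 5)`
elements. -/
theorem unip3_sol_card_h9 (h4 : 4 ≤ Fintype.card F)
    (hq : Fintype.card F % 240 = 3 ∨ Fintype.card F % 240 = 27)
    (hsub : ∀ q₁ r : ℕ, 4 ≤ q₁ → Fintype.card F = q₁ ^ r → r = 1)
    (x : Matrix.ProjectiveSpecialLinearGroup (Fin 2) F) (ho : orderOf x = 3) :
    2 * Nat.card {y : Matrix.ProjectiveSpecialLinearGroup (Fin 2) F //
      Subgroup.closure ({x, y} : Set (Matrix.ProjectiveSpecialLinearGroup (Fin 2) F)) ≠ ⊤}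
      = Fintype.card F * (Fintype.card F + 5) := by
  haveI : Fact (Nat.Prime 3) := ⟨Nat.prime_three⟩
  have hx1 : x ≠ 1 := by
    rintro rfl
    rw [orderOf_one] at ho
    omega
  have hx3 : x ^ 3 = 1 := by
    have := pow_orderOf_eq_one x
    rwa [ho] at this
  obtain ⟨α, hα, -⟩ := psl2_normalize_h9 (p := 3) ⊤ x (Subgroup.mem_top _) hx1 hx3
  have h := card_psl2_odd_h9 (char3_two_ne_zero_h9 (F := F))
    (fun y => Subgroup.closure ({QuotientGroup.mk (sl2E_h9 (1 : F)), y} :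
      Set (Matrix.ProjectiveSpecialLinearGroup (Fin 2) F)) ≠ ⊤)
    (fun Y => Y.1 1 0 = 0 ∨ (Y.1 1 0 * Y.1 1 0 = 1 ∧
      (Y.1 0 0 + Y.1 1 1) ^ 3 = Y.1 0 0 + Y.1 1 1))
    (unip3_sol_iff_h9 h4 hq hsub)
  rw [card_sl2_unip3_h9] at h
  rw [← card_nontop_map_h9 α x, hα]
  exact h

end char3

end Cfsg.Agent.Helper9
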