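import Mathlib
import Cfsg.Agent.Helper9.Sc4

/-!
# Solubilizers in `PSL(2, 3^p)`: counting for involutions (helper9)
-/

set_option autoImplicit false
open scoped MatrixGroups

namespace Cfsg.Agent.Helper9

/-- the trace. -/
def sl2B_h9 {F : Type*} [Field F] (Y : SL(2, F)) : F := Y.1 0 0 + Y.1 1 1

/-- the trace of `J * Y`. -/
def sl2G_h9 {F : Type*} [Field F] (Y : SL(2, F)) : F := Y.1 0 1 - Y.1 1 0

section nonsq

variable {F : Type*} [Field F] [Fintype F]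

theorem sum_sq_zero_h9 (hq4 : Fintype.card F % 4 = 3) (u v : F) (h : u * u + v * v = 0) :
    u = 0 ∧ v = 0 := by
  have hns : ¬ IsSquare (-1 : F) := by rw [FiniteField.isSquare_neg_one_iff]; omega
  have hv : v = 0 := by
    by_contra hv
    apply hns
    have hvi : v * v⁻¹ = 1 := mul_inv_cancel₀ hv
    exact ⟨u * v⁻¹, by linear_combination (-(v⁻¹ * v⁻¹)) * h + (v * v⁻¹ + 1) * hvi⟩
  refine ⟨?_, hv⟩
  rw [hv] at h
  have : u * u = 0 := by linear_combination h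
  exact mul_self_eq_zero.mp this

theorem card_circle_zero_h9 (hq4 : Fintype.card F % 4 = 3) :
    Nat.card {p : F × F // p.1 * p.1 + p.2 * p.2 = 0} = 1 := by
  rw [Nat.card_eq_one_iff_unique]
  refine ⟨⟨fun a b => ?_⟩, ⟨⟨(0, 0), by simp⟩⟩⟩
  obtain ⟨ha1, ha2⟩ := sum_sq_zero_h9 hq4 _ _ a.2
  obtain ⟨hb1, hb2⟩ := sum_sq_zero_h9 hq4 _ _ b.2
  apply Subtype.ext
  apply Prod.ext
  · rw [ha1, hb1]
  · rw [ha2, hb2]

theorem card_circle_le_h9 (r ρ : F) (hρ : ρ ≠ 0) (s t : F) (hst : s * s + t * t = ρ) :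
    Nat.card {p : F × F // p.1 * p.1 + p.2 * p.2 = r}
      ≤ Nat.card {p : F × F // p.1 * p.1 + p.2 * p.2 = r * ρ} := by
  apply Nat.card_le_card_of_injective
    (fun p : {p : F × F // p.1 * p.1 + p.2 * p.2 = r} =>
      (⟨(p.1.1 * s - p.1.2 * t, p.1.1 * t + p.1.2 * s), by
        have := p.2
        simp only
        linear_combination (s * s + t * t) * this + r * hst⟩ :
        {p : F × F // p.1 * p.1 + p.2 * p.2 = r * ρ}))
  rintro ⟨⟨u, v⟩, hp⟩ ⟨⟨u', v'⟩, hp'⟩ h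
  simp only [Subtype.mk.injEq, Prod.mk.injEq] at h
  obtain ⟨e1, e2⟩ := h
  have hu : (u - u') * ρ = 0 := by
    rw [← hst]; linear_combination s * e1 + t * e2
  have hv : (v - v') * ρ = 0 := by
    rw [← hst]; linear_combination (-t) * e1 + s * e2
  have hu' : u = u' := sub_eq_zero.mp ((mul_eq_zero.mp hu).resolve_right hρ)
  have hv' : v = v' := sub_eq_zero.mp ((mul_eq_zero.mp hv).resolve_right hρ)
  apply Subtype.ext
  exact Prod.ext hu' hv'

theorem card_circle_eq_h9 (hodd : Fintype.card F % 2 = 1) (r : F) (hr : r ≠ 0) :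
    Nat.card {p : F × F // p.1 * p.1 + p.2 * p.2 = r}
      = Nat.card {p : F × F // p.1 * p.1 + p.2 * p.2 = 1} := by
  obtain ⟨s, t, hst⟩ := ff_sq_add_sq_h9 hodd r
  obtain ⟨s', t', hst'⟩ := ff_sq_add_sq_h9 hodd r⁻¹
  apply le_antisymm
  · have := card_circle_le_h9 r r⁻¹ (inv_ne_zero hr) s' t' (by linear_combination hst')
    rwa [mul_inv_cancel₀ hr] at this
  · have := card_circle_le_h9 1 r hr s t (by linear_combination hst)
    rwa [one_mul] at this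

theorem card_circle_h9 (hq4 : Fintype.card F % 4 = 3) (r : F) (hr : r ≠ 0) :
    Nat.card {p : F × F // p.1 * p.1 + p.2 * p.2 = r} = Fintype.card F + 1 := by
  classical
  have hodd : Fintype.card F % 2 = 1 := by omega
  have h0 := card_circle_zero_h9 hq4
  have hall : ∀ r' : F, r' ≠ 0 → Nat.card {p : F × F // p.1 * p.1 + p.2 * p.2 = r'}
      = Nat.card {p : F × F // p.1 * p.1 + p.2 * p.2 = 1} :=
    fun r' h => card_circle_eq_h9 hodd r' h
  have e : Nat.card (Σ r' : F, {p : F × F // (fun p : F × F => p.1 * p.1 + p.2 * p.2) p = r'})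
      = Nat.card (F × F) :=
    Nat.card_congr (Equiv.sigmaFiberEquiv (fun p : F × F => p.1 * p.1 + p.2 * p.2))
  rw [Nat.card_sigma, Nat.card_prod, Nat.card_eq_fintype_card] at e
  have e' : ∑ r' : F, Nat.card {p : F × F // p.1 * p.1 + p.2 * p.2 = r'}
      = Fintype.card F * Fintype.card F := e
  rw [← Finset.add_sum_erase Finset.univ _ (Finset.mem_univ (0 : F)), h0,
    Finset.sum_congr rfl (fun r' hr' => hall r' (Finset.ne_of_mem_erase hr')),
    Finset.sum_const, smul_eq_mul, Finset.card_erase_of_mem (Finset.mem_univ _),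
    Finset.card_univ] at e'
  rw [hall r hr]
  have hq1 : 1 < Fintype.card F := Fintype.one_lt_card
  obtain ⟨m, hm⟩ : ∃ m, Fintype.card F = m + 1 := ⟨Fintype.card F - 1, by omega⟩
  rw [hm] at e' ⊢
  simp only [Nat.add_sub_cancel] at e'
  have hm0 : 0 < m := by omega
  have : m * Nat.card {p : F × F // p.1 * p.1 + p.2 * p.2 = 1} = m * (m + 2) := by
    have e2 : (m + 1) * (m + 1) = 1 + m * (m + 2) := by ring
    omega
  exact Nat.eq_of_mul_eq_mul_left hm0 this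

theorem card_sl2_sym_h9 (hq4 : Fintype.card F % 4 = 3) :
    Nat.card {Y : SL(2, F) // sl2G_h9 Y = 0} = Fintype.card F * (Fintype.card F - 1) := by
  classical
  have hne : ∀ Y : {Y : SL(2, F) // sl2G_h9 Y = 0}, Y.1.1 0 0 ≠ 0 := by
    rintro ⟨Y, hY⟩ h
    unfold sl2G_h9 at hY
    obtain ⟨-, hdet⟩ := sl2_entries_h9 Y
    have hb : Y.1 0 1 = Y.1 1 0 := by linear_combination hY
    simp only at h
    rw [h, hb] at hdet
    have := (sum_sq_zero_h9 hq4 1 (Y.1 1 0) (by linear_combination -hdet)).1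
    exact one_ne_zero this
  let f : {Y : SL(2, F) // sl2G_h9 Y = 0} → F × Fˣ := fun Y =>
    (Y.1.1 0 1, Units.mk0 (Y.1.1 0 0) (hne Y))
  have hf : Function.Bijective f := by
    constructor
    · rintro ⟨Y, hY⟩ ⟨Y', hY'⟩ h
      simp only [f, Prod.mk.injEq, Units.ext_iff, Units.val_mk0] at h
      obtain ⟨h01, h00⟩ := h
      have h0 : Y.1 0 0 ≠ 0 := hne ⟨Y, hY⟩
      unfold sl2G_h9 at hY hY'
      apply Subtype.ext
      obtain ⟨-, hdet⟩ := sl2_entries_h9 Y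
      obtain ⟨-, hdet'⟩ := sl2_entries_h9 Y'
      have h10 : Y.1 1 0 = Y'.1 1 0 := by linear_combination -hY + hY' + h01
      apply sl2_ext_h9
      · exact h00
      · exact h01
      · exact h10
      · apply mul_left_cancel₀ h0
        linear_combination hdet - hdet' - Y'.1 1 1 * h00 + Y.1 1 0 * h01 + Y'.1 0 1 * h10
    · rintro ⟨b, u⟩
      have hd : u.1 * ((1 + b * b) * (u⁻¹ : Fˣ).1) - b * b = 1 := by
        have : u.1 * (u⁻¹ : Fˣ).1 = 1 := Units.mul_inv u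
        linear_combination (1 + b * b) * this
      obtain ⟨s00, s01, s10, s11⟩ := sl2Of_entries_h9 u.1 b b ((1 + b * b) * (u⁻¹ : Fˣ).1) hd
      refine ⟨⟨sl2Of_h9 u.1 b b ((1 + b * b) * (u⁻¹ : Fˣ).1) hd, ?_⟩, ?_⟩
      · unfold sl2G_h9
        rw [s01, s10, sub_self]
      · exact Prod.ext s01 (Units.ext s00)
  rw [Nat.card_congr (Equiv.ofBijective f hf), Nat.card_prod, Nat.card_units,
    Nat.card_eq_fintype_card]

theorem card_sl2_tr0_h9 (hq4 : Fintype.card F % 4 = 3) :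
    Nat.card {Y : SL(2, F) // sl2B_h9 Y = 0} = Fintype.card F * (Fintype.card F - 1) := by
  have hiff : ∀ Y : SL(2, F), sl2B_h9 Y = 0 ↔ (Y.1 1 0 ≠ 0 ∧ Y.1 1 1 = -(Y.1 0 0)) := by
    intro Y
    unfold sl2B_h9
    constructor
    · intro h
      have hd : Y.1 1 1 = -(Y.1 0 0) := by linear_combination h
      refine ⟨?_, hd⟩
      intro hc
      obtain ⟨-, hdet⟩ := sl2_entries_h9 Y
      rw [hc, hd] at hdet
      have := (sum_sq_zero_h9 hq4 1 (Y.1 0 0) (by linear_combination -hdet)).1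
      exact one_ne_zero this
    · rintro ⟨-, h⟩
      linear_combination h
  rw [Nat.card_congr (Equiv.subtypeEquivRight hiff)]
  exact card_sl2_graph_h9 (fun a _ => -a)

variable [CharP F 3]

theorem card_sl2_fiber_h9 (β₀ γ₀ : F) :
    Nat.card {Y : SL(2, F) // sl2B_h9 Y = β₀ ∧ sl2G_h9 Y = γ₀}
      = Nat.card {p : F × F // p.1 * p.1 + p.2 * p.2 = β₀ * β₀ + γ₀ * γ₀ - 1} := by
  have h3F : (3 : F) = 0 := char3_three_h9
  have h2F : (2 : F) ≠ 0 := char3_two_ne_zero_h9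
  let f : {Y : SL(2, F) // sl2B_h9 Y = β₀ ∧ sl2G_h9 Y = γ₀} →
      {p : F × F // p.1 * p.1 + p.2 * p.2 = β₀ * β₀ + γ₀ * γ₀ - 1} := fun Y =>
    ⟨(Y.1.1 0 0 - Y.1.1 1 1, Y.1.1 0 1 + Y.1.1 1 0), by
      obtain ⟨-, hdet⟩ := sl2_entries_h9 Y.1
      have h1 := Y.2.1
      have h2 := Y.2.2
      unfold sl2B_h9 at h1
      unfold sl2G_h9 at h2
      simp only
      linear_combination (Y.1.1 0 0 + Y.1.1 1 1 + β₀) * h1 + (Y.1.1 0 1 - Y.1.1 1 0 + γ₀) * h2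
        - 4 * hdet - h3F⟩
  have hf : Function.Bijective f := by
    constructor
    · rintro ⟨Y, hY1, hY2⟩ ⟨Y', hY1', hY2'⟩ h
      simp only [f, Subtype.mk.injEq, Prod.mk.injEq] at h
      obtain ⟨e1, e2⟩ := h
      unfold sl2B_h9 at hY1 hY1'
      unfold sl2G_h9 at hY2 hY2'
      apply Subtype.ext
      apply sl2_ext_h9
      · exact mul_left_cancel₀ h2F (by linear_combination e1 + hY1 - hY1')
      · exact mul_left_cancel₀ h2F (by linear_combination e2 + hY2 - hY2')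
      · exact mul_left_cancel₀ h2F (by linear_combination e2 - hY2 + hY2')
      · exact mul_left_cancel₀ h2F (by linear_combination -e1 + hY1 - hY1')
    · rintro ⟨⟨u, v⟩, huv⟩
      simp only at huv
      have hd : (-(β₀ + u)) * (u - β₀) - (-(γ₀ + v)) * (γ₀ - v) = 1 := by
        linear_combination -huv
      obtain ⟨s00, s01, s10, s11⟩ := sl2Of_entries_h9 (-(β₀ + u)) (-(γ₀ + v)) (γ₀ - v) (u - β₀) hd
      refine ⟨⟨sl2Of_h9 (-(β₀ + u)) (-(γ₀ + v)) (γ₀ - v) (u - β₀) hd, ?_, ?_⟩, ?_⟩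
      · unfold sl2B_h9
        rw [s00, s11]
        linear_combination (-β₀) * h3F
      · unfold sl2G_h9
        rw [s01, s10]
        linear_combination (-γ₀) * h3F
      · apply Subtype.ext
        apply Prod.ext
        · show (sl2Of_h9 (-(β₀ + u)) (-(γ₀ + v)) (γ₀ - v) (u - β₀) hd).1 0 0
            - (sl2Of_h9 (-(β₀ + u)) (-(γ₀ + v)) (γ₀ - v) (u - β₀) hd).1 1 1 = u
          rw [s00, s11]
          linear_combination (-u) * h3F
        · show (sl2Of_h9 (-(β₀ + u)) (-(γ₀ + v)) (γ₀ - v) (u - β₀) hd).1 0 1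
            + (sl2Of_h9 (-(β₀ + u)) (-(γ₀ + v)) (γ₀ - v) (u - β₀) hd).1 1 0 = v
          rw [s01, s10]
          linear_combination (-v) * h3F
  exact Nat.card_congr (Equiv.ofBijective f hf)

theorem card_sl2_cent_h9 (hq4 : Fintype.card F % 4 = 3) :
    Nat.card {Y : SL(2, F) // sl2B_h9 Y ^ 2 + sl2G_h9 Y ^ 2 = 1} = Fintype.card F + 1 := by
  have h3F : (3 : F) = 0 := char3_three_h9
  have hkey : ∀ Y : SL(2, F), sl2B_h9 Y ^ 2 + sl2G_h9 Y ^ 2 = 1 →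
      Y.1 1 1 = Y.1 0 0 ∧ Y.1 0 1 = -(Y.1 1 0) := by
    intro Y hY
    unfold sl2B_h9 sl2G_h9 at hY
    obtain ⟨-, hdet⟩ := sl2_entries_h9 Y
    obtain ⟨h1, h2⟩ := sum_sq_zero_h9 hq4 (Y.1 0 0 - Y.1 1 1) (Y.1 0 1 + Y.1 1 0)
      (by linear_combination hY - 4 * hdet - h3F)
    exact ⟨by linear_combination -h1, by linear_combination h2⟩
  let f : {Y : SL(2, F) // sl2B_h9 Y ^ 2 + sl2G_h9 Y ^ 2 = 1} →
      {p : F × F // p.1 * p.1 + p.2 * p.2 = 1} := fun Y =>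
    ⟨(Y.1.1 0 0, Y.1.1 1 0), by
      obtain ⟨-, hdet⟩ := sl2_entries_h9 Y.1
      obtain ⟨h1, h2⟩ := hkey Y.1 Y.2
      rw [h1, h2] at hdet
      simp only
      linear_combination hdet⟩
  have hf : Function.Bijective f := by
    constructor
    · rintro ⟨Y, hY⟩ ⟨Y', hY'⟩ h
      simp only [f, Subtype.mk.injEq, Prod.mk.injEq] at h
      obtain ⟨e1, e2⟩ := h
      obtain ⟨h1, h2⟩ := hkey Y hY
      obtain ⟨h1', h2'⟩ := hkey Y' hY'
      apply Subtype.ext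
      apply sl2_ext_h9
      · exact e1
      · rw [h2, h2', e2]
      · exact e2
      · rw [h1, h1', e1]
    · rintro ⟨⟨a, c⟩, hac⟩
      simp only at hac
      have hd : a * a - (-c) * c = 1 := by linear_combination hac
      obtain ⟨s00, s01, s10, s11⟩ := sl2Of_entries_h9 a (-c) c a hd
      refine ⟨⟨sl2Of_h9 a (-c) c a hd, ?_⟩, ?_⟩
      · unfold sl2B_h9 sl2G_h9
        rw [s00, s01, s10, s11]
        linear_combination 4 * hac + h3F
      · apply Subtype.ext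
        exact Prod.ext s00 s10
  rw [Nat.card_congr (Equiv.ofBijective f hf)]
  exact card_circle_h9 hq4 1 one_ne_zero

theorem fiber_disj_h9 (Y : SL(2, F)) (b₁ b₂ g₁ g₂ : F) (h : b₁ ≠ b₂ ∨ g₁ ≠ g₂)
    (h1 : sl2B_h9 Y = b₁ ∧ sl2G_h9 Y = g₁) (h2 : sl2B_h9 Y = b₂ ∧ sl2G_h9 Y = g₂) : False := by
  rcases h with h | h
  · exact h (h1.1.symm.trans h2.1)
  · exact h (h1.2.symm.trans h2.2)

theorem card_four_fibers_h9 (b₁ g₁ b₂ g₂ b₃ g₃ b₄ g₄ : F)
    (h12 : b₁ ≠ b₂ ∨ g₁ ≠ g₂) (h13 : b₁ ≠ b₃ ∨ g₁ ≠ g₃) (h14 : b₁ ≠ b₄ ∨ g₁ ≠ g₄)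
    (h23 : b₂ ≠ b₃ ∨ g₂ ≠ g₃) (h24 : b₂ ≠ b₄ ∨ g₂ ≠ g₄) (h34 : b₃ ≠ b₄ ∨ g₃ ≠ g₄) (n : ℕ)
    (hn1 : Nat.card {p : F × F // p.1 * p.1 + p.2 * p.2 = b₁ * b₁ + g₁ * g₁ - 1} = n)
    (hn2 : Nat.card {p : F × F // p.1 * p.1 + p.2 * p.2 = b₂ * b₂ + g₂ * g₂ - 1} = n)
    (hn3 : Nat.card {p : F × F // p.1 * p.1 + p.2 * p.2 = b₃ * b₃ + g₃ * g₃ - 1} = n)
    (hn4 : Nat.card {p : F × F // p.1 * p.1 + p.2 * p.2 = b₄ * b₄ + g₄ * g₄ - 1} = n) :
    Nat.card {Y : SL(2, F) // (sl2B_h9 Y = b₁ ∧ sl2G_h9 Y = g₁) ∨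
      ((sl2B_h9 Y = b₂ ∧ sl2G_h9 Y = g₂) ∨
      ((sl2B_h9 Y = b₃ ∧ sl2G_h9 Y = g₃) ∨ (sl2B_h9 Y = b₄ ∧ sl2G_h9 Y = g₄)))} = 4 * n := by
  rw [card_or_disjoint_h9 _ _ (by
      rintro Y h1 (h2 | h2 | h2)
      · exact fiber_disj_h9 Y _ _ _ _ h12 h1 h2
      · exact fiber_disj_h9 Y _ _ _ _ h13 h1 h2
      · exact fiber_disj_h9 Y _ _ _ _ h14 h1 h2),
    card_or_disjoint_h9 _ _ (by
      rintro Y h1 (h2 | h2)
      · exact fiber_disj_h9 Y _ _ _ _ h23 h1 h2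
      · exact fiber_disj_h9 Y _ _ _ _ h24 h1 h2),
    card_or_disjoint_h9 _ _ (by
      rintro Y h1 h2
      exact fiber_disj_h9 Y _ _ _ _ h34 h1 h2),
    card_sl2_fiber_h9, card_sl2_fiber_h9, card_sl2_fiber_h9, card_sl2_fiber_h9, hn1, hn2, hn3,
    hn4]
  ring

theorem card_sl2_invol3_h9 (hq4 : Fintype.card F % 4 = 3) :
    Nat.card {Y : SL(2, F) // sl2B_h9 Y = 0 ∨ sl2G_h9 Y = 0 ∨
      sl2B_h9 Y ^ 2 + sl2G_h9 Y ^ 2 = 1 ∨ (sl2B_h9 Y ^ 2 = 1 ∧ sl2G_h9 Y ^ 2 = 1)}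
      = 2 * Fintype.card F * (Fintype.card F + 1) := by
  have h2F : (2 : F) ≠ 0 := char3_two_ne_zero_h9
  have h3F : (3 : F) = 0 := char3_three_h9
  have h01 : (0 : F) ≠ 1 := zero_ne_one
  have h0m : (0 : F) ≠ -1 := by
    intro h
    have : (1 : F) = 0 := by linear_combination h
    exact one_ne_zero this
  have h1m : (1 : F) ≠ -1 := by
    intro h
    apply h2F
    linear_combination h
  have hm1 : (-1 : F) ≠ 1 := fun h => h1m h.symm
  have h10 : (1 : F) ≠ 0 := one_ne_zero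
  have hm0 : (-1 : F) ≠ 0 := fun h => h0m h.symm
  have hsq : ∀ z : F, z ^ 2 = 1 → z = 1 ∨ z = -1 := by
    intro z hz
    have : (z - 1) * (z + 1) = 0 := by linear_combination hz
    rcases mul_eq_zero.mp this with h | h
    · left; linear_combination h
    · right; linear_combination h
  -- the main decomposition
  have hiff : ∀ Y : SL(2, F),
      (sl2B_h9 Y = 0 ∨ sl2G_h9 Y = 0 ∨ sl2B_h9 Y ^ 2 + sl2G_h9 Y ^ 2 = 1 ∨
        (sl2B_h9 Y ^ 2 = 1 ∧ sl2G_h9 Y ^ 2 = 1)) ↔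
      (sl2B_h9 Y = 0 ∨ ((sl2G_h9 Y = 0 ∧ sl2B_h9 Y ≠ 0) ∨
        ((sl2B_h9 Y ^ 2 + sl2G_h9 Y ^ 2 = 1 ∧ sl2B_h9 Y ≠ 0 ∧ sl2G_h9 Y ≠ 0) ∨
          (sl2B_h9 Y ^ 2 = 1 ∧ sl2G_h9 Y ^ 2 = 1)))) := by
    intro Y
    constructor
    · intro h
      by_cases hB : sl2B_h9 Y = 0
      · left; exact hB
      · by_cases hG : sl2G_h9 Y = 0
        · right; left; exact ⟨hG, hB⟩
        · rcases h with h | h | h | h
          · exact absurd h hB
          · exact absurd h hG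
          · right; right; left; exact ⟨h, hB, hG⟩
          · right; right; right; exact h
    · rintro (h | ⟨h, -⟩ | ⟨h, -, -⟩ | h)
      · left; exact h
      · right; left; exact h
      · right; right; left; exact h
      · right; right; right; exact h
  -- the second piece
  have hiff2 : ∀ Y : SL(2, F), sl2G_h9 Y = 0 ↔
      ((sl2G_h9 Y = 0 ∧ sl2B_h9 Y ≠ 0) ∨ (sl2B_h9 Y = 0 ∧ sl2G_h9 Y = 0)) := by
    intro Y
    constructor
    · intro h
      by_cases hB : sl2B_h9 Y = 0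
      · right; exact ⟨hB, h⟩
      · left; exact ⟨h, hB⟩
    · rintro (⟨h, -⟩ | ⟨-, h⟩) <;> exact h
  have e2 := card_sl2_sym_h9 (F := F) hq4
  rw [Nat.card_congr (Equiv.subtypeEquivRight hiff2),
    card_or_disjoint_h9 _ _ (by
      rintro Y ⟨-, h1⟩ ⟨h2, -⟩
      exact h1 h2),
    card_sl2_fiber_h9,
    card_circle_h9 hq4 _ (by
      have : (0 : F) * 0 + 0 * 0 - 1 = -1 := by ring
      rw [this]; exact hm0)] at e2
  -- the third piece
  have hiff3 : ∀ Y : SL(2, F), sl2B_h9 Y ^ 2 + sl2G_h9 Y ^ 2 = 1 ↔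
      ((sl2B_h9 Y ^ 2 + sl2G_h9 Y ^ 2 = 1 ∧ sl2B_h9 Y ≠ 0 ∧ sl2G_h9 Y ≠ 0) ∨
        ((sl2B_h9 Y = 0 ∧ sl2G_h9 Y = 1) ∨ ((sl2B_h9 Y = 0 ∧ sl2G_h9 Y = -1) ∨
          ((sl2B_h9 Y = 1 ∧ sl2G_h9 Y = 0) ∨ (sl2B_h9 Y = -1 ∧ sl2G_h9 Y = 0))))) := by
    intro Y
    constructor
    · intro h
      by_cases hB : sl2B_h9 Y = 0
      · right
        rw [hB] at h
        rcases hsq (sl2G_h9 Y) (by linear_combination h) with h1 | h1
        · left; exact ⟨hB, h1⟩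
        · right; left; exact ⟨hB, h1⟩
      · by_cases hG : sl2G_h9 Y = 0
        · right
          rw [hG] at h
          rcases hsq (sl2B_h9 Y) (by linear_combination h) with h1 | h1
          · right; right; left; exact ⟨h1, hG⟩
          · right; right; right; exact ⟨h1, hG⟩
        · left; exact ⟨h, hB, hG⟩
    · rintro (⟨h, -, -⟩ | ⟨h1, h2⟩ | ⟨h1, h2⟩ | ⟨h1, h2⟩ | ⟨h1, h2⟩)
      · exact h
      · rw [h1, h2]; ring
      · rw [h1, h2]; ring
      · rw [h1, h2]; ring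
      · rw [h1, h2]; ring
  have c0 : ∀ b g : F, b * b + g * g - 1 = 0 →
      Nat.card {p : F × F // p.1 * p.1 + p.2 * p.2 = b * b + g * g - 1} = 1 := by
    intro b g h
    rw [h]
    exact card_circle_zero_h9 hq4
  have e3 := card_sl2_cent_h9 (F := F) hq4
  rw [Nat.card_congr (Equiv.subtypeEquivRight hiff3),
    card_or_disjoint_h9 _ _ (by
      rintro Y ⟨-, hB, hG⟩ (⟨h, -⟩ | ⟨h, -⟩ | ⟨-, h⟩ | ⟨-, h⟩)
      · exact hB h
      · exact hB h
      · exact hG h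
      · exact hG h),
    card_four_fibers_h9 0 1 0 (-1) 1 0 (-1) 0 (Or.inr h1m) (Or.inl h01) (Or.inl h0m)
      (Or.inl h01) (Or.inl h0m) (Or.inl h1m) 1 (c0 _ _ (by ring)) (c0 _ _ (by ring))
      (c0 _ _ (by ring)) (c0 _ _ (by ring))] at e3
  -- the fourth piece
  have hiff4 : ∀ Y : SL(2, F), (sl2B_h9 Y ^ 2 = 1 ∧ sl2G_h9 Y ^ 2 = 1) ↔
      ((sl2B_h9 Y = 1 ∧ sl2G_h9 Y = 1) ∨ ((sl2B_h9 Y = 1 ∧ sl2G_h9 Y = -1) ∨
        ((sl2B_h9 Y = -1 ∧ sl2G_h9 Y = 1) ∨ (sl2B_h9 Y = -1 ∧ sl2G_h9 Y = -1)))) := by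
    intro Y
    constructor
    · rintro ⟨h1, h2⟩
      rcases hsq _ h1 with hB | hB <;> rcases hsq _ h2 with hG | hG
      · left; exact ⟨hB, hG⟩
      · right; left; exact ⟨hB, hG⟩
      · right; right; left; exact ⟨hB, hG⟩
      · right; right; right; exact ⟨hB, hG⟩
    · rintro (⟨h1, h2⟩ | ⟨h1, h2⟩ | ⟨h1, h2⟩ | ⟨h1, h2⟩) <;>
        exact ⟨by rw [h1]; ring, by rw [h2]; ring⟩
  have c1 : ∀ b g : F, b * b + g * g - 1 = 1 →
      Nat.card {p : F × F // p.1 * p.1 + p.2 * p.2 = b * b + g * g - 1} = Fintype.card F + 1 := by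
    intro b g h
    rw [h]
    exact card_circle_h9 hq4 1 one_ne_zero
  have e4 : Nat.card {Y : SL(2, F) // sl2B_h9 Y ^ 2 = 1 ∧ sl2G_h9 Y ^ 2 = 1}
      = 4 * (Fintype.card F + 1) := by
    rw [Nat.card_congr (Equiv.subtypeEquivRight hiff4)]
    exact card_four_fibers_h9 1 1 1 (-1) (-1) 1 (-1) (-1) (Or.inr h1m) (Or.inl h1m) (Or.inl h1m)
      (Or.inl h1m) (Or.inl h1m) (Or.inr h1m) _ (c1 _ _ (by ring)) (c1 _ _ (by ring))
      (c1 _ _ (by ring)) (c1 _ _ (by ring))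
  have e1 := card_sl2_tr0_h9 (F := F) hq4
  rw [Nat.card_congr (Equiv.subtypeEquivRight hiff),
    card_or_disjoint_h9 _ _ (by
      rintro Y hB (⟨-, h⟩ | ⟨-, h, -⟩ | ⟨h, -⟩)
      · exact h hB
      · exact h hB
      · rw [hB] at h
        have : (1 : F) = 0 := by linear_combination -h
        exact one_ne_zero this),
    card_or_disjoint_h9 _ _ (by
      rintro Y ⟨hG, -⟩ (⟨-, -, h⟩ | ⟨-, h⟩)
      · exact h hG
      · rw [hG] at h
        have : (1 : F) = 0 := by linear_combination -h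
        exact one_ne_zero this),
    card_or_disjoint_h9 _ _ (by
      rintro Y ⟨h, -, -⟩ ⟨h1, h2⟩
      rw [h1, h2] at h
      have : (1 : F) = 0 := by linear_combination h
      exact one_ne_zero this),
    e1, e4]
  have hq1 : 1 < Fintype.card F := Fintype.one_lt_card
  have hM : Fintype.card F * (Fintype.card F + 1)
      = Fintype.card F * (Fintype.card F - 1) + 2 * Fintype.card F := by
    obtain ⟨m, hm⟩ : ∃ m, Fintype.card F = m + 1 := ⟨Fintype.card F - 1, by omega⟩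
    rw [hm]
    simp only [Nat.add_sub_cancel]
    ring
  rw [mul_assoc, hM]
  generalize Fintype.card F * (Fintype.card F - 1) = M at *
  omega

end nonsq

end Cfsg.Agent.Helper9
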