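import Mathlib
import Cfsg.Agent.Helper9.Sc5

/-!
# Solubilizers in `PSL(2, 3^p)`: involutions (helper9)
-/

set_option autoImplicit false
open scoped MatrixGroups

namespace Cfsg.Agent.Helper9

theorem three_pow_odd_240_h9 (r : ℕ) (hr : r % 2 = 1) : 3 ^ r % 240 = 3 ∨ 3 ^ r % 240 = 27 := by
  obtain ⟨t, rfl⟩ : ∃ t, r = 2 * t + 1 := ⟨r / 2, by omega⟩
  have h9 : ∀ t : ℕ, 9 ^ t % 240 = 1 ∨ 9 ^ t % 240 = 9 ∨ 9 ^ t % 240 = 81 := by
    intro t
    induction t with
    | zero => left; rfl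
    | succ n ih =>
      rw [pow_succ, Nat.mul_mod]
      rcases ih with h | h | h <;> rw [h] <;> simp
  rw [pow_succ, pow_mul, Nat.mul_mod, show (3 : ℕ) ^ 2 = 9 from rfl]
  rcases h9 t with h | h | h <;> rw [h] <;> simp

theorem mat2_ext_h9 {F : Type*} [Field F] (p q r s p' q' r' s' : F) (h1 : p = p') (h2 : q = q')
    (h3 : r = r') (h4 : s = s') :
    (!![p, q; r, s] : Matrix (Fin 2) (Fin 2) F) = !![p', q'; r', s'] := by
  subst h1 h2 h3 h4
  rfl

section char3

variable {F : Type*} [Field F] [Fintype F] [CharP F 3]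

/-- an involution of `PSL(2, q)`, `q ≡ 3 mod 4`, is conjugate to the standard one. -/
theorem invol3_conj_h9 (hq4 : Fintype.card F % 4 = 3)
    (x : Matrix.ProjectiveSpecialLinearGroup (Fin 2) F) (hx1 : x ≠ 1) (hx2 : x * x = 1) :
    ∃ α : Matrix.ProjectiveSpecialLinearGroup (Fin 2) F ≃*
        Matrix.ProjectiveSpecialLinearGroup (Fin 2) F,
      α x = QuotientGroup.mk (sl2J_h9 F) := by
  have h2F : (2 : F) ≠ 0 := char3_two_ne_zero_h9
  obtain ⟨X, rfl⟩ : ∃ X : SL(2, F),
      (QuotientGroup.mk X : Matrix.ProjectiveSpecialLinearGroup (Fin 2) F) = x :=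
    QuotientGroup.mk_surjective x
  have htr : X.1 0 0 + X.1 1 1 = 0 := by
    rcases psl2_sq_one_h9 h2F X hx2 with h | h | h
    · exact h
    · exfalso; apply hx1; rw [h]; rfl
    · exfalso; apply hx1; rw [h]; exact psl2_mk_neg_h9 1
  obtain ⟨hXval, hdet⟩ := sl2_entries_h9 X
  obtain ⟨a, ha⟩ : ∃ a, a = X.1 0 0 := ⟨_, rfl⟩
  obtain ⟨b, hb⟩ : ∃ b, b = X.1 0 1 := ⟨_, rfl⟩
  obtain ⟨c, hc⟩ : ∃ c, c = X.1 1 0 := ⟨_, rfl⟩
  obtain ⟨d, hd⟩ : ∃ d, d = X.1 1 1 := ⟨_, rfl⟩
  rw [← ha, ← hb, ← hc, ← hd] at hXval hdet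
  rw [← ha, ← hd] at htr
  have hc0 : c ≠ 0 := by
    intro h0
    have hd' : d = -a := by linear_combination htr
    rw [h0, hd'] at hdet
    exact one_ne_zero (sum_sq_zero_h9 hq4 1 a (by linear_combination -hdet)).1
  obtain ⟨ci, hci⟩ : ∃ ci, c * ci = 1 := ⟨c⁻¹, mul_inv_cancel₀ hc0⟩
  have hAB : (!![1, -a * ci; 0, ci] : Matrix (Fin 2) (Fin 2) F) * !![1, a; 0, c] = 1 := by
    rw [Matrix.mul_fin_two, Matrix.one_fin_two]
    apply mat2_ext_h9
    · ring
    · linear_combination (-a) * hci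
    · ring
    · linear_combination hci
  have hBA : (!![1, a; 0, c] : Matrix (Fin 2) (Fin 2) F) * !![1, -a * ci; 0, ci] = 1 := by
    rw [Matrix.mul_fin_two, Matrix.one_fin_two]
    apply mat2_ext_h9
    · ring
    · ring
    · ring
    · linear_combination hci
  refine ⟨psl2ConjM_h9 _ _ hAB hBA, ?_⟩
  rw [psl2ConjM_mk_h9]
  congr 1
  apply sl2ConjM_eq_of_h9
  rw [sl2J_val_h9, hXval, Matrix.mul_fin_two, Matrix.mul_fin_two]
  apply mat2_ext_h9
  · linear_combination a * hci
  · linear_combination ci * hdet + b * hci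
  · linear_combination -hci
  · linear_combination (-ci) * htr

/-- the solubilizer of the standard involution of `PSL(2, 3^p)`. -/
theorem invol3_sol_iff_h9 (h4 : 4 ≤ Fintype.card F)
    (hq : Fintype.card F % 240 = 3 ∨ Fintype.card F % 240 = 27)
    (hsub : ∀ q₁ r : ℕ, 4 ≤ q₁ → Fintype.card F = q₁ ^ r → r = 1) (Y : SL(2, F)) :
    Subgroup.closure ({QuotientGroup.mk (sl2J_h9 F), QuotientGroup.mk Y} :
      Set (Matrix.ProjectiveSpecialLinearGroup (Fin 2) F)) ≠ ⊤ ↔
    (sl2B_h9 Y = 0 ∨ sl2G_h9 Y = 0 ∨ sl2B_h9 Y ^ 2 + sl2G_h9 Y ^ 2 = 1 ∨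
      (sl2B_h9 Y ^ 2 = 1 ∧ sl2G_h9 Y ^ 2 = 1)) := by
  haveI : Fact (Nat.Prime 3) := ⟨Nat.prime_three⟩
  haveI hsimple : IsSimpleGroup (Matrix.ProjectiveSpecialLinearGroup (Fin 2) F) :=
    Matrix.ProjectiveSpecialLinearGroup.rank_two_simple
      (by rw [Nat.card_eq_fintype_card]; exact h4)
  have hns : ¬ Group.IsSolvable (Matrix.ProjectiveSpecialLinearGroup (Fin 2) F) :=
    psl2_not_solvable_h9 (by rw [Nat.card_eq_fintype_card]; exact h4)
  have h2F : (2 : F) ≠ 0 := char3_two_ne_zero_h9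
  have h3F : (3 : F) = 0 := char3_three_h9
  have hq4 : Fintype.card F % 4 = 3 := by omega
  obtain ⟨j00, j01, j10, j11⟩ := sl2J_entries_h9 F
  obtain ⟨o00, o01, o10, o11⟩ := sl2_one_entries_h9 (F := F)
  obtain ⟨m00, m01, m10, m11⟩ := sl2_mul_entries_h9 (sl2J_h9 F) Y
  rw [j00, j01] at m00 m01
  rw [j10, j11] at m10 m11
  obtain ⟨r00, r01, r10, r11⟩ := sl2_mul_entries_h9 Y (sl2J_h9 F)
  rw [j00, j10] at r00 r10
  rw [j01, j11] at r01 r11
  have hx2 : (QuotientGroup.mk (sl2J_h9 F) : Matrix.ProjectiveSpecialLinearGroup (Fin 2) F)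
      * QuotientGroup.mk (sl2J_h9 F) = 1 :=
    psl2_sq_of_trace_h9 _ (by rw [j00, j11, add_zero])
  have hx1 : (QuotientGroup.mk (sl2J_h9 F) : Matrix.ProjectiveSpecialLinearGroup (Fin 2) F)
      ≠ 1 := by
    intro h
    have := mk_eq_c0_h9 (sl2J_h9 F) 1 o10 h
    rw [j10] at this
    exact one_ne_zero this
  have trJY : (sl2J_h9 F * Y).1 0 0 + (sl2J_h9 F * Y).1 1 1 = sl2G_h9 Y := by
    rw [m00, m11]; unfold sl2G_h9; ring
  have hyy : (QuotientGroup.mk Y : Matrix.ProjectiveSpecialLinearGroup (Fin 2) F)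
      * QuotientGroup.mk Y = 1 → sl2B_h9 Y = 0 ∨ sl2G_h9 Y = 0 := by
    intro h
    rcases psl2_sq_one_h9 h2F Y h with h1 | h1 | h1
    · left; exact h1
    · right; unfold sl2G_h9; rw [h1, o01, o10]; ring
    · right; unfold sl2G_h9
      rw [h1, (sl2_neg_entries_h9 (1 : SL(2, F))).2.1, (sl2_neg_entries_h9 (1 : SL(2, F))).2.2.1,
        o01, o10]
      ring
  have hxyxy : ((QuotientGroup.mk (sl2J_h9 F) : Matrix.ProjectiveSpecialLinearGroup (Fin 2) F)
      * QuotientGroup.mk Y) * (QuotientGroup.mk (sl2J_h9 F) * QuotientGroup.mk Y) = 1 →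
      sl2B_h9 Y = 0 ∨ sl2G_h9 Y = 0 := by
    intro h
    rw [← QuotientGroup.mk_mul] at h
    rcases psl2_sq_one_h9 h2F (sl2J_h9 F * Y) h with h1 | h1 | h1
    · right; rw [← trJY]; exact h1
    · left
      have e01 : (sl2J_h9 F * Y).1 0 1 = (1 : SL(2, F)).1 0 1 := by rw [h1]
      have e10 : (sl2J_h9 F * Y).1 1 0 = (1 : SL(2, F)).1 1 0 := by rw [h1]
      rw [m01, o01] at e01
      rw [m10, o10] at e10
      unfold sl2B_h9
      linear_combination e10 - e01
    · left
      have e01 : (sl2J_h9 F * Y).1 0 1 = (-1 : SL(2, F)).1 0 1 := by rw [h1]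
      have e10 : (sl2J_h9 F * Y).1 1 0 = (-1 : SL(2, F)).1 1 0 := by rw [h1]
      rw [m01, (sl2_neg_entries_h9 (1 : SL(2, F))).2.1, o01] at e01
      rw [m10, (sl2_neg_entries_h9 (1 : SL(2, F))).2.2.1, o10] at e10
      unfold sl2B_h9
      linear_combination e10 - e01
  have hcomm : (QuotientGroup.mk (sl2J_h9 F) : Matrix.ProjectiveSpecialLinearGroup (Fin 2) F)
      * QuotientGroup.mk Y = QuotientGroup.mk Y * QuotientGroup.mk (sl2J_h9 F) →
      sl2G_h9 Y = 0 ∨ sl2B_h9 Y ^ 2 + sl2G_h9 Y ^ 2 = 1 := by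
    intro h
    rw [← QuotientGroup.mk_mul, ← QuotientGroup.mk_mul] at h
    rcases (psl2_mk_eq_iff_h9 _ _).mp h with h1 | h1
    · right
      have e00 : (sl2J_h9 F * Y).1 0 0 = (Y * sl2J_h9 F).1 0 0 := by rw [h1]
      have e01 : (sl2J_h9 F * Y).1 0 1 = (Y * sl2J_h9 F).1 0 1 := by rw [h1]
      rw [m00, r00] at e00
      rw [m01, r01] at e01
      obtain ⟨-, hdet⟩ := sl2_entries_h9 Y
      unfold sl2B_h9 sl2G_h9
      linear_combination 4 * hdet + h3F + (Y.1 0 0 - Y.1 1 1) * e01 + (-Y.1 1 0 - Y.1 0 1) * e00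
    · left
      have e00 : (sl2J_h9 F * Y).1 0 0 = (-(Y * sl2J_h9 F)).1 0 0 := by rw [h1]
      rw [m00, (sl2_neg_entries_h9 _).1, r00] at e00
      unfold sl2G_h9
      linear_combination e00
  constructor
  · intro hK
    have hxK := Subgroup.subset_closure (k :=
      ({QuotientGroup.mk (sl2J_h9 F), QuotientGroup.mk Y} :
        Set (Matrix.ProjectiveSpecialLinearGroup (Fin 2) F))) (Set.mem_insert _ _)
    have hyK := Subgroup.subset_closure (k :=
      ({QuotientGroup.mk (sl2J_h9 F), QuotientGroup.mk Y} :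
        Set (Matrix.ProjectiveSpecialLinearGroup (Fin 2) F)))
      (Set.mem_insert_of_mem _ (Set.mem_singleton _))
    rcases char3_proper_cases_h9 h4 hq hsub _ hK with ⟨α, hα, -⟩ | ⟨⟨e⟩⟩ | ⟨k, ⟨e⟩⟩ | hcomm'
    · exfalso
      haveI : Fact (Nat.Prime 2) := ⟨Nat.prime_two⟩
      have ho : orderOf (QuotientGroup.mk (sl2J_h9 F) :
          Matrix.ProjectiveSpecialLinearGroup (Fin 2) F) = 2 :=
        orderOf_eq_prime (by rw [pow_two]; exact hx2) hx1
      have h1 : orderOf (QuotientGroup.mk (sl2J_h9 F) :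
          Matrix.ProjectiveSpecialLinearGroup (Fin 2) F) ∣ Nat.card (borel_h9 F) := by
        have hmem : α (QuotientGroup.mk (sl2J_h9 F)) ∈ borel_h9 F := hα ⟨_, hxK, rfl⟩
        have : orderOf (α (QuotientGroup.mk (sl2J_h9 F))) = orderOf (QuotientGroup.mk (sl2J_h9 F) :
            Matrix.ProjectiveSpecialLinearGroup (Fin 2) F) := MulEquiv.orderOf_eq α _
        rw [← this]
        exact Subgroup.orderOf_dvd_natCard _ hmem
      obtain ⟨k₀, -, -, hpar, hB, -⟩ := top_struct_parity_h9 (p := 3) (F := F) h4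
      have hk₀ : 2 * k₀ = Fintype.card F - 1 := by
        rcases hpar with ⟨-, h⟩ | ⟨h, -⟩
        · exact h
        · omega
      rw [ho, hB] at h1
      rcases (Nat.Prime.dvd_mul Nat.prime_two).mp h1 with h | h
      · omega
      · obtain ⟨m, hm⟩ := h
        omega
    · -- A4
      have hg1 : e ⟨_, hxK⟩ ≠ 1 := by
        intro h
        apply hx1
        have : (⟨_, hxK⟩ : Subgroup.closure
            ({QuotientGroup.mk (sl2J_h9 F), QuotientGroup.mk Y} :
              Set (Matrix.ProjectiveSpecialLinearGroup (Fin 2) F))) = 1 := by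
          apply e.injective; rw [h, map_one]
        exact congrArg Subtype.val this
      have hg2 : e ⟨_, hxK⟩ * e ⟨_, hxK⟩ = 1 := by
        rw [← map_mul]
        have : (⟨_, hxK⟩ : Subgroup.closure
            ({QuotientGroup.mk (sl2J_h9 F), QuotientGroup.mk Y} :
              Set (Matrix.ProjectiveSpecialLinearGroup (Fin 2) F))) * ⟨_, hxK⟩ = 1 :=
          Subtype.ext hx2
        rw [this, map_one]
      rcases a4_factB_h9 (e ⟨_, hxK⟩) (e ⟨_, hyK⟩) hg1 hg2 with h | ⟨h3, h3'⟩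
      · have : (⟨_, hyK⟩ : Subgroup.closure
            ({QuotientGroup.mk (sl2J_h9 F), QuotientGroup.mk Y} :
              Set (Matrix.ProjectiveSpecialLinearGroup (Fin 2) F))) * ⟨_, hyK⟩ = 1 := by
          apply e.injective; rw [map_mul, map_one]; exact h
        rcases hyy (congrArg Subtype.val this) with h' | h'
        · left; exact h'
        · right; left; exact h'
      · right; right; right
        have hy3 : (QuotientGroup.mk Y : Matrix.ProjectiveSpecialLinearGroup (Fin 2) F) ^ 3 = 1 := by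
          have : (⟨_, hyK⟩ : Subgroup.closure
              ({QuotientGroup.mk (sl2J_h9 F), QuotientGroup.mk Y} :
                Set (Matrix.ProjectiveSpecialLinearGroup (Fin 2) F))) ^ 3 = 1 := by
            apply e.injective; rw [map_pow, map_one]; exact h3
          exact congrArg Subtype.val this
        have hxy3 : ((QuotientGroup.mk (sl2J_h9 F) :
            Matrix.ProjectiveSpecialLinearGroup (Fin 2) F) * QuotientGroup.mk Y) ^ 3 = 1 := by
          have : ((⟨_, hxK⟩ : Subgroup.closure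
              ({QuotientGroup.mk (sl2J_h9 F), QuotientGroup.mk Y} :
                Set (Matrix.ProjectiveSpecialLinearGroup (Fin 2) F))) * ⟨_, hyK⟩) ^ 3 = 1 := by
            apply e.injective; rw [map_pow, map_mul, map_one]; exact h3'
          exact congrArg Subtype.val this
        have hb := (psl2_cube_iff_h9 Y).mp hy3
        rw [← QuotientGroup.mk_mul] at hxy3
        have hg := (psl2_cube_iff_h9 (sl2J_h9 F * Y)).mp hxy3
        rw [trJY] at hg
        refine ⟨?_, ?_⟩
        · unfold sl2B_h9; linear_combination hb + h3F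
        · linear_combination hg + h3F
    · rcases dih_invol2_h9 e ⟨_, hxK⟩ ⟨_, hyK⟩ with h | h | h
      · rcases hyy (congrArg Subtype.val h) with h' | h'
        · left; exact h'
        · right; left; exact h'
      · rcases hxyxy (congrArg Subtype.val h) with h' | h'
        · left; exact h'
        · right; left; exact h'
      · rcases hcomm (congrArg Subtype.val h) with h' | h'
        · right; left; exact h'
        · right; right; left; exact h'
    · rcases hcomm (congrArg Subtype.val (hcomm' ⟨_, hxK⟩ ⟨_, hyK⟩)) with h' | h'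
      · right; left; exact h'
      · right; right; left; exact h'
  · rintro (hB | hG | hS | ⟨hB, hG⟩)
    · exact closure_pair_ne_top_of_invol_h9 hns _ _ hx1 hx2
        (Or.inl (psl2_sq_of_trace_h9 Y hB))
    · have := psl2_sq_of_trace_h9 (sl2J_h9 F * Y) (by rw [trJY]; exact hG)
      rw [QuotientGroup.mk_mul] at this
      exact closure_pair_ne_top_of_invol_h9 hns _ _ hx1 hx2 (Or.inr this)
    · obtain ⟨-, hdet⟩ := sl2_entries_h9 Y
      unfold sl2B_h9 sl2G_h9 at hS
      obtain ⟨h1, h2⟩ := sum_sq_zero_h9 hq4 (Y.1 0 0 - Y.1 1 1) (Y.1 0 1 + Y.1 1 0)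
        (by linear_combination hS - 4 * hdet - h3F)
      have hJY : sl2J_h9 F * Y = Y * sl2J_h9 F := by
        apply sl2_ext_h9
        · rw [m00, r00]; linear_combination -h2
        · rw [m01, r01]; linear_combination h1
        · rw [m10, r10]; linear_combination h1
        · rw [m11, r11]; linear_combination h2
      apply closure_pair_ne_top_of_norm_h9 hns _ _ (QuotientGroup.mk (sl2J_h9 F)) hx1
      · left; group
      · left
        rw [mul_inv_eq_iff_eq_mul, ← QuotientGroup.mk_mul, ← QuotientGroup.mk_mul, hJY]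
    · have hy3 : (QuotientGroup.mk Y : Matrix.ProjectiveSpecialLinearGroup (Fin 2) F) ^ 3 = 1 := by
        apply (psl2_cube_iff_h9 Y).mpr
        unfold sl2B_h9 at hB
        linear_combination hB - h3F
      have hxy3 : ((QuotientGroup.mk (sl2J_h9 F) :
          Matrix.ProjectiveSpecialLinearGroup (Fin 2) F) * QuotientGroup.mk Y) ^ 3 = 1 := by
        rw [← QuotientGroup.mk_mul]
        apply (psl2_cube_iff_h9 _).mpr
        rw [trJY]
        linear_combination hG - h3F
      exact closure_pair_ne_top_of_a4_h9 hns _ _ hx1 hx2 hy3 hxy3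

/-- the solubilizer of an involution of `PSL(2, 3^p)` has `q (q + 1)` elements. -/
theorem invol3_sol_card_h9 (h4 : 4 ≤ Fintype.card F)
    (hq : Fintype.card F % 240 = 3 ∨ Fintype.card F % 240 = 27)
    (hsub : ∀ q₁ r : ℕ, 4 ≤ q₁ → Fintype.card F = q₁ ^ r → r = 1)
    (x : Matrix.ProjectiveSpecialLinearGroup (Fin 2) F) (ho : orderOf x = 2) :
    Nat.card {y : Matrix.ProjectiveSpecialLinearGroup (Fin 2) F //
      Subgroup.closure ({x, y} : Set (Matrix.ProjectiveSpecialLinearGroup (Fin 2) F)) ≠ ⊤}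
      = Fintype.card F * (Fintype.card F + 1) := by
  have hq4 : Fintype.card F % 4 = 3 := by omega
  have hx1 : x ≠ 1 := by
    rintro rfl
    rw [orderOf_one] at ho
    omega
  have hx2 : x * x = 1 := by
    have := pow_orderOf_eq_one x
    rw [ho, pow_two] at this
    exact this
  obtain ⟨α, hα⟩ := invol3_conj_h9 hq4 x hx1 hx2
  have h := card_psl2_odd_h9 (char3_two_ne_zero_h9 (F := F))
    (fun y => Subgroup.closure ({QuotientGroup.mk (sl2J_h9 F), y} :
      Set (Matrix.ProjectiveSpecialLinearGroup (Fin 2) F)) ≠ ⊤)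
    (fun Y => sl2B_h9 Y = 0 ∨ sl2G_h9 Y = 0 ∨ sl2B_h9 Y ^ 2 + sl2G_h9 Y ^ 2 = 1 ∨
      (sl2B_h9 Y ^ 2 = 1 ∧ sl2G_h9 Y ^ 2 = 1))
    (invol3_sol_iff_h9 h4 hq hsub)
  rw [card_sl2_invol3_h9 hq4, mul_assoc] at h
  rw [← card_nontop_map_h9 α x, hα]
  exact Nat.eq_of_mul_eq_mul_left (by norm_num) h

end char3

end Cfsg.Agent.Helper9
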